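import Mathlib
import Cfsg.Agent.H13.SzBasic

/-! Martineau's theorem (modules for `Sz(q)` on which the odd-order elements are fixed-point-free): definitions. -/

set_option autoImplicit false
namespace Cfsg.Agent.H27.Mt
open Matrix Cfsg.Agent.H13

universe u
variable {G : Type*} [Group G] {F : Type} [Field F]

/-- the norm of every non-trivial odd-order element vanishes -/
def Nz {k E : Type*} [CommRing k] [AddCommGroup E] [Module k E] (π : G →* (E →ₗ[k] E)) : Prop :=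
  ∀ g : G, Odd (orderOf g) → g ≠ 1 → ∀ x : E, ∑ i ∈ Finset.range (orderOf g), π (g ^ i) x = 0

/-- the natural module twisted by `τ` -/
def nat (S : SzData G F) (τ : F →+* F) (g : G) (x : Fin 4 → F) : Fin 4 → F := ((S.ρ g).map τ) *ᵥ x

/-- `g - 1` -/
def D {k E : Type*} [CommRing k] [AddCommGroup E] [Module k E] (π : G →* (E →ₗ[k] E)) (g : G) : E →ₗ[k] E :=
  π g - 1

section
variable (S : SzData G F) {E : Type*} [AddCommGroup E] [Module F E]

/-- `φ` is a `G`-map from the twisted natural module -/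
def GM (τ : F →+* F) (π : G →* (E →ₗ[F] E)) (φ : (Fin 4 → F) →ₗ[F] E) : Prop :=
  ∀ g x, φ (nat S τ g x) = π g (φ x)

/-- the centre of the Sylow 2-subgroup acts quadratically -/
def I1 (π : G →* (E →ₗ[F] E)) : Prop := ∀ b c x, D π (S.u 0 b) (D π (S.u 0 c) x) = 0

def I2 (π : G →* (E →ₗ[F] E)) : Prop :=
  ∀ a b a' b' c x, D π (S.u a b) (D π (S.u a' b') (D π (S.u 0 c) x)) = 0

/-- the sum of the natural submodules -/
def Sp (π : G →* (E →ₗ[F] E)) : Submodule F E :=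
  ⨆ p : {p : (F →+* F) × ((Fin 4 → F) →ₗ[F] E) // Function.Injective p.2 ∧ GM S p.1 π p.2},
    LinearMap.range p.1.2

/-- `E` is an extension of the natural module `τ₂` (sub) by the natural module `τ₁` (quotient) -/
structure Two (τ₁ τ₂ : F →+* F) (π : G →* (E →ₗ[F] E)) (j : (Fin 4 → F) →ₗ[F] E)
    (pr : E →ₗ[F] (Fin 4 → F)) : Prop where
  jinj : Function.Injective j
  jG : GM S τ₂ π j
  psurj : Function.Surjective pr
  pG : ∀ g x, pr (π g x) = nat S τ₁ g (pr x)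
  ex : ∀ x, pr x = 0 ↔ x ∈ LinearMap.range j

/-- highest weight data -/
structure HW (π : G →* (E →ₗ[F] E)) (v : E) (f : E →ₗ[F] F) (χ : Fˣ → F) : Prop where
  fixu : ∀ a b, π (S.u a b) v = v
  eig : ∀ k, π (S.h k) v = χ k • v
  fv : f v = 1
  finv : ∀ a b, ∀ x ∈ Submodule.span F (Set.range fun g => π g v), f (π (S.w * S.u a b * S.w) x) = f x
  sep : ∀ x ∈ Submodule.span F (Set.range fun g => π g v), (∀ g, f (π g x) = 0) → x = 0
end

def C1 (S : SzData G F) : Prop :=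
  ∀ (E : Type u) [AddCommGroup E] [Module F E] [Finite E] [Nontrivial E] (π : G →* (E →ₗ[F] E)), Nz π →
    ∃ (τ : F →+* F) (φ : (Fin 4 → F) →ₗ[F] E), Function.Injective φ ∧ GM S τ π φ

def Ext (S : SzData G F) : Prop :=
  ∀ (E : Type u) [AddCommGroup E] [Module F E] (π : G →* (E →ₗ[F] E)) τ₁ τ₂ j pr, Two S τ₁ τ₂ π j pr →
    I1 S π ∧ I2 S π

def SS (S : SzData G F) : Prop :=
  ∀ (E : Type u) [AddCommGroup E] [Module F E] [Finite E] (π : G →* (E →ₗ[F] E)), Nz π → I1 S π → I2 S π →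
    Sp S π = ⊤

def Main (S : SzData G F) : Prop :=
  ∀ (E : Type u) [AddCommGroup E] [Module F E] [Finite E] (π : G →* (E →ₗ[F] E)), Nz π → I1 S π ∧ Sp S π = ⊤

def Bil (S : SzData G F) : Prop :=
  ∀ (E : Type u) [AddCommGroup E] [Module F E] (π : G →* (E →ₗ[F] E)), Nz π → I1 S π →
    ∀ τ₁ τ₂ (β : (Fin 4 → F) →ₗ[F] (Fin 4 → F) →ₗ[F] E),
      (∀ g x y, β (nat S τ₁ g x) (nat S τ₂ g y) = π g (β x y)) → β = 0

def Irr (S : SzData G F) : Prop :=
  ∀ (A : Type u) [AddCommGroup A] (π : G →* (A →ₗ[ℤ] A)) τ (ψ : (Fin 4 → F) →+ A),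
    (∀ g x, ψ (nat S τ g x) = π g (ψ x)) → ψ ≠ 0 → Function.Injective ψ

def Det (S : SzData G F) : Prop :=
  ∀ (A : Type u) [AddCommGroup A] (π : G →* (A →ₗ[ℤ] A)) τ (j : (Fin 4 → F) →+ A) (pr : A →+ (Fin 4 → F)),
    Function.Injective j → Function.Surjective pr → (∀ g x, pr (π g x) = nat S τ g (pr x)) →
    (∀ a, j (pr a) = 2 • a) → (∀ a, pr a = 0 → a ∈ j.range) → False

def DA (G : Type*) [Group G] : Prop :=
  ∀ (U M : Type u) [AddCommGroup U] [Module (ZMod 2) U] [Finite U] [AddCommGroup M] [Module (ZMod 2) M] [Finite M]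
    (πU : G →* (U →ₗ[ZMod 2] U)) (πM : G →* (M →ₗ[ZMod 2] M)), Nz πU → Nz πM →
    ∀ β : U →ₗ[ZMod 2] U →ₗ[ZMod 2] M, (∀ g x y, β (πU g x) (πU g y) = πM g (β x y)) → β = 0

def DB (G : Type*) [Group G] : Prop :=
  ∀ (A : Type u) [AddCommGroup A] [Finite A] (π : G →* (A →ₗ[ℤ] A)), Nz π → (∀ a : A, 4 • a = 0) →
    (∀ B : AddSubgroup A, (∀ b ∈ B, ∃ a, b = 2 • a) → (∀ g, ∀ b ∈ B, π g b ∈ B) → B = ⊥ ∨ ∀ a : A, 2 • a ∈ B) →
    ∀ a : A, 2 • a = 0

/-- odd-order elements act fixed-point-freely on `N` -/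
def Fp {X : Type*} [Group X] (N : Subgroup X) : Prop :=
  ∀ x : X, Odd (orderOf x) → x ≠ 1 → ∀ n ∈ N, x * n = n * x → n = 1

def Core (G : Type*) [Group G] : Prop :=
  ∀ (X : Type u) [Group X] [Finite X] (N M : Subgroup X) [N.Normal] [M.Normal], IsPGroup 2 N →
    Nonempty (X ⧸ N ≃* G) → Fp N → M ≤ N → (∀ K : Subgroup X, K.Normal → K ≤ M → K = ⊥ ∨ K = M) →
    (∀ x ∈ N, x * x ∈ M) → ∀ x ∈ N, x * x = 1

theorem lift {X : Type*} [Group X] [Finite X] {N : Subgroup X} [N.Normal] (hN : IsPGroup 2 N) (e : X ⧸ N ≃* G)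
    {g : G} (hg : Odd (orderOf g)) : ∃ x : X, e (x : X ⧸ N) = g ∧ orderOf x = orderOf g := by
  obtain ⟨y, hy⟩ := QuotientGroup.mk_surjective (e.symm g)
  have hy' : e (y : X ⧸ N) = g := by rw [hy, MulEquiv.apply_symm_apply]
  have h1 : y ^ orderOf g ∈ N := by
    rw [← QuotientGroup.eq_one_iff, QuotientGroup.mk_pow]
    apply e.injective
    rw [map_pow, hy', pow_orderOf_eq_one, map_one]
  obtain ⟨k, hk⟩ := hN ⟨_, h1⟩
  have hk' : (y ^ orderOf g) ^ 2 ^ k = 1 := by simpa using congrArg Subtype.val hk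
  have hc : (2 ^ k).Coprime (orderOf g) := Nat.Coprime.pow_left _ ((Nat.coprime_two_left).2 hg)
  obtain ⟨r, hr⟩ : ∃ r, g ^ (2 ^ k * r) = g := by
    obtain ⟨r, hr⟩ := exists_pow_eq_self_of_coprime (x := g) hc
    exact ⟨r, by rw [pow_mul]; exact hr⟩
  have he : e ((y ^ (2 ^ k * r) : X) : X ⧸ N) = g := by rw [QuotientGroup.mk_pow, map_pow, hy', hr]
  refine ⟨y ^ (2 ^ k * r), he, Nat.dvd_antisymm ?_ ?_⟩
  · apply orderOf_dvd_of_pow_eq_one
    rw [← pow_mul, show 2 ^ k * r * orderOf g = orderOf g * 2 ^ k * r by ring, pow_mul, pow_mul, hk', one_pow]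
  · apply orderOf_dvd_of_pow_eq_one
    rw [← he, ← map_pow, ← QuotientGroup.mk_pow, pow_orderOf_eq_one, QuotientGroup.mk_one, map_one]

variable (S : SzData G F)

theorem nat_mul (τ : F →+* F) (g h : G) (x : Fin 4 → F) : nat S τ (g * h) x = nat S τ g (nat S τ h x) := by
  simp [nat, Matrix.map_mul, Matrix.mulVec_mulVec]

theorem nat_one (τ : F →+* F) (x : Fin 4 → F) : nat S τ 1 x = x := by
  simp [nat]

theorem nat_add (τ : F →+* F) (g : G) (x y : Fin 4 → F) : nat S τ g (x + y) = nat S τ g x + nat S τ g y := by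
  simp [nat, Matrix.mulVec_add]

theorem nat_smul (τ : F →+* F) (g : G) (c : F) (x : Fin 4 → F) : nat S τ g (c • x) = c • nat S τ g x := by
  simp [nat, Matrix.mulVec_smul]

theorem nat_u (τ : F →+* F) (a b : F) (x : Fin 4 → F) : nat S τ (S.u a b) x =
    ![x 0 + τ a * x 1 + τ (b + a * S.θ a) * x 2 + τ (szf S.θ a b) * x 3, x 1 + τ (S.θ a) * x 2 + τ b * x 3,
      x 2 + τ a * x 3, x 3] := by
  ext i
  fin_cases i <;> simp [nat, S.ρ_u, szU, Matrix.mulVec, dotProduct, Fin.sum_univ_four]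

theorem nat_w (τ : F →+* F) (x : Fin 4 → F) : nat S τ S.w x = ![x 3, x 2, x 1, x 0] := by
  ext i
  fin_cases i <;> simp [nat, S.ρ_w, suzukiForm, Matrix.mulVec, dotProduct, Fin.sum_univ_four]

theorem nat_h (τ : F →+* F) (k : Fˣ) (x : Fin 4 → F) : nat S τ (S.h k) x =
    ![τ ((k : F) ^ 2 ^ S.m * k) * x 0, τ ((k : F) ^ 2 ^ S.m) * x 1, (τ ((k : F) ^ 2 ^ S.m))⁻¹ * x 2,
      (τ ((k : F) ^ 2 ^ S.m * k))⁻¹ * x 3] := by
  ext i
  fin_cases i <;> simp [nat, S.ρ_h, szH, Matrix.mulVec, dotProduct, Fin.sum_univ_four, S.θ_root, -map_pow]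

theorem D_apply {k E : Type*} [CommRing k] [AddCommGroup E] [Module k E] (π : G →* (E →ₗ[k] E)) (g : G) (x : E) :
    D π g x = π g x - x := rfl

theorem Nz.fix {k E : Type*} [CommRing k] [AddCommGroup E] [Module k E] {π : G →* (E →ₗ[k] E)} (h : Nz π)
    (h2 : ∀ x : E, 4 • x = 0) {g : G} (ho : Odd (orderOf g)) (h1 : g ≠ 1) {x : E} (hx : π g x = x) : x = 0 := by
  have hp : ∀ i : ℕ, π (g ^ i) x = x := by
    intro i
    induction i with
    | zero => simp
    | succ i ih => rw [pow_succ, map_mul, Module.End.mul_apply, hx, ih]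
  have := h g ho h1 x
  simp only [hp, Finset.sum_const, Finset.card_range] at this
  obtain ⟨r, hr⟩ := ho
  have h3 : (orderOf g * orderOf g) • x = 0 := by rw [mul_smul, this, smul_zero]
  rw [hr, show (2 * r + 1) * (2 * r + 1) = (r * r + r) * 4 + 1 by ring, add_smul, mul_smul, h2, smul_zero,
    zero_add, one_smul] at h3
  exact h3

/-- an alternating biadditive map with a field-automorphism weight vanishes (Hua) -/
theorem alt0 (η : F → F → F) (σ : F →+* F) (h1 : ∀ a b c, η (a + b) c = η a c + η b c)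
    (h2 : ∀ a b c, η a (b + c) = η a b + η a c) (h0 : ∀ a, η a a = 0)
    (hw : ∀ k a b, k ≠ 0 → η (k * a) (k * b) = σ k * η a b) (S : SzData G F) (a b : F) : η a b = 0 := by
  haveI := S.charP
  have two : (2 : F) = 0 := CharP.cast_eq_zero F 2
  have sy : ∀ a b, η a b = η b a := fun a b => by
    have := h0 (a + b)
    rw [h1, h2, h2, h0, h0] at this
    linear_combination this - η b a * two
  have z : ∀ a, η a 0 = 0 := fun a => by
    have := h2 a 0 0
    rw [add_zero] at this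
    linear_combination -this
  have key : ∀ x, η x 1 = 0 := by
    intro x
    obtain ⟨y, rfl⟩ := S.exists_sq_eq x
    by_cases hy : y = 0
    · rw [hy, sy]; simpa using z 1
    by_cases hy1 : y + 1 = 0
    · have : y = 1 := by linear_combination hy1 - two
      rw [this]; simpa using h0 1
    have e1 := hw y (y + 1) 1 hy
    have e2 := hw (y + 1) y 1 hy1
    have e3 : η (y * (y + 1)) (y + 1) = η (y * (y + 1)) y + η (y * (y + 1)) 1 := h2 _ _ _
    have e4 : η (y + 1) 1 = η y 1 := by rw [h1, h0, add_zero]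
    have e5 : η (y * (y + 1)) 1 = η (y ^ 2) 1 + η y 1 := by rw [← h1]; congr 1; ring
    rw [mul_one] at e1 e2
    rw [mul_comm (y + 1) y] at e2
    rw [e1, e2, e4, e5, map_add, map_one] at e3
    linear_combination -e3
  by_cases hb : b = 0
  · rw [hb, z]
  have := hw b (a / b) 1 hb
  rw [key, mul_zero, mul_one, mul_div_cancel₀ _ hb] at this
  exact this

def U0 : Matrix (Fin 4) (Fin 4) (ZMod 2) := !![1, 1, 1, 1; 0, 1, 1, 0; 0, 0, 1, 1; 0, 0, 0, 1]
def W0 : Matrix (Fin 4) (Fin 4) (ZMod 2) := !![0, 0, 0, 1; 0, 0, 1, 0; 0, 1, 0, 0; 1, 0, 0, 0]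

theorem five : (S.w * S.u 1 0 ^ 2) ^ 5 = 1 ∧ (S.w * S.u 1 0 ^ 2) ^ 2 = S.u 1 0 * S.w * S.u 1 0 ∧
    (S.w * S.u 1 0 ^ 2) ^ 3 = S.u 1 0 ^ 3 * S.w * S.u 1 0 ^ 3 ∧ (S.w * S.u 1 0 ^ 2) ^ 4 = S.u 1 0 ^ 2 * S.w ∧
    S.w * S.u 1 0 ^ 2 ≠ 1 := by
  haveI := S.charP
  let ι := (ZMod.castHom (dvd_refl 2) F).mapMatrix (m := Fin 4)
  have hu : S.ρ (S.u 1 0) = ι U0 := by
    ext i j
    fin_cases i <;> fin_cases j <;> simp [ι, S.ρ_u, szU, szf, U0]
  have hw : S.ρ S.w = ι W0 := by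
    ext i j
    fin_cases i <;> fin_cases j <;> simp [ι, S.ρ_w, suzukiForm, W0]
  have a1 : (W0 * U0 ^ 2) ^ 5 = 1 := by decide
  have a2 : (W0 * U0 ^ 2) ^ 2 = U0 * W0 * U0 := by decide
  have a3 : (W0 * U0 ^ 2) ^ 3 = U0 ^ 3 * W0 * U0 ^ 3 := by decide
  have a4 : (W0 * U0 ^ 2) ^ 4 = U0 ^ 2 * W0 := by decide
  refine ⟨S.inj ?_, S.inj ?_, S.inj ?_, S.inj ?_, fun h => ?_⟩
  · have := congrArg ι a1
    simpa only [map_pow, map_mul, map_one, hu, hw] using this
  · have := congrArg ι a2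
    simpa only [map_pow, map_mul, map_one, hu, hw] using this
  · have := congrArg ι a3
    simpa only [map_pow, map_mul, map_one, hu, hw] using this
  · have := congrArg ι a4
    simpa only [map_pow, map_mul, map_one, hu, hw] using this
  · have := congrFun (congrArg (fun g => nat S (RingHom.id F) g ![1, 0, 0, 0]) h) 0
    simp [pow_two, nat_mul, nat_u, nat_w, nat_one] at this

theorem orderOf_five : orderOf (S.w * S.u 1 0 ^ 2) = 5 :=
  haveI : Fact (Nat.Prime 5) := ⟨by norm_num⟩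
  orderOf_eq_prime (five S).1 (five S).2.2.2.2

/-- the basic relation: the norm of the element `w u²` of order 5 -/
theorem rel5 {k E : Type*} [CommRing k] [AddCommGroup E] [Module k E] {π : G →* (E →ₗ[k] E)} (h : Nz π) (x : E) :
    x + π (S.w * S.u 1 0 ^ 2) x + π (S.u 1 0 * S.w * S.u 1 0) x + π (S.u 1 0 ^ 3 * S.w * S.u 1 0 ^ 3) x +
      π (S.u 1 0 ^ 2 * S.w) x = 0 := by
  have := h _ (by rw [orderOf_five]; decide) (five S).2.2.2.2 x
  rw [orderOf_five] at this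
  simpa only [Finset.sum_range_succ, Finset.sum_range_zero, zero_add, pow_zero, map_one, Module.End.one_apply,
    pow_one, (five S).2.1, (five S).2.2.1, (five S).2.2.2.1] using this

end Cfsg.Agent.H27.Mt
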