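import Cfsg.Agent.H7.Bf0

/-! Piece (b1a): fusion in the coset `T u`. -/

set_option autoImplicit false
set_option linter.unusedSectionVars false
set_option linter.unusedVariables false

namespace Cfsg.Agent.H7.Bf

open Subgroup Cfsg.Agent.H19.Gt Cfsg.Agent.H1.G2

universe u

variable {G : Type u} {K : Type*} [Group G] [Finite G] [CommGroup K] {τ : K × K →* G} {u v : G} {z : K}
  {S : Sylow 2 G}

theorem b1a_g (h : Gz (S : Subgroup G) τ u v z) (hy : IsConj (τ (z, 1)) (τ (z, z))) :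
    ∃ g : G, g * τ (z, 1) * g⁻¹ = τ (z, z) ∧
      ∀ s ∈ (S : Subgroup G), s * τ (z, 1) = τ (z, 1) * s → g * s * g⁻¹ ∈ (S : Subgroup G) := by
  obtain ⟨g, hg⟩ := isConj_iff.1 hy
  obtain ⟨k, k', e, h1, h2⟩ := twosyl S hg
  let φ : ↥(S : Subgroup G) → ↥(S : Subgroup G) := fun s => ⟨k * s.1 * k⁻¹, h1 _ s.2 (h.t_cen s.2)⟩
  have inj : Function.Injective φ := fun s s' e => by
    have e1 : k * s.1 * k⁻¹ = k * s'.1 * k⁻¹ := congrArg Subtype.val e
    exact Subtype.ext (by simpa using e1)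
  refine ⟨k⁻¹ * k', ?_, fun s hs es => ?_⟩
  · calc k⁻¹ * k' * τ (z, 1) * (k⁻¹ * k')⁻¹ = k⁻¹ * (k' * τ (z, 1) * k'⁻¹) * k := by group
      _ = _ := by rw [← e]; group
  · obtain ⟨s', e1⟩ := Finite.injective_iff_surjective.1 inj ⟨_, h2 s hs es⟩
    have e2 : k * s'.1 * k⁻¹ = k' * s * k'⁻¹ := congrArg Subtype.val e1
    have e3 : k⁻¹ * k' * s * (k⁻¹ * k')⁻¹ = s'.1 := by
      calc k⁻¹ * k' * s * (k⁻¹ * k')⁻¹ = k⁻¹ * (k' * s * k'⁻¹) * k := by group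
        _ = _ := by rw [← e2]; group
    rw [e3]; exact s'.2

theorem b1a (h : Gz (S : Subgroup G) τ u v z) (h4 : Nat.card K = 4) (hy : IsConj (τ (z, 1)) (τ (z, z)))
    {ρ : K} (hρ : ρ * ρ = z) : IsConj u (τ (ρ, 1) * u) ∨ IsConj (τ (ρ, ρ) * u) (τ (ρ, 1) * u) := by
  have G1 := h.toGs
  obtain ⟨g, hg, hS⟩ := b1a_g h hy
  have sq : ∀ c : K, c * c = 1 ∨ c * c = z := fun c => h.inv2 (by
    have := pow_card_eq_one' (x := c)
    rw [h4] at this
    rw [← this]; simp only [pow_succ, pow_zero, one_mul, mul_assoc])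
  have A : ∀ {c : K}, c * c = 1 → ∃ k, c = 1 * (k * k) := fun {c} e => by
    rcases h.inv2 e with rfl | rfl
    exacts [⟨1, by simp⟩, ⟨ρ, by rw [hρ, one_mul]⟩]
  have B : ∀ {c : K}, c * c = z → ∃ k, c = ρ * (k * k) := fun {c} e => by
    obtain ⟨k, hk⟩ := A (c := ρ⁻¹ * c) (by rw [mul_mul_mul_comm, e, ← mul_inv, hρ, inv_mul_cancel])
    exact ⟨k, by rw [← one_mul (k * k), ← hk, mul_inv_cancel_left]⟩
  have C : ∀ {α β c d : K}, (∃ k, c = α * (k * k)) → (∃ l, d = β * (l * l)) →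
      IsConj (τ (α, β) * u) (τ (c, d) * u) := by
    rintro α β _ _ ⟨k, rfl⟩ ⟨l, rfl⟩
    refine isConj_iff.2 ⟨τ (k, l), ?_⟩
    rw [tinv, mul_assoc, mul_assoc, G1.ut, tm', tm', inv_inv, inv_inv]
    congr 3 <;> ac_rfl
  have hT : ∀ a b, g * τ (a, b) * g⁻¹ ∈ (S : Subgroup G) := fun a b =>
    hS _ (G1.tS a b) (by rw [tm, tm, mul_comm a, mul_comm b])
  have wc := G1.wc (ρ := ρ) (hρ ▸ h.z1) (hρ ▸ h.zz) (fun a e => hρ ▸ h.inv2 e) hT
  obtain ⟨p, q, e1⟩ := wc ρ 1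
  obtain ⟨r, s, e2⟩ := wc 1 ρ
  have pq : p * p = z ∧ q * q = z := G1.teq.1 (by rw [← tm, ← e1, cj_mul, tm, hρ, mul_one, hg])
  have rs : r * r ≠ s * s := fun e => by
    have e3 : g * τ (1, z) * g⁻¹ = τ (r * r, s * s) := by rw [← tm, ← e2, cj_mul, tm, hρ, mul_one]
    rw [← e] at e3
    rcases sq r with e4 | e4 <;> rw [e4] at e3
    · rw [t1, cj_one] at e3
      exact h.z1 (G1.teq1.1 e3).2
    · rw [← hg] at e3
      exact h.z1 (G1.teq.1 (mul_left_cancel (mul_right_cancel e3))).2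
  have iv : ∀ {a b c d : K}, g * τ (a, b) * g⁻¹ = τ (c, d) →
      g * u * g⁻¹ * τ (c, d) = τ (c⁻¹, d⁻¹) * (g * u * g⁻¹) := fun {a b c d} e => by
    rw [← tinv, ← e, cj_mul, G1.ut, ← tinv]; group
  have hu : g * u * g⁻¹ ∈ (S : Subgroup G) := hS _ G1.uS (by rw [G1.ut, h.zi, inv_one])
  have i1 := iv e1
  have i2 := iv e2
  obtain ⟨a, b, e | e | e | e⟩ := (G1.mem _).1 hu
  · rw [e, tm, tm, G1.teq, mul_comm a, mul_left_inj] at i1
    exact (h.z1 (by rw [← pq.1]; exact mul_eq_one_iff_eq_inv.2 i1.1)).elim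
  · have cu : IsConj u (τ (a, b) * u) := isConj_iff.2 ⟨g, e⟩
    have cx : IsConj (τ (ρ, 1) * u) (τ (p * a, q * b) * u) :=
      isConj_iff.2 ⟨g, by rw [← cj_mul, e1, e, tm']⟩
    rcases sq a with ea | ea <;> rcases sq b with eb | eb
    · exact .inr ((C (B (by rw [mul_mul_mul_comm, pq.1, ea, mul_one]))
        (B (by rw [mul_mul_mul_comm, pq.2, eb, mul_one]))).trans cx.symm)
    · refine .inl (cu.trans ((C (A ea) (B eb)).symm.trans (isConj_iff.2 ⟨v, ?_⟩)))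
      rw [G1.vt', ← G1.uv, mul_assoc, mul_inv_cancel_right]
    · exact .inl (cu.trans (C (B ea) (A eb)).symm)
    · have := (C (A (c := p * a) (by rw [mul_mul_mul_comm, pq.1, ea, h.zz]))
        (A (c := q * b) (by rw [mul_mul_mul_comm, pq.2, eb, h.zz]))).trans cx.symm
      rw [t1, one_mul] at this
      exact .inl this
  · rw [e, mul_assoc, G1.vt, tm', tm', mul_left_inj, G1.teq, mul_comm a, mul_left_inj] at i2
    refine (rs ?_).elim
    rw [i2.1, ← mul_inv]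
    rcases sq r with e4 | e4 <;> rw [e4]
    exacts [inv_one.symm, h.zi.symm]
  · rw [e, mul_assoc, mul_assoc, G1.vt, G1.ut', tm', tm', mul_left_inj, G1.teq, mul_comm a, mul_left_inj,
      inv_inj] at i2
    exact (rs (by rw [i2.1])).elim

end Cfsg.Agent.H7.Bf
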