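import Cfsg.Agent.H7.Bf0
import Cfsg.Agent.H2.Cores

/-! Piece (b3): passing to the quotient by the odd core. -/

set_option autoImplicit false
set_option linter.unusedSectionVars false
set_option linter.unusedVariables false

namespace Cfsg.Agent.H7.Bf

open Subgroup Cfsg.Agent.H19.Gt Cfsg.Agent.H1.G2

universe u

variable {G : Type u} {K : Type*} [Group G] [Finite G] [CommGroup K] {τ : K × K →* G} {u v : G} {z : K}
  {S : Sylow 2 G}

theorem b3_dih {a b : G} (aa : a * a = 1) (bb : b * b = 1) (ho : Odd (orderOf (a * b))) : IsConj b a := by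
  obtain ⟨k, hk⟩ := ho
  have ai : a⁻¹ = a := inv_eq_of_mul_eq_one_right aa
  have bi : b⁻¹ = b := inv_eq_of_mul_eq_one_right bb
  have s : SemiconjBy b (a * b)⁻¹ (a * b) := by
    unfold SemiconjBy
    rw [mul_inv_rev, ai, bi, ← mul_assoc, bb, one_mul, mul_assoc, bb, mul_one]
  refine isConj_iff.2 ⟨(a * b) ^ (k + 1), ?_⟩
  rw [← inv_pow, mul_assoc, (s.pow_right (k + 1)).eq, ← mul_assoc, ← pow_add,
    show k + 1 + (k + 1) = orderOf (a * b) + 1 by omega, pow_succ, pow_orderOf_eq_one, one_mul, mul_assoc,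
    bb, mul_one]

theorem b3_odd {o : G} (ho : QuotientGroup.mk' (oddCore G) o = 1) : (orderOf o).Coprime 2 :=
  Nat.Coprime.coprime_dvd_left (orderOf_dvd_natCard (oddCore G) ((QuotientGroup.eq_one_iff o).1 ho))
    (Cfsg.Agent.H2.pPrimeCore_coprime (G := G) (p := 2))

theorem b3_lift {a b : G} (aa : a * a = 1) (bb : b * b = 1)
    (h : IsConj (QuotientGroup.mk' (oddCore G) a) (QuotientGroup.mk' (oddCore G) b)) : IsConj a b := by
  obtain ⟨c, hc⟩ := isConj_iff.1 h
  obtain ⟨c, rfl⟩ := QuotientGroup.mk'_surjective (oddCore G) c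
  have e : QuotientGroup.mk' (oddCore G) (c * a * c⁻¹ * b) = 1 := by
    rw [map_mul, map_mul, map_mul, map_inv, hc, ← map_mul, bb, map_one]
  exact (isConj_iff.2 ⟨c, rfl⟩).trans
    (b3_dih (by rw [cj_mul, aa]; simp) bb (Nat.coprime_two_right.1 (b3_odd e))).symm

theorem b3 (h : Cw S τ u v z) : ∃ (S' : Sylow 2 (G ⧸ oddCore G)),
    Cw S' ((QuotientGroup.mk' (oddCore G)).comp τ) (QuotientGroup.mk' (oddCore G) u)
      (QuotientGroup.mk' (oddCore G) v) z := by
  have g := h.gz.toGs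
  have lift := @b3_lift G _ _
  have od := @b3_odd G _ _
  set π := QuotientGroup.mk' (oddCore G) with hπ
  have su : Function.Surjective π := QuotientGroup.mk'_surjective _
  have inj : ∀ s ∈ (S : Subgroup G), π s = 1 → s = 1 := fun s hs e => by
    obtain ⟨k, hk⟩ := IsPGroup.iff_orderOf.1 S.2 ⟨s, hs⟩
    have e1 : orderOf s = 2 ^ k := by rw [← hk, ← orderOf_coe]
    have e2 := (od e).pow_right k
    rw [← e1, Nat.coprime_self] at e2
    exact orderOf_eq_one_iff.1 e2
  have gz : Gz ((S.mapSurjective su : Sylow 2 _) : Subgroup (G ⧸ oddCore G)) (π.comp τ) (π u) (π v)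
      z := by
    refine ⟨⟨g.cyc, g.four, ?_, ?_, ?_, ?_, fun a b => ?_, fun a b => ?_, fun x => ?_⟩,
      h.gz.fin, h.gz.two, h.gz.z1, h.gz.zz⟩
    · refine (injective_iff_map_eq_one _).2 fun x e => g.inj ?_
      rw [map_one]; exact inj _ (g.tS x.1 x.2) e
    · rw [← map_mul, g.uu, map_one]
    · rw [← map_mul, g.vv, map_one]
    · rw [← map_mul, g.uv, map_mul]
    · rw [MonoidHom.comp_apply, MonoidHom.comp_apply, ← map_mul, g.ut, map_mul]
    · rw [MonoidHom.comp_apply, MonoidHom.comp_apply, ← map_mul, g.vt, map_mul]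
    · rw [Sylow.coe_mapSurjective]
      constructor
      · rintro ⟨s, hs, rfl⟩
        obtain ⟨a, b, e⟩ := (g.mem _).1 hs
        refine ⟨a, b, ?_⟩
        simp only [MonoidHom.comp_apply, ← map_mul]
        rcases e with e | e | e | e <;> rw [e] <;> tauto
      · rintro ⟨a, b, e⟩
        simp only [MonoidHom.comp_apply, ← map_mul] at e
        rcases e with e | e | e | e <;> exact ⟨_, (g.mem _).2 ⟨a, b, by tauto⟩, e.symm⟩
  have yy : τ (z, 1) * τ (z, 1) = 1 := by rw [tm, h.gz.zz, mul_one, t1]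
  refine ⟨S.mapSurjective su, gz, h.four, fun x => ?_, ?_, π.map_isConj h.cv,
    by rw [← map_mul]; exact π.map_isConj h.cw, fun a ha e => h.nx a ha (lift ?_ g.uu ?_)⟩
  · obtain ⟨x, rfl⟩ := su x
    rw [MonoidHom.comp_apply, ← map_mul, h.cen, map_mul]
  · rw [Sylow.coe_mapSurjective]
    rintro _ ⟨s, hs, rfl⟩
    constructor
    · intro e
      have ss : s * s = 1 := inj _ (mul_mem hs hs) (by
        rw [map_mul]
        exact conj_sq e (by rw [MonoidHom.comp_apply, ← map_mul, yy, map_one]))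
      rcases (h.fe s hs).1 (lift ss yy e) with rfl | rfl | ⟨a, b, ha, hb, rfl⟩
      · exact .inl rfl
      · exact .inr (.inl rfl)
      · exact .inr (.inr ⟨a, b, ha, hb, map_mul ..⟩)
    · rintro (e | e | ⟨a, b, ha, hb, e⟩) <;> rw [e]
      · exact π.map_isConj ((h.fe _ (g.tS _ _)).2 (.inr (.inl rfl)))
      · rw [MonoidHom.comp_apply, ← map_mul]
        exact π.map_isConj ((h.fe _ (mul_mem (g.tS _ _) g.uS)).2 (.inr (.inr ⟨a, b, ha, hb, rfl⟩)))
  · rw [mul_assoc, g.ut', g.uu, mul_one, tm]; simp [t1]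
  · rw [map_mul]; exact e

end Cfsg.Agent.H7.Bf
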