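import Mathlib
import Cfsg.Agent.H1.Friend

/-! Binary affine groups: reflections. -/

set_option autoImplicit false
set_option linter.unusedSectionVars false

namespace Cfsg.Agent.H27.Bin

theorem friend {P : Type*} [Finite P] [Nonempty P] (r : P → P → Prop) (hs : ∀ v w, r v w → r w v)
    (hi : ∀ v, ¬ r v v) (h : ∀ v w, v ≠ w → ∃! u, r v u ∧ r w u) : ∃ v, ∀ w, v ≠ w → r v w := by
  classical
  have le : ∀ v w, ¬ r v w → Nat.card {x // r v x} ≤ Nat.card {x // r w x} := by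
    intro v w hvw
    have hne : ∀ x : {x // r v x}, x.1 ≠ w := fun x e => hvw (e ▸ x.2)
    choose f hf using fun x : {x // r v x} => (h x.1 w (hne x)).exists
    refine Nat.card_le_card_of_injective (fun x => ⟨f x, (hf x).2⟩) fun x y e => ?_
    have e' : f x = f y := congrArg Subtype.val e
    by_contra hxy
    have := (h x.1 y.1 fun e => hxy (Subtype.ext e)).unique ⟨(hf x).1, e' ▸ (hf y).1⟩
      ⟨hs _ _ x.2, hs _ _ y.2⟩
    exact hvw (hs _ _ (this ▸ (hf x).2))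
  have eq : ∀ v w, ¬ r v w → Nat.card {x // r v x} = Nat.card {x // r w x} := fun v w hvw =>
    le_antisymm (le v w hvw) (le w v fun h => hvw (hs _ _ h))
  by_contra hne
  apply hne
  obtain ⟨v⟩ := ‹Nonempty P›
  refine H1.friendship r hs hi h (d := Nat.card {x // r v x}) fun x => ?_
  push Not at hne
  by_cases hvx : r v x
  swap; · exact (eq _ _ hvx).symm
  obtain ⟨w, hvw', hvw⟩ := hne v
  obtain ⟨y, hxy', hxy⟩ := hne x
  by_cases hxw : r x w
  swap; · rw [eq _ _ hvw]; exact eq _ _ hxw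
  rw [eq _ _ hxy]
  by_cases hvy : r v y
  swap; · exact (eq _ _ hvy).symm
  rw [eq _ _ hvw]
  refine eq _ _ fun hc => hxy' ?_
  exact (h v w hvw').unique ⟨hvx, hs _ _ hxw⟩ ⟨hvy, hs _ _ hc⟩

section card
variable {V : Type*} [AddCommGroup V] [Finite V]

theorem card_sup_le (A B : AddSubgroup V) :
    Nat.card (A ⊔ B : AddSubgroup V) ≤ Nat.card A * Nat.card B := by
  rw [← Nat.card_prod]
  refine Nat.card_le_card_of_surjective
    (fun x : A × B => ⟨x.1 + x.2, AddSubgroup.add_mem_sup x.1.2 x.2.2⟩) fun y => ?_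
  obtain ⟨a, ha, b, hb, e⟩ := AddSubgroup.mem_sup.mp y.2
  exact ⟨(⟨a, ha⟩, ⟨b, hb⟩), Subtype.ext e⟩

theorem card_sup_eq {A B : AddSubgroup V} (h : ∀ x ∈ A, x ∈ B → x = 0) :
    Nat.card (A ⊔ B : AddSubgroup V) = Nat.card A * Nat.card B := by
  refine le_antisymm (card_sup_le A B) ?_
  rw [← Nat.card_prod]
  refine Nat.card_le_card_of_injective
    (fun x : A × B => ⟨x.1 + x.2, AddSubgroup.add_mem_sup x.1.2 x.2.2⟩) fun x y e => ?_
  have e' : x.1.1 + x.2.1 = y.1.1 + y.2.1 := congrArg Subtype.val e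
  have := h (x.1.1 - y.1.1) (A.sub_mem x.1.2 y.1.2) (by
    rw [show x.1.1 - y.1.1 = y.2.1 - x.2.1 by linear_combination (norm := abel) e']
    exact B.sub_mem y.2.2 x.2.2)
  rw [sub_eq_zero] at this
  exact Prod.ext (Subtype.ext this) (Subtype.ext (by rwa [this, add_right_inj] at e'))

theorem sup_eq_top {A B : AddSubgroup V} (h : ∀ x ∈ A, x ∈ B → x = 0)
    (hc : Nat.card V ≤ Nat.card A * Nat.card B) (x : V) : ∃ a ∈ A, ∃ b ∈ B, a + b = x := by
  have : A ⊔ B = ⊤ := AddSubgroup.eq_top_of_le_card _ (by rwa [card_sup_eq h])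
  exact AddSubgroup.mem_sup.mp (this ▸ AddSubgroup.mem_top x)

end card

variable {H : Type*} (V : Type*) [Group H] [AddCommGroup V] [DistribMulAction H V]

/-- The map `x ↦ x - h • x`. -/
def dm (h : H) : V →+ V := AddMonoidHom.id V - DistribSMul.toAddMonoidHom V h

/-- Fixed points. -/
def Fx (h : H) : AddSubgroup V := (dm V h).ker

/-- Commutator space. -/
def Cm (h : H) : AddSubgroup V := (dm V h).range

/-- Elements with a maximal fixed space. -/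
def Ref (t : H) : Prop := t ≠ 1 ∧ ∀ h : H, h ≠ 1 → Fx V t ≤ Fx V h → Fx V h ≤ Fx V t

variable (H) in
/-- An irreducible binary linear group. -/
structure Bn : Prop where
  faith : ∀ h : H, (∀ x : V, h • x = x) → h = 1
  irr : ∀ U : AddSubgroup V, (∀ h : H, ∀ x ∈ U, h • x ∈ U) → U = ⊥ ∨ U = ⊤
  bin : ∀ R : Set (V × V), (0, 0) ∈ R →
    (∀ a ∈ R, ∀ b ∈ R, ∃ h : H, h • (a.1 - b.1) = a.2 - b.2) → ∃ h : H, ∀ a ∈ R, h • a.1 = a.2

variable {V}

theorem mem_Fx {h : H} {x : V} : x ∈ Fx V h ↔ h • x = x := by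
  simp [Fx, dm, sub_eq_zero, eq_comm]

theorem mem_Cm {h : H} {x : V} : x ∈ Cm V h ↔ ∃ y, y - h • y = x := by
  simp [Cm, dm]

theorem sub_mem_Cm (h : H) (x : V) : x - h • x ∈ Cm V h := mem_Cm.mpr ⟨x, rfl⟩

theorem card_Fx_mul (h : H) : Nat.card (Fx V h) * Nat.card (Cm V h) = Nat.card V := by
  rw [AddSubgroup.card_eq_card_quotient_mul_card_addSubgroup (Fx V h), mul_comm]
  congr 1
  exact (Nat.card_congr (QuotientAddGroup.quotientKerEquivRange (dm V h)).toEquiv).symm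

theorem smul_mem_Cm {h : H} {x : V} (g : H) (hx : x ∈ Cm V h) : g • x ∈ Cm V (g * h * g⁻¹) := by
  obtain ⟨y, rfl⟩ := mem_Cm.mp hx
  exact mem_Cm.mpr ⟨g • y, by simp [mul_smul, smul_sub]⟩

theorem mem_Fx_conj {h g : H} {x : V} : x ∈ Fx V (g * h * g⁻¹) ↔ g⁻¹ • x ∈ Fx V h := by
  rw [mem_Fx, mem_Fx, mul_smul, mul_smul, smul_eq_iff_eq_inv_smul]

theorem Cm_mul_le (g h : H) : Cm V (g * h) ≤ Cm V g ⊔ Cm V h := fun x hx => by
  obtain ⟨y, rfl⟩ := mem_Cm.mp hx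
  rw [show y - (g * h) • y = (h • y - g • h • y) + (y - h • y) by rw [mul_smul]; abel]
  exact AddSubgroup.add_mem_sup (sub_mem_Cm _ _) (sub_mem_Cm _ _)

theorem Ref.conj {t : H} (ht : Ref V t) (g : H) : Ref V (g * t * g⁻¹) := by
  refine ⟨by simpa using ht.1, fun h h1 hle x hx => ?_⟩
  rw [mem_Fx_conj]
  refine ht.2 (g⁻¹ * h * g⁻¹⁻¹) (fun e => h1 (by
    rw [show h = g * (g⁻¹ * h * g⁻¹⁻¹) * g⁻¹ by group, e]; simp)) (fun y hy => ?_) ?_
  · rw [mem_Fx_conj]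
    exact hle (mem_Fx_conj.mpr (by simpa using hy))
  · rw [mem_Fx_conj]; simpa using hx

theorem Ref.of_le {t h : H} (ht : Ref V t) (h1 : h ≠ 1) (hle : Fx V t ≤ Fx V h) : Ref V h :=
  ⟨h1, fun g hg h2 => (ht.2 g hg (hle.trans h2)).trans hle⟩

variable [Finite V]

theorem card_Cm_conj (h g : H) : Nat.card (Cm V (g * h * g⁻¹)) = Nat.card (Cm V h) := by
  have key : ∀ h g : H, Nat.card (Cm V h) ≤ Nat.card (Cm V (g * h * g⁻¹)) := fun h g =>
    Nat.card_le_card_of_injective (fun x => ⟨g • x.1, smul_mem_Cm g x.2⟩) fun x y e =>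
      Subtype.ext (MulAction.injective g (congrArg Subtype.val e))
  refine le_antisymm ?_ (key h g)
  simpa [mul_assoc] using key (g * h * g⁻¹) g⁻¹

theorem exists_ref {h : H} (h1 : h ≠ 1) : ∃ t : H, Ref V t ∧ Fx V h ≤ Fx V t := by
  obtain ⟨_, ⟨t, ht1, ht2, rfl⟩, hmax⟩ := WellFounded.has_min (wellFounded_gt (α := AddSubgroup V))
    {U | ∃ t : H, t ≠ 1 ∧ Fx V h ≤ Fx V t ∧ Fx V t = U} ⟨_, h, h1, le_rfl, rfl⟩
  refine ⟨t, ⟨ht1, fun g hg hle => ?_⟩, ht2⟩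
  by_contra hne
  exact hmax _ ⟨g, hg, ht2.trans hle, rfl⟩ (lt_of_le_not_ge hle hne)

theorem card_Cm_le {g h : H} (hle : Fx V g ≤ Fx V h) : Nat.card (Cm V h) ≤ Nat.card (Cm V g) := by
  have h1 := card_Fx_mul (V := V) g
  have h2 := card_Fx_mul (V := V) h
  have h3 := AddSubgroup.card_le_of_le hle
  by_contra hlt
  push Not at hlt
  have := Nat.mul_lt_mul_of_le_of_lt h3 hlt Nat.card_pos
  omega

theorem Fx_eq_of_card {g h : H} (hle : Fx V g ≤ Fx V h)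
    (hc : Nat.card (Cm V g) ≤ Nat.card (Cm V h)) : Fx V h ≤ Fx V g := by
  have h1 := card_Fx_mul (V := V) g
  have h2 := card_Fx_mul (V := V) h
  refine (AddSubgroup.eq_of_le_of_card_ge hle ?_).ge
  by_contra hlt
  push Not at hlt
  have := Nat.mul_lt_mul_of_lt_of_le hlt hc Nat.card_pos
  omega

namespace Bn

variable (b : Bn H V)
include b

theorem exists_not_fix {h : H} (h1 : h ≠ 1) : ∃ x : V, h • x ≠ x := by
  by_contra hne
  push Not at hne
  exact h1 (b.faith h hne)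

theorem exists_Cm {h : H} (h1 : h ≠ 1) : ∃ x ∈ Cm V h, x ≠ 0 := by
  obtain ⟨x, hx⟩ := b.exists_not_fix h1
  exact ⟨_, sub_mem_Cm h x, fun e => hx (sub_eq_zero.mp e).symm⟩

theorem swap0 (x : V) (h : H) : ∃ s : H, s • x = h • x ∧ s • h • x = x := by
  obtain ⟨k, hk⟩ := b.bin {(0, 0), (x, x), (x + h • x, x + h⁻¹ • x)} (by simp) (by
    rintro _ (rfl | rfl | rfl) _ (rfl | rfl | rfl) <;>
    first
    | (refine ⟨1, ?_⟩; simp; done)
    | (refine ⟨h⁻¹, ?_⟩; simp [add_comm]; done)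
    | exact ⟨h⁻¹ * h⁻¹, by simp [mul_smul]⟩)
  have h1 := hk (x, x) (by simp)
  have h2 := hk (x + h • x, x + h⁻¹ • x) (by simp)
  simp only [smul_add, h1, add_right_inj] at h1 h2
  exact ⟨h * k, by rw [mul_smul, hk (x, x) (by simp)], by rw [mul_smul, h2, smul_inv_smul]⟩

theorem swap (x : V) (h : H) : ∃ s : H, s • x = h • x ∧ s • h • x = x ∧
    ∀ z, (∃ g : H, g • (x - z) = h • x - z) → s • z = z := by
  obtain ⟨s0, h1, h2⟩ := b.swap0 x h
  obtain ⟨s, hs⟩ := b.bin ({(x, h • x), (h • x, x)} ∪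
      {a | a.2 = a.1 ∧ ∃ g : H, g • (x - a.1) = h • x - a.1}) (Or.inr ⟨rfl, h, by simp⟩) (by
    rintro ⟨a, a'⟩ ((ha | ha) | ⟨ha, g, hg⟩) ⟨c, c'⟩ ((hc | hc) | ⟨hc, g', hg'⟩) <;>
      simp only [Prod.mk.injEq, Set.mem_singleton_iff] at *
    · exact ⟨1, by simp [ha, hc]⟩
    · exact ⟨s0, by simp [ha, hc, smul_sub, h1, h2]⟩
    · exact ⟨g', by simp [ha, hc, hg']⟩
    · exact ⟨s0, by simp [ha, hc, smul_sub, h1, h2]⟩
    · exact ⟨1, by simp [ha, hc]⟩
    · exact ⟨g'⁻¹, by simp [ha, hc, ← hg']⟩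
    · exact ⟨g, by rw [hc.1, hc.2, ha, ← neg_sub x, smul_neg, hg, neg_sub]⟩
    · exact ⟨g⁻¹, by rw [hc.1, hc.2, ha, ← neg_sub (h • x), ← hg, smul_neg, inv_smul_smul, neg_sub]⟩
    · exact ⟨1, by simp [ha, hc]⟩)
  exact ⟨s, hs (x, h • x) (by simp), hs (h • x, x) (by simp),
    fun z hz => hs (z, z) (Or.inr ⟨rfl, hz⟩)⟩

theorem swap' (x : V) (h : H) : ∃ s : H, s • x = h • x ∧ s • h • x = x ∧ Fx V h ≤ Fx V s ∧
    ∀ z, (∃ g : H, g • (x - z) = h • x - z) → s • z = z := by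
  obtain ⟨s, h1, h2, h3⟩ := b.swap x h
  exact ⟨s, h1, h2, fun z hz => mem_Fx.mpr (h3 z ⟨h, by rw [smul_sub, mem_Fx.mp hz]⟩), h3⟩

theorem sq {t : H} (ht : Ref V t) : t * t = 1 := by
  by_contra hne
  obtain ⟨x, hx⟩ := b.exists_not_fix hne
  obtain ⟨s, h1, h2, h3, -⟩ := b.swap' x t
  have hs : s ≠ 1 := by
    rintro rfl
    rw [one_smul] at h1
    exact hx (by rw [mul_smul, ← h1, ← h1])
  have : x + t • x ∈ Fx V t := ht.2 s hs h3 (mem_Fx.mpr (by rw [smul_add, h1, h2, add_comm]))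
  rw [mem_Fx, smul_add, add_comm, add_left_inj] at this
  exact hx (by rw [mul_smul, this])

theorem tt {t : H} (ht : Ref V t) (x : V) : t • t • x = x := by
  rw [← mul_smul, b.sq ht, one_smul]

theorem inv_eq {t : H} (ht : Ref V t) : t⁻¹ = t := inv_eq_of_mul_eq_one_right (b.sq ht)

theorem neg_of_mem {t : H} (ht : Ref V t) {x : V} (hx : x ∈ Cm V t) : t • x = -x := by
  obtain ⟨y, rfl⟩ := mem_Cm.mp hx
  rw [smul_sub, b.tt ht, neg_sub]

theorem r3 {t g : H} (ht : Ref V t) {y : V} (h1 : y - g • y ∈ Cm V t) (h0 : y - g • y ≠ 0) :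
    t • y = g • y := by
  obtain ⟨x, hx⟩ := mem_Cm.mp h1
  obtain ⟨s, h2, -, h3, h4⟩ := b.swap' x t
  have hs : s ≠ 1 := by
    rintro rfl
    rw [one_smul] at h2
    exact h0 (by rw [← hx, ← h2, sub_self])
  have : x - y ∈ Fx V t := ht.2 s hs h3 (mem_Fx.mpr (h4 _ ⟨g, by
    rw [sub_sub_cancel]; linear_combination (norm := abel) hx⟩))
  rw [mem_Fx, smul_sub] at this
  linear_combination (norm := abel) -this - hx

theorem r4 {t g : H} (ht : Ref V t) {u : V} (h1 : u ∈ Cm V t) (h2 : u ∈ Cm V g) (h0 : u ≠ 0) :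
    Fx V g ≤ Fx V t := fun c hc => by
  obtain ⟨y, rfl⟩ := mem_Cm.mp h2
  have e : y + c - g • (y + c) = y - g • y := by rw [smul_add, mem_Fx.mp hc]; abel
  have h3 := b.r3 ht (g := g) (y := y + c) (e ▸ h1) (e ▸ h0)
  rw [smul_add, smul_add, b.r3 ht h1 h0, mem_Fx.mp hc, add_right_inj] at h3
  exact mem_Fx.mpr h3

theorem r5 {t t' : H} (ht : Ref V t) (ht' : Ref V t') {u : V} (h1 : u ∈ Cm V t)
    (h2 : u ∈ Cm V t') (h0 : u ≠ 0) : t = t' := by
  have h3 := b.r4 ht h1 h2 h0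
  obtain ⟨y, rfl⟩ := mem_Cm.mp h2
  have h4 := b.r3 ht h1 h0
  by_contra hne
  have h5 : t * t' ≠ 1 := fun e => hne (by rw [← b.inv_eq ht, inv_eq_of_mul_eq_one_right e])
  have := ht'.2 _ h5 (fun c hc => mem_Fx.mpr (by
    rw [mul_smul, mem_Fx.mp hc, mem_Fx.mp (h3 hc)])) (mem_Fx.mpr (show (t * t') • y = y by
    rw [mul_smul, ← h4, b.tt ht]))
  exact h0 (by rw [mem_Fx.mp this, sub_self])

theorem r6 {t g : H} (ht : Ref V t) {u : V} (h1 : u ∈ Cm V t) (h2 : g • u ∈ Cm V t) (h0 : u ≠ 0) :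
    g * t = t * g := by
  have := b.r5 (ht.conj g) ht (smul_mem_Cm g h1) h2 (by rwa [Ne, smul_eq_zero_iff_eq])
  exact mul_inv_eq_iff_eq_mul.mp this

theorem r6' {t g : H} (ht : Ref V t) {u : V} (h1 : u ∈ Cm V t) (h2 : g • u = u) (h0 : u ≠ 0) :
    g * t = t * g := b.r6 ht h1 (h2.symm ▸ h1) h0

theorem r7 {t g : H} (ht : Ref V t) (hc : g * t = t * g) {x : V} (hx : x ∈ Cm V t) :
    g • x = x ∨ g • x = -x := by
  have h1 : g • x ∈ Cm V t := by
    have := smul_mem_Cm g hx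
    rwa [hc, mul_inv_cancel_right] at this
  by_cases h0 : x - g • x = 0
  · exact Or.inl (sub_eq_zero.mp h0).symm
  · exact Or.inr (by rw [← b.r3 ht (sub_mem hx h1) h0, b.neg_of_mem ht hx])

theorem fx_mul {t g : H} (hd : ∀ u ∈ Cm V t, u ∈ Cm V g → u = 0) {x : V}
    (hx : t • x = g • x) : t • x = x ∧ g • x = x := by
  have := hd _ (sub_mem_Cm t x) (hx ▸ sub_mem_Cm g x)
  rw [sub_eq_zero] at this
  exact ⟨this.symm, hx ▸ this.symm⟩

theorem fx_mul_ref {t t' : H} (ht : Ref V t) (ht' : Ref V t') (hne : t ≠ t') {x : V} :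
    x ∈ Fx V (t * t') ↔ t • x = x ∧ t' • x = x := by
  rw [mem_Fx, mul_smul]
  refine ⟨fun h => b.fx_mul (fun u h1 h2 => by_contra fun h0 => hne (b.r5 ht ht' h1 h2 h0)) ?_,
    fun h => by rw [h.2, h.1]⟩
  conv_lhs => rw [← h, b.tt ht]

theorem exists_z (h : H) : ∃ z : H, (∀ c ∈ Fx V h, z • c = c) ∧ ∀ u ∈ Cm V h, z • u = -u := by
  obtain ⟨z, hz⟩ := b.bin {a | ∃ c ∈ Fx V h, ∃ u ∈ Cm V h, a = (c + u, c - u)}
    ⟨0, zero_mem _, 0, zero_mem _, by simp⟩ (by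
    rintro _ ⟨c, hc, u, hu, rfl⟩ _ ⟨c', hc', u', hu', rfl⟩
    obtain ⟨x, hx⟩ := mem_Cm.mp (sub_mem hu hu')
    obtain ⟨s, h1, h2, h3, -⟩ := b.swap' x h
    refine ⟨s, ?_⟩
    rw [show (c + u, c - u).1 - (c' + u', c' - u').1 = (c - c') + (u - u') by simp only; abel,
      ← hx, smul_add, mem_Fx.mp (h3 (sub_mem hc hc')), smul_sub, h1, h2]
    simp only
    linear_combination (norm := abel) -hx)
  exact ⟨z, fun c hc => by simpa using hz _ ⟨c, hc, 0, zero_mem _, rfl⟩,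
    fun u hu => by simpa using hz _ ⟨0, zero_mem _, u, hu, rfl⟩⟩

theorem parity : (∀ x : V, x + x = 0) ∨ ∀ x : V, x + x = 0 → x = 0 := by
  let U : AddSubgroup V := (AddMonoidHom.id V + AddMonoidHom.id V).ker
  rcases b.irr U (fun h x hx => by
    have : x + x = 0 := hx
    change h • x + h • x = 0
    rw [← smul_add, this, smul_zero]) with h | h
  · exact Or.inr fun x hx => by
      have : x ∈ U := hx
      rwa [h] at this
  · exact Or.inl fun x => by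
      have : x ∈ U := h ▸ AddSubgroup.mem_top x
      exact this

end Bn

end Cfsg.Agent.H27.Bin
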