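import Mathlib
import Cfsg.Agent.H27.Bin1

/-! Binary affine groups: characteristic two. -/

set_option autoImplicit false
set_option linter.unusedSectionVars false

namespace Cfsg.Agent.H27.Bin

variable {H : Type*} {V : Type*} [Group H] [AddCommGroup V] [DistribMulAction H V]

variable (H V) in
/-- The plane situation. -/
structure Pl (q : ℕ) : Prop where
  card : Nat.card V = q * q
  h1 : ∀ h : H, h ≠ 1 → ∀ v : V, v ≠ 0 → h • v = v → Ref V h
  h2 : ∀ a c : H, Ref V a → Ref V c → ∀ v : V, v ≠ 0 → a • v = v → c • v = v → a = c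
  h3 : ∀ k : H, Ref V k → Nat.card (Fx V k) = q
  nc : ∃ a c : H, Ref V a ∧ Ref V c ∧ a * c ≠ c * a

variable [Finite V] [Finite H]

theorem exists_min {h : H} (h1 : h ≠ 1) : ∃ t : H, Ref V t ∧
    ∀ g : H, g ≠ 1 → Nat.card (Cm V t) ≤ Nat.card (Cm V g) := by
  obtain ⟨g, hg, hm⟩ := (measure fun g : H => Nat.card (Cm V g)).wf.has_min {g | g ≠ 1} ⟨h, h1⟩
  obtain ⟨t, ht, hle⟩ := exists_ref (V := V) hg
  exact ⟨t, ht, fun k hk => (card_Cm_le hle).trans (not_lt.mp (hm k hk))⟩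

variable (V) in
/-- A noncommuting pair of minimal reflections in characteristic two. -/
structure Pr (q : ℕ) (t t' : H) : Prop where
  b : Bn H V
  he : ∀ x : V, x + x = 0
  mn : ∀ g : H, g ≠ 1 → q ≤ Nat.card (Cm V g)
  rt : Ref V t
  rt' : Ref V t'
  ct : Nat.card (Cm V t) = q
  ct' : Nat.card (Cm V t') = q
  nc : t * t' ≠ t' * t

theorem neg_e (he : ∀ x : V, x + x = 0) (x : V) : -x = x := neg_eq_of_add_eq_zero_left (he x)

theorem Bn.r7e (b : Bn H V) (he : ∀ x : V, x + x = 0) {t g : H} (ht : Ref V t)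
    (hc : g * t = t * g) {x : V} (hx : x ∈ Cm V t) : g • x = x :=
  (b.r7 ht hc hx).elim id fun h => h.trans (neg_e he x)

theorem Bn.cnt (b : Bn H V) (he : ∀ x : V, x + x = 0) {t h : H} (ht : Ref V t)
    (hc : t * (h * t * h⁻¹) = (h * t * h⁻¹) * t) : Fx V t ≤ Fx V (h * t * h⁻¹) := by
  have ht' := ht.conj h
  set t' := h * t * h⁻¹ with ht''
  by_cases hne : t = t'
  · rw [← hne]
  let ψ : V →+ V := (DistribSMul.toAddMonoidHom V h).comp (dm V t) - dm V t'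
  have hψ : ∀ z, ψ z = h • (z - t • z) - (z - t' • z) := fun _ => rfl
  have h1 : ψ.range ≤ Cm V t' := by
    rintro _ ⟨z, rfl⟩
    exact sub_mem (smul_mem_Cm h (sub_mem_Cm t z)) (sub_mem_Cm t' z)
  have h2 : Nat.card ψ.ker * Nat.card ψ.range = Nat.card V := by
    rw [AddSubgroup.card_eq_card_quotient_mul_card_addSubgroup ψ.ker, mul_comm]
    congr 1
    exact (Nat.card_congr (QuotientAddGroup.quotientKerEquivRange ψ).toEquiv).symm
  have h3 := AddSubgroup.card_le_of_le h1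
  rw [ht'', card_Cm_conj] at h3
  have h4 := card_Fx_mul (V := V) t
  have h5 : ψ.ker ≤ Fx V t := fun z hz => by
    rw [AddMonoidHom.mem_ker, hψ, sub_eq_zero] at hz
    by_contra hz'
    have hx0 : z - t • z ≠ 0 := fun e => hz' (mem_Fx.mpr (sub_eq_zero.mp e).symm)
    obtain ⟨s, k1, -, k2⟩ := b.swap (z - t • z) h
    have k3 : t • (z - t' • z) = z - t' • z := b.r7e he ht' hc (sub_mem_Cm t' z)
    have k4 := k2 (z - t • z - z) ⟨t * t', by
      rw [sub_sub_cancel, hz, mul_smul]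
      rw [smul_sub] at k3
      linear_combination (norm := abel) -k3 - he (z - t' • z)⟩
    have k5 := k2 z ⟨t' * t, by
      rw [hz, sub_sub_cancel_left, sub_sub_cancel_left, smul_neg, mul_smul, b.tt ht]⟩
    rw [smul_sub, k5, sub_left_inj, k1] at k4
    exact hne (b.r5 ht ht' (sub_mem_Cm t z) (by rw [← k4, hz]; exact sub_mem_Cm t' z) hx0)
  have h6 : ψ.ker = Fx V t := by
    refine AddSubgroup.eq_of_le_of_card_ge h5 ?_
    by_contra hlt
    push Not at hlt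
    have := Nat.mul_lt_mul_of_lt_of_le hlt h3 Nat.card_pos
    omega
  intro z hz
  have hz' : z ∈ ψ.ker := h6 ▸ hz
  rw [AddMonoidHom.mem_ker, hψ, mem_Fx.mp hz, sub_self, smul_zero, zero_sub, neg_eq_zero,
    sub_eq_zero] at hz'
  exact mem_Fx.mpr hz'.symm

theorem Bn.exists_nc (b : Bn H V) (he : ∀ x : V, x + x = 0) {t : H} (ht : Ref V t) :
    ∃ h : H, t * (h * t * h⁻¹) ≠ (h * t * h⁻¹) * t := by
  by_contra hne
  push Not at hne
  rcases b.irr (Fx V t) (fun h x hx => by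
    have := b.cnt he ht (hne h⁻¹) hx
    rwa [mem_Fx_conj, inv_inv] at this) with h | h
  · obtain ⟨x, hx, hx0⟩ := b.exists_Cm ht.1
    have : x ∈ Fx V t := mem_Fx.mpr (b.r7e he ht rfl hx)
    rw [h] at this
    exact hx0 this
  · exact ht.1 (b.faith t fun x => mem_Fx.mp (h ▸ AddSubgroup.mem_top x))

namespace Pr

variable {q : ℕ} {t t' : H} (P : Pr V q t t')
include P

local notation "C" => Fx V t ⊓ Fx V t'

theorem symm : Pr V q t' t := ⟨P.b, P.he, P.mn, P.rt', P.rt, P.ct', P.ct, P.nc.symm⟩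

theorem cm_fx {k : H} (hk : Ref V k) {x : V} (hx : x ∈ Cm V k) : x ∈ Fx V k :=
  mem_Fx.mpr (P.b.r7e P.he hk rfl hx)

theorem dis {x : V} (h1 : x ∈ Fx V t) (h2 : x ∈ Cm V t') : x = 0 :=
  by_contra fun h0 => P.nc (P.b.r6' P.rt' h2 (mem_Fx.mp h1) h0)

theorem dec0 (v : V) : ∃ a ∈ Fx V t, ∃ c ∈ Cm V t', a + c = v :=
  sup_eq_top (fun _ => P.dis) (by rw [P.ct', ← P.ct, card_Fx_mul]) v

theorem decW {w : V} (hw : w ∈ Fx V t) : ∃ u ∈ Cm V t, ∃ c ∈ C, u + c = w := by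
  obtain ⟨a, ha, c, hc, rfl⟩ := P.symm.dec0 w
  exact ⟨c, hc, a, ⟨by simpa using sub_mem hw (P.cm_fx P.rt hc), ha⟩, add_comm _ _⟩

theorem dec (v : V) : ∃ u ∈ Cm V t, ∃ u' ∈ Cm V t', ∃ c ∈ C, u + u' + c = v := by
  obtain ⟨a, ha, u', hu', rfl⟩ := P.dec0 v
  obtain ⟨u, hu, c, hc, rfl⟩ := P.decW ha
  exact ⟨u, hu, u', hu', c, hc, by abel⟩

theorem card_V : Nat.card V = q * Nat.card (C : AddSubgroup V) * q := by
  have : Fx V t = Cm V t ⊔ C := le_antisymm (fun w hw => AddSubgroup.mem_sup.mpr (P.decW hw))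
    (sup_le (fun _ => P.cm_fx P.rt) inf_le_left)
  rw [← card_Fx_mul t, P.ct]
  congr 1
  conv_lhs => rw [this]
  rw [card_sup_eq (B := C) fun x h1 h2 => P.symm.dis h2.2 h1, P.ct]

theorem l1 {k : H} (hk : Ref V k) (hC : C ≤ Fx V k) {u : V} (h1 : u ∈ Cm V k) (h2 : u ∈ C) :
    u = 0 := by
  by_contra h0
  refine hk.1 (P.b.faith k fun v => ?_)
  obtain ⟨a, ha, a', ha', c, hc, rfl⟩ := P.dec v
  rw [smul_add, smul_add, mem_Fx.mp (hC hc),
    P.b.r7e P.he P.rt (P.b.r6' hk h1 (mem_Fx.mp h2.1) h0).symm ha,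
    P.b.r7e P.he P.rt' (P.b.r6' hk h1 (mem_Fx.mp h2.2) h0).symm ha']

theorem l1' {k : H} (hk : Ref V k) (hC : C ≤ Fx V k) : Nat.card (Cm V k) = q ∧
    Nat.card (Fx V k) = q * Nat.card (C : AddSubgroup V) ∧
    ∀ w ∈ Fx V k, ∃ u ∈ Cm V k, ∃ c ∈ C, u + c = w := by
  have h1 : Cm V k ⊔ C ≤ Fx V k := sup_le (fun _ => P.cm_fx hk) hC
  have h2 := AddSubgroup.card_le_of_le h1
  have h3 := card_sup_eq (A := Cm V k) (B := C) fun x => P.l1 hk hC
  have h4 := card_Fx_mul (V := V) k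
  have h5 := P.mn k hk.1
  have h6 := P.card_V
  have h7 : 0 < Nat.card (C : AddSubgroup V) := Nat.card_pos
  have h8 : 0 < q := P.ct ▸ Nat.card_pos
  have h9 : Nat.card (Cm V k) = q := by
    by_contra hne
    have h10 : q < Nat.card (Cm V k) := by omega
    have : q * Nat.card (C : AddSubgroup V) * q < Nat.card (Fx V k) * Nat.card (Cm V k) :=
      Nat.mul_lt_mul_of_le_of_lt ((Nat.mul_le_mul_right _ h5).trans (h3 ▸ h2)) h10
        Nat.card_pos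
    omega
  have h10 : Nat.card (Fx V k) = q * Nat.card (C : AddSubgroup V) := by
    rw [h9, h6] at h4
    exact Nat.eq_of_mul_eq_mul_right h8 h4
  refine ⟨h9, h10, fun w hw => AddSubgroup.mem_sup.mp ?_⟩
  rwa [AddSubgroup.eq_of_le_of_card_ge h1 (by rw [h3, h9, h10])]

theorem l2 {k s : H} (hk : C ≤ Fx V k) (hs : Ref V s) (hC : C ≤ Fx V s) {v : V} (hv : v ∉ C)
    (h1 : k • v = v) (h2 : s • v = v) : Fx V s ≤ Fx V k := by
  obtain ⟨u, hu, c, hc, rfl⟩ := (P.l1' hs hC).2.2 v (mem_Fx.mpr h2)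
  have h0 : u ≠ 0 := by rintro rfl; exact hv (by simpa using hc)
  rw [smul_add, mem_Fx.mp (hk hc), add_left_inj] at h1
  intro w hw
  obtain ⟨u', hu', c', hc', rfl⟩ := (P.l1' hs hC).2.2 w hw
  exact add_mem (mem_Fx.mpr (P.b.r7e P.he hs (P.b.r6' hs hu h1 h0) hu')) (hk hc')

theorem l2' {k : H} (h1 : k ≠ 1) (hk : C ≤ Fx V k) {v : V} (hv : v ∉ C) (h2 : k • v = v) :
    Ref V k := by
  obtain ⟨s, hs, hle⟩ := exists_ref (V := V) h1
  exact hs.of_le h1 (P.l2 hk hs (hk.trans hle) hv h2 (mem_Fx.mp (hle (mem_Fx.mpr h2))))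

theorem fx_of_comm {k s : H} (hk : C ≤ Fx V k) (hs : Ref V s) (hC : C ≤ Fx V s)
    (hc : k * s = s * k) : Fx V s ≤ Fx V k := fun w hw => by
  obtain ⟨u', hu', c', hc', rfl⟩ := (P.l1' hs hC).2.2 w hw
  exact add_mem (mem_Fx.mpr (P.b.r7e P.he hs hc hu')) (hk hc')

theorem l5 {a c : H} (ha : Ref V a) (hc : Ref V c) (h1 : C ≤ Fx V a) (h2 : C ≤ Fx V c)
    (hne : ¬ Fx V a ≤ Fx V c) : ∃ h : H, C ≤ Fx V h ∧ h * a * h⁻¹ = c := by
  have hr : ∀ n : ℕ, C ≤ Fx V ((a * c) ^ n) := fun n x hx => mem_Fx.mpr (by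
    induction n with
    | zero => simp
    | succ n ih => rw [pow_succ, mul_smul, mul_smul, mem_Fx.mp (h2 hx), mem_Fx.mp (h1 hx), ih])
  have hi : (a * c)⁻¹ = c * a := by rw [mul_inv_rev, P.b.inv_eq ha, P.b.inv_eq hc]
  have ia : ∀ n : ℕ, a * (a * c) ^ n = ((a * c) ^ n)⁻¹ * a := fun n => by
    rw [← inv_pow, hi]
    have : SemiconjBy a (a * c) (c * a) := by
      rw [SemiconjBy, ← mul_assoc, P.b.sq ha, mul_assoc, P.b.sq ha, one_mul, mul_one]
    exact this.pow_right n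
  have ic : ∀ n : ℕ, c * (a * c) ^ n = ((a * c) ^ n)⁻¹ * c := fun n => by
    rw [← inv_pow, hi]
    have : SemiconjBy c (a * c) (c * a) := by rw [SemiconjBy, mul_assoc]
    exact this.pow_right n
  have hpos := orderOf_pos (a * c)
  rcases Nat.even_or_odd' (orderOf (a * c)) with ⟨k, hk | hk⟩
  · exfalso
    have h3 : (a * c) ^ k ≠ 1 := pow_ne_one_of_lt_orderOf (by omega) (by omega)
    have h4 : ((a * c) ^ k)⁻¹ = (a * c) ^ k := inv_eq_of_mul_eq_one_right (by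
      rw [← pow_add, ← two_mul, ← hk, pow_orderOf_eq_one])
    exact hne ((P.fx_of_comm (hr k) ha h1 (by rw [ia, h4])).trans
      (hc.2 _ h3 (P.fx_of_comm (hr k) hc h2 (by rw [ic, h4]))))
  · refine ⟨(a * c) ^ k, hr k, ?_⟩
    have h3 : (a * c) ^ k * (a * c) ^ k * (a * c) = 1 := by
      rw [← pow_add, ← pow_succ, ← two_mul, ← hk, pow_orderOf_eq_one]
    have h4 : a * ((a * c) ^ k)⁻¹ = (a * c) ^ k * a := by
      rw [mul_inv_eq_iff_eq_mul, mul_assoc, ia, mul_inv_cancel_left]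
    rw [mul_assoc, h4, ← mul_assoc]
    refine (eq_inv_of_mul_eq_one_left ?_).trans (P.b.inv_eq hc)
    rw [mul_assoc _ a, h3]

theorem l6 {e e' : H} (he : Ref V e) (he' : Ref V e') (hC : C ≤ Fx V e) (hle : Fx V e ≤ Fx V e') :
    e = e' := by
  by_contra hne
  have hC' := hC.trans hle
  have hge := he.2 e' he'.1 hle
  obtain ⟨x, hx, hx0⟩ := P.b.exists_Cm he.1
  have hxW := P.cm_fx he hx
  obtain ⟨p, hp, hpC, hp1⟩ : ∃ p : H, Ref V p ∧ C ≤ Fx V p ∧ ¬ Fx V e ≤ Fx V p := by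
    by_contra hn
    push Not at hn
    exact hx0 (P.l1 he hC hx ⟨hn t P.rt inf_le_left hxW, hn t' P.rt' inf_le_right hxW⟩)
  obtain ⟨h1, k1, k2⟩ := P.l5 he hp hC hpC hp1
  obtain ⟨h2, k3, k4⟩ := P.l5 he' hp hC' hpC fun h => hp1 (hle.trans h)
  have k5 : (h2⁻¹ * h1) * e * (h2⁻¹ * h1)⁻¹ = e' := by
    rw [show (h2⁻¹ * h1) * e * (h2⁻¹ * h1)⁻¹ = h2⁻¹ * (h1 * e * h1⁻¹) * h2 by group, k2, ← k4]
    group
  have k6 : C ≤ Fx V (h2⁻¹ * h1) := fun c hc => mem_Fx.mpr (by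
    rw [mul_smul, mem_Fx.mp (k1 hc), inv_smul_eq_iff, mem_Fx.mp (k3 hc)])
  set h := h2⁻¹ * h1
  have hy : h • x ∈ Cm V e' := k5 ▸ smul_mem_Cm h hx
  have hxy : h • x ≠ x := fun e0 => hne (P.b.r5 he he' hx (e0 ▸ hy) hx0)
  obtain ⟨s, s1, s2, s3, -⟩ := P.b.swap' x h
  have sC := k6.trans s3
  have s0 : s ≠ 1 := by rintro rfl; exact hxy (by simpa using s1.symm)
  have hu : x + h • x ∈ C := by
    by_contra hu
    have := P.l2 sC he hC hu (by rw [smul_add, s1, s2, add_comm])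
      (mem_Fx.mp (add_mem hxW (hge (P.cm_fx he' hy)))) hxW
    exact hxy (by rw [← s1, mem_Fx.mp this])
  have hu0 : x + h • x ≠ 0 := fun e0 => hxy (by
    linear_combination (norm := abel) e0 - P.he x)
  have s4 : Fx V s ≤ C := fun v hv => by
    by_contra hv'
    refine hu0 (P.l1 (P.l2' s0 sC hv' (mem_Fx.mp hv)) sC ?_ hu)
    rw [← s1, ← neg_e P.he (s • x), ← sub_eq_add_neg]
    exact sub_mem_Cm s x
  have s5 : s * s = 1 := by
    by_contra hss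
    have ssC : C ≤ Fx V (s * s) := fun c hc => mem_Fx.mpr (by
      rw [mul_smul, mem_Fx.mp (sC hc), mem_Fx.mp (sC hc)])
    have h5 := P.l2' hss ssC (v := x) (fun hc => hx0 (P.l1 he hC hx hc))
      (by rw [mul_smul, s1, s2])
    obtain ⟨y, hy, hy0⟩ := P.b.exists_Cm hss
    exact hy0 (P.l1 h5 ssC hy (s4 (mem_Fx.mpr (P.b.r7e P.he h5 (mul_assoc _ _ _).symm hy))))
  have s6 : s * e * s⁻¹ = e' := P.b.r5 (he.conj s) he' (smul_mem_Cm s hx) (s1 ▸ hy)
    (by rwa [Ne, smul_eq_zero_iff_eq])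
  obtain ⟨z, hz⟩ := P.b.exists_not_fix he.1
  have hc : z + s • z ∈ C := s4 (mem_Fx.mpr (by rw [smul_add, ← mul_smul, s5, one_smul, add_comm]))
  have s7 : s • (z - e • z) = z - e' • z := by
    rw [← s6, inv_eq_of_mul_eq_one_right s5, mul_smul, mul_smul]
    have h5 := mem_Fx.mp (hC hc)
    have h6 := congrArg (s • ·) h5
    simp only [smul_add, ← mul_smul s s, s5, one_smul] at h6
    rw [smul_sub]
    linear_combination (norm := abel) h6 + P.he (s • z) - P.he (s • e • z)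
  have hee : e * e' ≠ 1 := fun e0 => hne (by
    rw [← P.b.inv_eq he, inv_eq_of_mul_eq_one_right e0])
  have hW : Fx V e ≤ Fx V (e * e') := fun c hc => mem_Fx.mpr (by
    rw [mul_smul, mem_Fx.mp (hle hc), mem_Fx.mp hc])
  have h7 := he.of_le hee hW
  have h8 : e • (z - e' • z) = z - e' • z := mem_Fx.mp (hge (P.cm_fx he' (sub_mem_Cm e' z)))
  have h9 : (z - e • z) - s • (z - e • z) = z - (e * e') • z := by
    rw [s7, mul_smul]
    rw [smul_sub] at h8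
    linear_combination (norm := abel) -h8 - P.he (z - e' • z)
  have h10 : z - (e * e') • z ≠ 0 := fun e0 =>
    hz (mem_Fx.mp (he.2 _ hee hW (mem_Fx.mpr (sub_eq_zero.mp e0).symm)))
  have := P.b.r3 h7 (g := s) (y := z - e • z) (h9 ▸ sub_mem_Cm _ z) (h9 ▸ h10)
  rw [mem_Fx.mp (hW (P.cm_fx he (sub_mem_Cm e z)))] at this
  exact h10 (by rw [← h9, ← this, sub_self])

theorem conj {k : H} (hk : Ref V k) (hC : C ≤ Fx V k) : ∃ h : H, h * t * h⁻¹ = k := by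
  by_cases h : Fx V t ≤ Fx V k
  · exact ⟨1, by simpa using P.l6 P.rt hk inf_le_left h⟩
  · obtain ⟨g, -, hg⟩ := P.l5 P.rt hk inf_le_left hC h
    exact ⟨g, hg⟩

theorem l8 {v : V} (hv : v ∉ C) :
    ∃ k : H, Ref V k ∧ C ≤ Fx V k ∧ k • v = v ∧ Cm V k ≤ Cm V t ⊔ Cm V t' := by
  have hne : t ≠ t' := fun e => P.nc (by rw [e])
  have hr : Fx V (t * t') = C := AddSubgroup.ext fun x => by
    rw [P.b.fx_mul_ref P.rt P.rt' hne, AddSubgroup.mem_inf, mem_Fx, mem_Fx]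
  have h2 : ∀ x, (t * t') • (t * t') • x = x → x ∈ C := fun x hx => by
    by_contra hx'
    have h3 := P.rt.conj t'
    have h4 : C ≤ Fx V (t' * t * t'⁻¹) := fun c hc => mem_Fx_conj.mpr (by
      rw [P.b.inv_eq P.rt', mem_Fx.mp hc.2]; exact hc.1)
    have h5 : t ≠ t' * t * t'⁻¹ := fun e => P.nc (eq_mul_inv_iff_mul_eq.mp e)
    have h6 := (P.b.fx_mul_ref P.rt h3 h5 (x := x)).mp (mem_Fx.mpr (by
      rw [P.b.inv_eq P.rt']; simpa [mul_smul] using hx))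
    exact h5 (P.l6 P.rt h3 inf_le_left (P.l2 h4 P.rt inf_le_left hx' h6.2 h6.1))
  obtain ⟨s, s1, s2, s3, -⟩ := P.b.swap' v (t * t')
  rw [hr] at s3
  have hk : C ≤ Fx V (s⁻¹ * (t * t')) := fun c hc => mem_Fx.mpr (by
    rw [mul_smul, mem_Fx.mp (hr.ge hc), inv_smul_eq_iff, mem_Fx.mp (s3 hc)])
  have hkv : (s⁻¹ * (t * t')) • v = v := by rw [mul_smul, ← s1, inv_smul_smul]
  have hk1 : s⁻¹ * (t * t') ≠ 1 := fun e => hv (h2 v (by
    rw [inv_mul_eq_one] at e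
    rwa [e] at s2))
  have hkr := P.l2' hk1 hk hv hkv
  have hs : Ref V s := P.l2' (by
    rintro rfl
    exact hv (hr.le (mem_Fx.mpr (by simpa using s1.symm)))) s3 (v := v + (t * t') • v)
    (fun hc => hv (h2 v (by
      have := mem_Fx.mp (hr.ge hc)
      rwa [smul_add, add_comm, add_left_inj] at this))) (by rw [smul_add, s1, s2, add_comm])
  refine ⟨_, hkr, hk, hkv, le_trans ?_ (Cm_mul_le t t')⟩
  have h3 := Cm_mul_le (V := V) s (s⁻¹ * (t * t'))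
  rw [mul_inv_cancel_left] at h3
  rw [AddSubgroup.eq_of_le_of_card_ge h3 ?_]
  · exact le_sup_right
  refine (card_sup_le _ _).trans ?_
  rw [(P.l1' hs s3).1, (P.l1' hkr hk).1]
  have h4 := card_Fx_mul (V := V) (t * t')
  rw [hr, P.card_V] at h4
  have h7 : 0 < Nat.card (C : AddSubgroup V) := Nat.card_pos
  exact Nat.le_of_mul_le_mul_left (by rw [h4]; ring_nf; rfl) h7

theorem cover {v : V} (hv : v ∈ Cm V t ⊔ Cm V t') : ∃ h : H, v ∈ Cm V (h * t * h⁻¹) := by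
  have key : ∀ x ∈ Cm V t ⊔ Cm V t', x ∈ C → x = 0 := fun x hx hc => by
    obtain ⟨u, hu, u', hu', rfl⟩ := AddSubgroup.mem_sup.mp hx
    have h1 : u' = 0 := P.dis (by simpa using (Fx V t).sub_mem hc.1 (P.cm_fx P.rt hu)) hu'
    subst h1
    exact P.symm.dis hc.2 (by simpa using hu)
  by_cases h0 : v ∈ C
  · exact ⟨1, key v hv h0 ▸ zero_mem _⟩
  obtain ⟨k, hk, hC, h1, h2⟩ := P.l8 h0
  obtain ⟨u, hu, c, hc, rfl⟩ := (P.l1' hk hC).2.2 v (mem_Fx.mpr h1)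
  obtain ⟨h, rfl⟩ := P.conj hk hC
  have := key c (by simpa using sub_mem hv (h2 hu)) hc
  exact ⟨h, by simpa [this] using hu⟩

theorem of_conj (g h : H) (hc : g * t * g⁻¹ * (h * t * h⁻¹) ≠ h * t * h⁻¹ * (g * t * g⁻¹)) :
    Pr V q (g * t * g⁻¹) (h * t * h⁻¹) :=
  ⟨P.b, P.he, P.mn, P.rt.conj g, P.rt.conj h, by rw [card_Cm_conj, P.ct],
    by rw [card_Cm_conj, P.ct], hc⟩

theorem eq_of_comm (g h : H) (hc : g * t * g⁻¹ * (h * t * h⁻¹) = h * t * h⁻¹ * (g * t * g⁻¹)) :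
    g * t * g⁻¹ = h * t * h⁻¹ := by
  have e : ∀ k : H, k * t * k⁻¹ = (k * g⁻¹) * (g * t * g⁻¹) * (k * g⁻¹)⁻¹ := fun k => by group
  obtain ⟨k, hk⟩ := P.b.exists_nc P.he (P.rt.conj g)
  have Q := P.of_conj g (k * g) (by rw [e (k * g)]; simpa using hk)
  refine Q.l6 (P.rt.conj g) (P.rt.conj h) inf_le_left ?_
  rw [e h] at hc ⊢
  exact P.b.cnt P.he (P.rt.conj g) hc

theorem bot {c : V} (hc : c ∈ C) : c = 0 := by
  let Y : AddSubgroup V :=
    { carrier := {v | ∃ h : H, v ∈ Cm V (h * t * h⁻¹)}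
      zero_mem' := ⟨1, zero_mem _⟩
      neg_mem' := fun ⟨h, hh⟩ => ⟨h, neg_mem hh⟩
      add_mem' := fun {x y} ⟨g, hg⟩ ⟨h, hh⟩ => by
        by_cases e : g * t * g⁻¹ * (h * t * h⁻¹) = h * t * h⁻¹ * (g * t * g⁻¹)
        · exact ⟨h, add_mem (P.eq_of_comm g h e ▸ hg) hh⟩
        · obtain ⟨k, hk⟩ := (P.of_conj g h e).cover (AddSubgroup.add_mem_sup hg hh)
          exact ⟨k * g, by simpa [mul_assoc] using hk⟩ }
  rcases P.b.irr Y (fun g x ⟨h, hh⟩ => ⟨g * h, by simpa [mul_assoc] using smul_mem_Cm g hh⟩)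
    with h | h
  · obtain ⟨x, hx, hx0⟩ := P.b.exists_Cm P.rt.1
    have : x ∈ Y := ⟨1, by simpa using hx⟩
    rw [h] at this
    exact absurd this hx0
  · obtain ⟨g, hg⟩ : c ∈ Y := h ▸ AddSubgroup.mem_top c
    by_contra h0
    have := P.eq_of_comm 1 g (by simpa using P.b.r6' (P.rt.conj g) hg (mem_Fx.mp hc.1) h0)
    rw [← this] at hg
    exact h0 (P.symm.dis hc.2 (by simpa using hg))

theorem pl : Pl H V q := by
  have h0 : (C : AddSubgroup V) = ⊥ := eq_bot_iff.mpr fun c hc => P.bot hc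
  have h1 : ∀ k : H, C ≤ Fx V k := fun k => h0 ▸ bot_le
  refine ⟨by simpa [h0] using P.card_V, fun h hh v hv e => P.l2' hh (h1 h) (fun hc => hv (P.bot hc)) e,
    fun a c ha hc v hv e1 e2 => P.l6 ha hc (h1 a) (P.l2 (h1 c) ha (h1 a)
      (fun hc => hv (P.bot hc)) e2 e1), fun k hk => by simpa [h0] using (P.l1' hk (h1 k)).2.1,
    t, t', P.rt, P.rt', P.nc⟩

end Pr

theorem Bn.pl_even (b : Bn H V) (he : ∀ x : V, x + x = 0) {h : H} (h1 : h ≠ 1) :
    ∃ q, Pl H V q := by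
  obtain ⟨t, ht, hm⟩ := exists_min (V := V) h1
  obtain ⟨g, hg⟩ := b.exists_nc he ht
  exact ⟨_, Pr.pl ⟨b, he, hm, ht, ht.conj g, rfl, card_Cm_conj _ _, hg⟩⟩

end Cfsg.Agent.H27.Bin
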