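import Mathlib
import Cfsg.Agent.H27.Bin2

/-! Binary affine groups: odd characteristic. -/

set_option autoImplicit false
set_option linter.unusedSectionVars false

namespace Cfsg.Agent.H27.Bin

variable {H : Type*} {V : Type*} [Group H] [AddCommGroup V] [DistribMulAction H V]
  [Finite V] [Finite H]

theorem card_Cm_lt {g h : H} (hle : Fx V g ≤ Fx V h) {v : V} (h1 : h • v = v) (h2 : g • v ≠ v) :
    Nat.card (Cm V h) < Nat.card (Cm V g) :=
  lt_of_not_ge fun hc => h2 (mem_Fx.mp (Fx_eq_of_card hle hc (mem_Fx.mpr h1)))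

theorem ref_of_small {q : ℕ} (mn : ∀ g : H, g ≠ 1 → q ≤ Nat.card (Cm V g)) {h : H} (h1 : h ≠ 1)
    (hc : Nat.card (Cm V h) ≤ q) : Ref V h := by
  obtain ⟨t, ht, hle⟩ := exists_ref (V := V) h1
  exact ht.of_le h1 (Fx_eq_of_card hle (hc.trans (mn t ht.1)))

namespace Bn

variable (b : Bn H V)
include b

theorem nc_card {a c : H} (ha : Ref V a) (hn : c * a ≠ a * c) :
    Nat.card (Cm V a) ≤ Nat.card (Cm V c) := by
  have h1 := card_sup_eq (A := Fx V c) (B := Cm V a) fun x h1 h2 =>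
    by_contra fun h0 => hn (b.r6' ha h2 (mem_Fx.mp h1) h0)
  have h2 := AddSubgroup.card_le_card_addGroup (Fx V c ⊔ Cm V a)
  rw [h1, ← card_Fx_mul (V := V) c] at h2
  exact Nat.le_of_mul_le_mul_left h2 Nat.card_pos

variable (ho : ∀ x : V, x + x = 0 → x = 0)
include ho

theorem o1 {h : H} {u : V} (h1 : u ∈ Fx V h) (h2 : u ∈ Cm V h) : u = 0 := by
  obtain ⟨x, rfl⟩ := mem_Cm.mp h2
  obtain ⟨s, s1, s2, s3, -⟩ := b.swap' x h
  have := mem_Fx.mp (s3 h1)
  rw [smul_sub, s1, s2] at this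
  exact ho _ (by linear_combination (norm := abel) -this)

theorem dec (h : H) (v : V) : ∃ c ∈ Fx V h, ∃ m ∈ Cm V h, c + m = v :=
  sup_eq_top (fun _ => b.o1 ho) (card_Fx_mul h).ge v

theorem exists_neg {h : H} (h1 : h ≠ 1) : ∃ n : H, ∀ x : V, n • x = -x := by
  obtain ⟨g, -, hm⟩ := (measure fun g : H => Nat.card (Fx V g)).wf.has_min Set.univ ⟨h, trivial⟩
  have key : ∀ t : H, Ref V t → Fx V g ≤ Fx V t := fun t ht => by
    by_cases hd : ∀ u ∈ Cm V t, u ∈ Cm V g → u = 0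
    · have h2 : ∀ x ∈ Fx V (g⁻¹ * t), t • x = x ∧ g • x = x := fun x hx =>
        b.fx_mul hd (by rwa [mem_Fx, mul_smul, inv_smul_eq_iff] at hx)
      rw [← AddSubgroup.eq_of_le_of_card_ge (H := Fx V (g⁻¹ * t)) (K := Fx V g)
        (fun x hx => mem_Fx.mpr (h2 x hx).2) (not_lt.mp (hm _ trivial))]
      exact fun x hx => mem_Fx.mpr (h2 x hx).1
    · push Not at hd
      obtain ⟨u, h2, h3, h4⟩ := hd
      exact b.r4 ht h2 h3 h4
  have h0 : ∀ c ∈ Fx V g, c = 0 := by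
    rcases b.irr (⨅ t : {t : H // Ref V t}, Fx V t.1) (fun k x hx => by
      rw [AddSubgroup.mem_iInf] at hx ⊢
      intro t
      have := hx ⟨_, t.2.conj k⁻¹⟩
      rwa [mem_Fx_conj, inv_inv] at this) with e | e
    · intro c hc
      have : c ∈ ⨅ t : {t : H // Ref V t}, Fx V t.1 :=
        AddSubgroup.mem_iInf.mpr fun t => key t.1 t.2 hc
      rwa [e] at this
    · obtain ⟨t, ht, -⟩ := exists_ref (V := V) h1
      exact absurd (b.faith t fun x => mem_Fx.mp (AddSubgroup.mem_iInf.mp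
        (e ▸ AddSubgroup.mem_top x) ⟨t, ht⟩)) ht.1
  obtain ⟨z, -, hz⟩ := b.exists_z g
  refine ⟨z, fun x => hz x ?_⟩
  obtain ⟨c, hc, m, hm, rfl⟩ := b.dec ho g x
  simpa [h0 c hc] using hm

theorem lperp {g h : H} (hle : Fx V h ≤ Fx V g) : Cm V g ≤ Cm V h := fun x hx => by
  by_cases h1 : g = 1
  · obtain ⟨y, rfl⟩ := mem_Cm.mp hx
    simp [h1]
  obtain ⟨n, hn⟩ := b.exists_neg ho h1
  obtain ⟨c, hc, m, hm, e⟩ := b.dec ho h x
  obtain ⟨zg, g1, g2⟩ := b.exists_z g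
  obtain ⟨zh, h1, h2⟩ := b.exists_z h
  obtain ⟨s, s1, -, s2⟩ := b.swap c n
  have k1 := s2 x ⟨n * zg, by rw [mul_smul, smul_sub, g1 c (hle hc), g2 x hx, hn, hn]; abel⟩
  have k2 := s2 m ⟨n * zh, by rw [mul_smul, smul_sub, h1 c hc, h2 m hm, hn, hn]; abel⟩
  rw [← e, smul_add, s1, k2, hn, add_left_inj] at k1
  have : c = 0 := ho c (by linear_combination (norm := abel) -k1)
  rw [← e, this, zero_add]
  exact hm

theorem fixU {a c : H} (ha : Ref V a) (hc : Ref V c) (hne : a ≠ c) (h : c * a = a * c) {x : V}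
    (hx : x ∈ Cm V a) : c • x = x := by
  refine (b.r7 ha h hx).elim id fun e => ?_
  by_contra h0
  refine hne (b.r5 ha hc (add_mem hx hx) ?_ fun e2 => h0 (by rw [ho x e2, smul_zero]))
  have := sub_mem_Cm c x
  rwa [e, sub_neg_eq_add] at this

theorem same_axis {a c : H} (ha : Ref V a) (hc : Ref V c) (hle : Fx V a ≤ Fx V c) : a = c := by
  by_contra hne
  have h1 : a * c ≠ 1 := fun e0 => hne (by rw [← b.inv_eq ha, inv_eq_of_mul_eq_one_right e0])
  have h2 := b.inv_eq (ha.of_le h1 fun x hx => mem_Fx.mpr (by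
    rw [mul_smul, mem_Fx.mp (hle hx), mem_Fx.mp hx]))
  rw [mul_inv_rev, b.inv_eq ha, b.inv_eq hc] at h2
  obtain ⟨x, hx, hx0⟩ := b.exists_Cm ha.1
  exact hx0 (b.o1 ho (ha.2 c hc.1 hle (mem_Fx.mpr (b.fixU ho ha hc hne h2 hx))) hx)

theorem gen (h : H) : h ∈ Subgroup.closure {t : H | Ref V t} := by
  induction hn : Nat.card (Cm V h) using Nat.strong_induction_on generalizing h with
  | _ n ih =>
  subst hn
  by_cases h1 : h = 1
  · exact h1 ▸ one_mem _
  by_cases h2 : h * h = 1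
  · obtain ⟨t, ht, hle⟩ := exists_ref (V := V) h1
    obtain ⟨x, hx, hx0⟩ := b.exists_Cm ht.1
    have hx' := b.lperp ho hle hx
    have h3 : h • x = -x := by
      obtain ⟨y, rfl⟩ := mem_Cm.mp hx'
      rw [smul_sub, ← mul_smul, h2, one_smul, neg_sub]
    have := ih _ (card_Cm_lt (g := h) (h := h * t) (fun c hc => mem_Fx.mpr (by
      rw [mul_smul, mem_Fx.mp (hle hc), mem_Fx.mp hc])) (v := x) (by
      rw [mul_smul, b.neg_of_mem ht hx, smul_neg, h3, neg_neg])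
      fun e => hx0 (b.o1 ho (mem_Fx.mpr e) hx')) _ rfl
    simpa [mul_assoc, b.sq ht] using mul_mem this (Subgroup.subset_closure ht)
  · obtain ⟨x, hx⟩ := b.exists_not_fix h2
    rw [mul_smul] at hx
    obtain ⟨s, s1, s2, s3, -⟩ := b.swap' x h
    have k1 := ih _ (card_Cm_lt s3 (v := x + h • x) (by rw [smul_add, s1, s2, add_comm])
      fun e => hx (by rwa [smul_add, add_comm, add_left_inj] at e)) _ rfl
    have k2 := ih _ (card_Cm_lt (g := h) (h := s⁻¹ * h) (fun c hc => mem_Fx.mpr (by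
      rw [mul_smul, mem_Fx.mp hc, inv_smul_eq_iff, mem_Fx.mp (s3 hc)])) (v := x)
      (by rw [mul_smul, ← s1, inv_smul_smul]) fun e => hx (by rw [e, e])) _ rfl
    simpa using mul_mem k1 k2

theorem irr' (U : AddSubgroup V) (hU : ∀ t : H, Ref V t → ∀ x ∈ U, t • x ∈ U) : U = ⊥ ∨ U = ⊤ := by
  refine b.irr U fun h => ?_
  induction b.gen ho h using Subgroup.closure_induction'' with
  | one => simp
  | mem t ht => exact hU t ht
  | inv_mem t ht => rw [b.inv_eq ht]; exact hU t ht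
  | mul g h _ _ h1 h2 => exact fun x hx => by rw [mul_smul]; exact h1 _ (h2 x hx)

theorem cm_mul {g h : H} (hd : ∀ u ∈ Cm V g, u ∈ Cm V h → u = 0) (hg : g * g = 1) :
    (∀ x, x ∈ Fx V (g * h) ↔ g • x = x ∧ h • x = x) ∧ Cm V (g * h) = Cm V g ⊔ Cm V h ∧
      Nat.card (Cm V (g * h)) = Nat.card (Cm V g) * Nat.card (Cm V h) := by
  have h1 : ∀ x, x ∈ Fx V (g * h) ↔ g • x = x ∧ h • x = x := fun x => by
    rw [mem_Fx, mul_smul]
    refine ⟨fun e => b.fx_mul hd ?_, fun h => by rw [h.2, h.1]⟩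
    conv_lhs => rw [← e, ← mul_smul, hg, one_smul]
  have h2 : Cm V (g * h) = Cm V g ⊔ Cm V h := le_antisymm (Cm_mul_le g h)
    (sup_le (b.lperp ho fun x hx => mem_Fx.mpr ((h1 x).mp hx).1)
      (b.lperp ho fun x hx => mem_Fx.mpr ((h1 x).mp hx).2))
  exact ⟨h1, h2, by rw [h2, card_sup_eq hd]⟩

theorem cm_mul_ref {a c : H} (ha : Ref V a) (hc : Ref V c) (hne : a ≠ c) :
    (∀ x, x ∈ Fx V (a * c) ↔ a • x = x ∧ c • x = x) ∧ Cm V (a * c) = Cm V a ⊔ Cm V c ∧
      Nat.card (Cm V (a * c)) = Nat.card (Cm V a) * Nat.card (Cm V c) :=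
  b.cm_mul ho (fun _ h1 h2 => by_contra fun h0 => hne (b.r5 ha hc h1 h2 h0)) (b.sq ha)

theorem politician {q : ℕ} (mn : ∀ g : H, g ≠ 1 → q ≤ Nat.card (Cm V g)) {g t : H}
    (hg : Nat.card (Cm V g) = q * (q * q)) (ht : Ref V t) (ct : Nat.card (Cm V t) = q)
    (hgt : Fx V g ≤ Fx V t) : ∃ p : H, Ref V p ∧ Fx V g ≤ Fx V p ∧
      ∀ a : H, Ref V a → Nat.card (Cm V a) = q → Fx V g ≤ Fx V a → p ≠ a → p * a = a * p := by
  have hq : 2 ≤ q := by
    obtain ⟨x, hx, hx0⟩ := b.exists_Cm ht.1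
    rw [← ct]
    exact Finite.one_lt_card_iff_nontrivial.mpr ⟨⟨x, hx⟩, 0, fun e => hx0 (congrArg Subtype.val e)⟩
  have hV := card_Fx_mul (V := V) g
  rw [hg] at hV
  let D := {a : H // Ref V a ∧ Nat.card (Cm V a) = q ∧ Fx V g ≤ Fx V a}
  have : Nonempty D := ⟨⟨t, ht, ct, hgt⟩⟩
  obtain ⟨p, hp⟩ := friend (P := D) (fun a c => a ≠ c ∧ a.1 * c.1 = c.1 * a.1)
    (fun _ _ h => ⟨h.1.symm, h.2.symm⟩) (fun _ h => h.1 rfl) fun a c hac => by
    obtain ⟨a, ha, ca, ga⟩ := a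
    obtain ⟨c, hc, cc, gc⟩ := c
    have hne : a ≠ c := fun e => hac (Subtype.ext e)
    obtain ⟨m1, m2, m3⟩ := b.cm_mul_ref ho ha hc hne
    rw [ca, cc] at m3
    have gac : Fx V g ≤ Fx V (a * c) := fun x hx =>
      (m1 x).mpr ⟨mem_Fx.mp (ga hx), mem_Fx.mp (gc hx)⟩
    have hl := b.lperp ho gac
    have hY : Nat.card (Fx V g ⊔ Cm V (a * c) : AddSubgroup V) = Nat.card (Fx V g) * (q * q) := by
      rw [card_sup_eq fun x h1 h2 => b.o1 ho h1 (hl h2), m3]
    have key : ∀ w : H, Nat.card (Cm V w) = q → Fx V g ⊔ Cm V (a * c) ≤ Fx V w →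
        Fx V w = Fx V g ⊔ Cm V (a * c) := fun w h1 h2 => by
      refine (AddSubgroup.eq_of_le_of_card_ge h2 (le_of_eq ?_)).symm
      have h3 := card_Fx_mul (V := V) w
      rw [h1, ← hV] at h3
      exact Nat.eq_of_mul_eq_mul_right (show 0 < q by omega) (by rw [h3, hY]; ring)
    obtain ⟨z, z1, z2⟩ := b.exists_z g
    obtain ⟨y, y1, y2⟩ := b.exists_z (a * c)
    have w1 : Fx V g ⊔ Cm V (a * c) ≤ Fx V (z * y) := sup_le
      (fun x hx => mem_Fx.mpr (by rw [mul_smul, y1 x (gac hx), z1 x hx]))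
      fun x hx => mem_Fx.mpr (by rw [mul_smul, y2 x hx, smul_neg, z2 x (hl hx), neg_neg])
    have w0 : z * y ≠ 1 := fun e => by
      have : Cm V g ≤ Cm V (a * c) := fun x hx => by
        obtain ⟨d, hd, m, hm, rfl⟩ := b.dec ho (a * c) x
        have hd' : d ∈ Cm V g := by simpa using sub_mem hx (hl hm)
        have h1 : (z * y) • d = d := by rw [e, one_smul]
        rw [mul_smul, y1 d hd, z2 d hd'] at h1
        rw [ho d (by linear_combination (norm := abel) -h1), zero_add]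
        exact hm
      have := AddSubgroup.card_le_of_le this
      rw [hg, m3] at this
      nlinarith
    have w2 : Nat.card (Cm V (z * y)) ≤ q := by
      have h1 := AddSubgroup.card_le_of_le w1
      have h3 := card_Fx_mul (V := V) (z * y)
      rw [hY] at h1
      refine Nat.le_of_mul_le_mul_left ?_ (Nat.card_pos (α := Fx V (z * y)))
      rw [h3, ← hV]
      nlinarith
    have w3 := ref_of_small mn w0 w2
    have w4 : Nat.card (Cm V (z * y)) = q := le_antisymm w2 (mn _ w0)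
    have adj : ∀ (d : H) (hd : Ref V d), Cm V d ≤ Cm V (a * c) →
        d ≠ z * y ∧ d * (z * y) = z * y * d := fun d hd hle => by
      obtain ⟨x, hx, hx0⟩ := b.exists_Cm hd.1
      have h1 := w1 (le_sup_right (a := Fx V g) (hle hx))
      exact ⟨fun e => hx0 (b.o1 ho (e ▸ h1) hx), (b.r6' hd hx (mem_Fx.mp h1) hx0).symm⟩
    obtain ⟨a1, a2⟩ := adj a ha (m2 ▸ le_sup_left)
    obtain ⟨c1, c2⟩ := adj c hc (m2 ▸ le_sup_right)
    refine ⟨⟨z * y, w3, w4, le_sup_left.trans w1⟩,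
      ⟨⟨fun e => a1 (congrArg Subtype.val e), a2⟩, fun e => c1 (congrArg Subtype.val e), c2⟩, ?_⟩
    rintro ⟨w, hw, cw, gw⟩ ⟨⟨e1, e2⟩, e3, e4⟩
    refine Subtype.ext (b.same_axis ho hw w3 (le_of_eq ?_))
    rw [key _ w4 w1]
    refine key w cw (sup_le gw ?_)
    rw [m2]
    exact sup_le
      (fun x hx => mem_Fx.mpr (b.fixU ho ha hw (fun e => e1 (Subtype.ext e)) e2.symm hx))
      fun x hx => mem_Fx.mpr (b.fixU ho hc hw (fun e => e3 (Subtype.ext e)) e4.symm hx)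
  exact ⟨p.1, p.2.1, p.2.2.2, fun a h1 h2 h3 h4 =>
    (hp ⟨a, h1, h2, h3⟩ fun e => h4 (congrArg Subtype.val e)).2⟩

theorem fx_bot {q : ℕ} (mn : ∀ g : H, g ≠ 1 → q ≤ Nat.card (Cm V g)) {t t' : H} (ht : Ref V t)
    (ht' : Ref V t') (ct : Nat.card (Cm V t) = q) (ct' : Nat.card (Cm V t') = q)
    (nc : t * t' ≠ t' * t) : Cm V (t * t') = ⊤ := by
  have hne : t ≠ t' := fun e => nc (by rw [e])
  obtain ⟨m1, m2, m3⟩ := b.cm_mul_ref ho ht ht' hne
  refine (b.irr' ho _ fun s hs => ?_).resolve_left fun e => ?_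
  swap
  · obtain ⟨x, hx, hx0⟩ := b.exists_Cm ht.1
    have : x ∈ Cm V (t * t') := m2 ▸ le_sup_left (b := Cm V t') hx
    rw [e] at this
    exact hx0 this
  by_cases h1 : Fx V (t * t') ≤ Fx V s
  · intro x hx
    simpa using sub_mem hx (b.lperp ho h1 (sub_mem_Cm s x))
  by_cases h2 : s * t = t * s ∧ s * t' = t' * s
  · intro x hx
    have := smul_mem_Cm s hx
    rwa [← mul_assoc, h2.1, mul_assoc t, h2.2, ← mul_assoc, mul_inv_cancel_right] at this
  exfalso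
  have cs : Nat.card (Cm V s) = q := le_antisymm (by
    rcases not_and_or.mp h2 with h | h
    · exact ct ▸ b.nc_card hs (Ne.symm h)
    · exact ct' ▸ b.nc_card hs (Ne.symm h)) (mn s hs.1)
  obtain ⟨n1, n2, n3⟩ := b.cm_mul ho (g := s) (h := t * t')
    (fun u k1 k2 => by_contra fun h0 => h1 (b.r4 hs k1 k2 h0)) (b.sq hs)
  have g1 : Fx V (s * (t * t')) ≤ Fx V s := fun x hx => mem_Fx.mpr ((n1 x).mp hx).1
  have g2 : Fx V (s * (t * t')) ≤ Fx V t := fun x hx =>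
    mem_Fx.mpr ((m1 x).mp (mem_Fx.mpr ((n1 x).mp hx).2)).1
  have g3 : Fx V (s * (t * t')) ≤ Fx V t' := fun x hx =>
    mem_Fx.mpr ((m1 x).mp (mem_Fx.mpr ((n1 x).mp hx).2)).2
  obtain ⟨p, hp, gp, hc⟩ := b.politician ho mn (by rw [n3, m3, cs, ct, ct']) ht ct g2
  have p1 : p ≠ t := fun e => nc (e ▸ hc t' ht' ct' g3 (e ▸ hne))
  have p2 : p ≠ t' := fun e => nc (e ▸ hc t ht ct g2 (e ▸ hne.symm)).symm
  have p3 : p ≠ s := fun e => h2 ⟨e ▸ hc t ht ct g2 p1, e ▸ hc t' ht' ct' g3 p2⟩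
  have : Cm V (s * (t * t')) ≤ Fx V p := by
    rw [n2, m2]
    exact sup_le (fun x hx => mem_Fx.mpr (b.fixU ho hs hp p3.symm (hc s hs cs g1 p3) hx))
      (sup_le (fun x hx => mem_Fx.mpr (b.fixU ho ht hp p1.symm (hc t ht ct g2 p1) hx))
        fun x hx => mem_Fx.mpr (b.fixU ho ht' hp p2.symm (hc t' ht' ct' g3 p2) hx))
  refine hp.1 (b.faith p fun x => ?_)
  obtain ⟨c, hc, m, hm, rfl⟩ := b.dec ho (s * (t * t')) x
  exact mem_Fx.mp (add_mem (gp hc) (this hm))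

theorem pl_odd {h : H} (h1 : h ≠ 1) :
    (∃ t : H, (∀ x : V, t • x = -x) ∧ ∀ g : H, g = 1 ∨ g = t) ∨ ∃ q, Pl H V q := by
  obtain ⟨t, ht, mn⟩ := exists_min (V := V) h1
  by_cases hc : ∀ s : H, Ref V s → s * t = t * s
  · left
    have h2 : Cm V t = ⊤ := (b.irr' ho _ fun s hs x hx => by
      have := smul_mem_Cm s hx
      rwa [hc s hs, mul_inv_cancel_right] at this).resolve_left fun e => by
      obtain ⟨x, hx, hx0⟩ := b.exists_Cm ht.1
      rw [e] at hx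
      exact hx0 hx
    have h3 : ∀ x : V, x ∈ Cm V t := fun x => h2 ▸ AddSubgroup.mem_top x
    refine ⟨t, fun x => b.neg_of_mem ht (h3 x), fun g => or_iff_not_imp_left.mpr fun hg => ?_⟩
    obtain ⟨x, hx, hx0⟩ := b.exists_Cm hg
    exact b.r5 (ht.of_le hg fun y hy => b.o1 ho hy (h3 y) ▸ zero_mem _) ht hx (h3 x) hx0
  right
  push Not at hc
  obtain ⟨t', ht', nc⟩ := hc
  have ct' : Nat.card (Cm V t') = Nat.card (Cm V t) :=
    le_antisymm (b.nc_card ht' nc.symm) (mn t' ht'.1)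
  have h2 := b.fx_bot ho mn ht ht' rfl ct' nc.symm
  have hV : Nat.card V = Nat.card (Cm V t) * Nat.card (Cm V t) := by
    rw [← AddSubgroup.card_top, ← h2, (b.cm_mul_ref ho ht ht' fun e => nc (by rw [e])).2.2, ct']
  set q := Nat.card (Cm V t)
  have hq : 0 < q := Nat.card_pos
  obtain ⟨n, hn⟩ := b.exists_neg ho h1
  have key : ∀ k : H, k ≠ 1 → ∀ v : V, v ≠ 0 → k • v = v → Nat.card (Cm V k) = q := by
    intro k hk v hv e
    refine le_antisymm ?_ (mn k hk)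
    obtain ⟨z, z1, z2⟩ := b.exists_z k
    have k1 : n * z ≠ 1 := fun e' => hv (ho v (by
      have : (n * z) • v = v := by rw [e', one_smul]
      rw [mul_smul, z1 v (mem_Fx.mpr e), hn] at this
      linear_combination (norm := abel) -this))
    have k2 : Cm V (n * z) ≤ Fx V k := fun x hx => by
      obtain ⟨y, rfl⟩ := mem_Cm.mp hx
      obtain ⟨c, hc, m, hm, rfl⟩ := b.dec ho k y
      rw [mul_smul, smul_add, z1 c hc, z2 m hm, hn, show c + m - -(c + -m) = c + c by abel]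
      exact add_mem hc hc
    have k3 := (mn _ k1).trans (AddSubgroup.card_le_of_le k2)
    have k4 := card_Fx_mul (V := V) k
    exact Nat.le_of_mul_le_mul_left ((Nat.mul_le_mul_right _ k3).trans (by rw [k4, hV])) hq
  have key2 : ∀ k : H, Ref V k → Nat.card (Cm V k) = q := fun k hk => by
    by_cases e : ∃ v : V, v ≠ 0 ∧ k • v = v
    · obtain ⟨v, h3, h4⟩ := e
      exact key k hk.1 v h3 h4
    · push Not at e
      have h3 : Fx V k ≤ Fx V t := fun x hx => by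
        rw [by_contra fun h0 => e x h0 (mem_Fx.mp hx)]
        exact zero_mem _
      rw [b.same_axis ho hk ht h3]
  refine ⟨q, hV, fun k hk v hv e => ref_of_small mn hk (key k hk v hv e).le,
    fun a c ha hc v hv e1 e2 => by_contra fun hne => hv ?_, fun k hk => ?_, t', t, ht', ht, nc⟩
  · obtain ⟨m1, -, m3⟩ := b.cm_mul_ref ho ha hc hne
    rw [key2 a ha, key2 c hc, ← hV] at m3
    exact b.o1 ho ((m1 v).mpr ⟨e1, e2⟩)
      (AddSubgroup.eq_top_of_card_eq _ m3 ▸ AddSubgroup.mem_top v)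
  · have := card_Fx_mul (V := V) k
    rw [key2 k hk, hV] at this
    exact Nat.eq_of_mul_eq_mul_right hq this

end Bn

end Cfsg.Agent.H27.Bin
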