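import Mathlib
import Cfsg.Agent.H27.Bin3

/-! Binary affine groups: the anisotropic plane. -/

set_option autoImplicit false
set_option linter.unusedSectionVars false

namespace Cfsg.Agent.H27.Bin

open Module
open scoped IsMulCommutative

variable {H : Type*} {V : Type*} [Group H] [AddCommGroup V] [DistribMulAction H V]
  [Finite V] [Finite H]

variable (V) in
/-- Fixed point free elements. -/
def Rot (h : H) : Prop := ∀ v : V, h • v = v → v = 0

theorem card_ne_zero (W : Type*) [Zero W] [Finite W] :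
    Nat.card {v : W // v ≠ 0} = Nat.card W - 1 := by
  classical
  have := Fintype.ofFinite W
  rw [Nat.card_eq_fintype_card, Nat.card_eq_fintype_card, Fintype.card_subtype_compl,
    Fintype.card_subtype_eq]

namespace Pl

variable {q : ℕ} (b : Bn H V) (P : Pl H V q)
include b P

theorem two_le : 2 ≤ q := by
  obtain ⟨a, -, ha, -⟩ := P.nc
  obtain ⟨x, -, hx⟩ := b.exists_Cm ha.1
  have : 1 < Nat.card V := Finite.one_lt_card_iff_nontrivial.mpr ⟨x, 0, hx⟩
  rw [P.card] at this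
  by_contra h
  interval_cases q <;> omega

theorem trich (h : H) : h = 1 ∨ Ref V h ∨ Rot V h := by
  by_contra hne
  push Not at hne
  exact hne.2.2 fun v e => by_contra fun h0 => hne.2.1 (P.h1 h hne.1 v h0 e)

theorem ref_fix {k : H} (hk : Ref V k) : ∃ v : V, v ≠ 0 ∧ k • v = v := by
  have : Nontrivial (Fx V k) := Finite.one_lt_card_iff_nontrivial.mp (P.h3 k hk ▸ P.two_le b)
  obtain ⟨v, hv⟩ := exists_ne (0 : Fx V k)
  exact ⟨v, fun e => hv (Subtype.ext e), mem_Fx.mp v.2⟩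

theorem rot_mul {a c : H} (ha : Ref V a) (hc : Ref V c) : a * c = 1 ∨ Rot V (a * c) := by
  by_cases hne : a = c
  · exact Or.inl (hne ▸ b.sq ha)
  · refine Or.inr fun v e => by_contra fun h0 => ?_
    have := (b.fx_mul_ref ha hc hne).mp (mem_Fx.mpr e)
    exact hne (P.h2 a c ha hc v h0 this.1 this.2)

theorem rot_sq {h : H} (hr : Rot V h) (h2 : h * h ≠ 1) : Rot V (h * h) := by
  refine ((P.trich b (h * h)).resolve_left h2).resolve_left fun hk => ?_
  obtain ⟨x, hx, hx0⟩ := b.exists_Cm h2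
  rcases b.r7 hk (mul_assoc h h h).symm hx with e | e
  · exact hx0 (hr x e)
  · have := b.neg_of_mem hk hx
    rw [mul_smul, e, smul_neg, e, neg_neg] at this
    exact hx0 (hr x (e.trans this.symm))

theorem ex_ref {h : H} (hr : Rot V h) (h2 : h * h ≠ 1) {v : V} (hv : v ≠ 0) :
    ∃ k s : H, Ref V k ∧ Ref V s ∧ k • v = v ∧ h = s * k := by
  have h3 : h • h • v ≠ v := fun e => hv (P.rot_sq b hr h2 v (by rw [mul_smul, e]))
  obtain ⟨s, s1, s2⟩ := b.swap0 v h
  have hk : (s⁻¹ * h) • v = v := by rw [mul_smul, ← s1, inv_smul_smul]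
  refine ⟨s⁻¹ * h, s, P.h1 _ (fun e => h3 ?_) v hv hk, P.h1 s ?_ (v + h • v) (fun e => h3 ?_)
    (by rw [smul_add, s1, s2, add_comm]), hk, by simp⟩
  · rw [inv_mul_eq_one] at e
    rwa [e] at s2
  · rintro rfl
    exact hv (hr v (by simpa using s1.symm))
  · rw [eq_neg_of_add_eq_zero_right e, smul_neg, eq_neg_of_add_eq_zero_right e, neg_neg]

theorem key {h k : H} (hr : Rot V h) (hk : Ref V k) : Ref V (h * k) := by
  obtain ⟨v, hv, e⟩ := P.ref_fix b hk
  by_cases h2 : h * h = 1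
  · obtain ⟨x, hx, hx0⟩ := b.exists_Cm hk.1
    have h3 := hr (x + h • x) (by rw [smul_add, ← mul_smul, h2, one_smul, add_comm])
    refine P.h1 _ (fun e' => hv (hr v ?_)) x hx0 ?_
    · rw [← e, ← mul_smul, e', one_smul, e]
    · rw [mul_smul, b.neg_of_mem hk hx, smul_neg, eq_neg_of_add_eq_zero_right h3, neg_neg]
  · obtain ⟨k', s, h3, h4, h5, rfl⟩ := P.ex_ref b hr h2 hv
    rwa [P.h2 k' k h3 hk v hv h5 e, mul_assoc, b.sq hk, mul_one]

theorem card_ref : Nat.card {k : H // Ref V k} = q + 1 := by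
  have := Fintype.ofFinite {k : H // Ref V k}
  obtain ⟨a, c, ha, hc, hn⟩ := P.nc
  have h1 : a * c * (a * c) ≠ 1 := fun e => hn (by
    rw [← inv_eq_of_mul_eq_one_right e, mul_inv_rev, b.inv_eq ha, b.inv_eq hc])
  have h2 := (P.rot_mul b ha hc).resolve_left fun e => h1 (by rw [e, one_mul])
  have h3 := Nat.card_eq_of_bijective
    (fun x : (Σ k : {k : H // Ref V k}, {v : Fx V k.1 // v ≠ 0}) =>
      (⟨x.2.1.1, fun e => x.2.2 (Subtype.ext e)⟩ : {v : V // v ≠ 0})) ⟨by
      rintro ⟨⟨k, hk⟩, ⟨v, hv⟩, hv0⟩ ⟨⟨k', hk'⟩, ⟨v', hv'⟩, hv0'⟩ e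
      obtain rfl : v = v' := congrArg Subtype.val e
      obtain rfl := P.h2 k k' hk hk' v (fun e => hv0 (Subtype.ext e)) (mem_Fx.mp hv)
        (mem_Fx.mp hv')
      rfl, fun ⟨v, hv⟩ => by
      obtain ⟨k, -, hk, -, e, -⟩ := P.ex_ref b h2 h1 hv
      exact ⟨⟨⟨k, hk⟩, ⟨v, mem_Fx.mpr e⟩, fun e => hv (congrArg Subtype.val e)⟩, rfl⟩⟩
  rw [Nat.card_sigma, card_ne_zero, P.card, Finset.sum_congr rfl fun k _ => by
    rw [card_ne_zero, P.h3 k.1 k.2], Finset.sum_const, smul_eq_mul, Finset.card_univ,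
    ← Nat.card_eq_fintype_card] at h3
  have h4 := P.two_le b
  obtain ⟨m, rfl⟩ : ∃ m, q = m + 1 := ⟨q - 1, by omega⟩
  refine Nat.eq_of_mul_eq_mul_right (show 0 < m by omega) ?_
  rw [Nat.add_sub_cancel] at h3
  rw [h3]
  exact Nat.sub_eq_of_eq_add (by ring)

theorem exists_A {k : H} (hk : Ref V k) : ∃ A : Subgroup H, Nat.card A = q + 1 ∧
    (∀ a ∈ A, a = 1 ∨ Rot V a) ∧ (∀ a ∈ A, k * a = a⁻¹ * k) ∧ ∀ h, h ∈ A ∨ h * k ∈ A := by
  have h1 : ∀ a : H, a = 1 ∨ Rot V a → ∀ c, Ref V c → Ref V (a * c) := by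
    rintro a (rfl | ha) c hc
    · simpa using hc
    · exact P.key b ha hc
  let A : Subgroup H :=
    { carrier := {a | a = 1 ∨ Rot V a}
      one_mem' := Or.inl rfl
      inv_mem' := fun {a} ha => ha.imp (fun e => by simp [e]) fun h v e =>
        h v (inv_smul_eq_iff.mp e).symm
      mul_mem' := fun {a c} ha hc => by
        have := P.rot_mul b (h1 a ha _ (h1 c hc k hk)) hk
        rwa [mul_assoc, mul_assoc, b.sq hk, mul_one] at this }
  refine ⟨A, ?_, fun a ha => ha, fun a ha => ?_, fun h => ?_⟩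
  · rw [← P.card_ref b]
    exact Nat.card_eq_of_bijective (fun a => ⟨a.1 * k, h1 a.1 a.2 k hk⟩)
      ⟨fun a c e => Subtype.ext (mul_right_cancel (congrArg Subtype.val e)), fun c =>
        ⟨⟨c.1 * k, P.rot_mul b c.2 hk⟩, Subtype.ext (by simp [mul_assoc, b.sq hk])⟩⟩
  · have := b.inv_eq (h1 a ha k hk)
    rw [mul_inv_rev, b.inv_eq hk] at this
    rw [eq_inv_mul_iff_mul_eq, ← mul_assoc, ← this, inv_mul_cancel_right]
  · rcases P.trich b h with e | e | e
    · exact Or.inl (Or.inl e)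
    · exact Or.inr (P.rot_mul b e hk)
    · exact Or.inl (Or.inr e)

omit b in
theorem irrA {A : Subgroup H} (hc : Nat.card A = q + 1) (hA : ∀ a ∈ A, a = 1 ∨ Rot V a)
    (Y : AddSubgroup V) (hY : ∀ a ∈ A, ∀ y ∈ Y, a • y ∈ Y) : Y = ⊥ ∨ Y = ⊤ := by
  by_contra hne
  push Not at hne
  have key : ∀ a c : A, ∀ y : V, a.1 • y - c.1 • y ∈ Y → y ∉ Y → a = c := by
    intro a c y h1 h2
    rcases hA _ (c⁻¹ * a).2 with e | e
    · exact (inv_mul_eq_one.mp (Subtype.ext e)).symm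
    exfalso
    let f : Y → Y := fun x => ⟨x - (c⁻¹ * a).1 • x.1, sub_mem x.2 (hY _ (c⁻¹ * a).2 _ x.2)⟩
    have hf : Function.Injective f := fun x z e' => by
      have e2 : x.1 - (c⁻¹ * a).1 • x.1 = z.1 - (c⁻¹ * a).1 • z.1 := congrArg Subtype.val e'
      exact Subtype.ext (sub_eq_zero.mp (e _ (by
        rw [smul_sub]; linear_combination (norm := abel) -e2)))
    obtain ⟨x, hx⟩ := Finite.injective_iff_surjective.mp hf ⟨y - (c⁻¹ * a).1 • y, by
      have := neg_mem (hY _ c⁻¹.2 _ h1)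
      simpa [smul_sub, mul_smul] using this⟩
    have e2 : x.1 - (c⁻¹ * a).1 • x.1 = y - (c⁻¹ * a).1 • y := congrArg Subtype.val hx
    exact h2 (sub_eq_zero.mp (e (x.1 - y) (by
      rw [smul_sub]; linear_combination (norm := abel) -e2)) ▸ x.2)
  obtain ⟨y, hy, hy0⟩ := (AddSubgroup.bot_or_exists_ne_zero Y).resolve_left hne.1
  obtain ⟨z, hz⟩ : ∃ z, z ∉ Y := by
    by_contra h
    push Not at h
    exact hne.2 (eq_top_iff.mpr fun x _ => h x)
  have h1 : q + 1 ≤ Nat.card Y := hc ▸ Nat.card_le_card_of_injective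
    (fun a : A => (⟨a.1 • y, hY _ a.2 y hy⟩ : Y)) fun a c e => by
      have e' : a.1 • y = c.1 • y := congrArg Subtype.val e
      rcases hA _ (c⁻¹ * a).2 with e2 | e2
      · exact (inv_mul_eq_one.mp (Subtype.ext e2)).symm
      · exact absurd (e2 y (by simp [mul_smul, e'])) hy0
  have h2 : q + 1 ≤ Nat.card (V ⧸ Y) := hc ▸ Nat.card_le_card_of_injective
    (fun a : A => ((a.1 • z : V) : V ⧸ Y)) fun a c e =>
      key a c z (QuotientAddGroup.eq_iff_sub_mem.mp e) hz
  have h3 := AddSubgroup.card_eq_card_quotient_mul_card_addSubgroup Y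
  have h4 := Nat.mul_le_mul h2 h1
  rw [← h3, P.card] at h4
  nlinarith

theorem model : ∃ (F E : Type) (_ : Field F) (_ : Fintype F) (_ : Field E) (_ : Fintype E)
    (_ : Algebra F E) (ψ : E ≃+ V), finrank F E = 2 ∧
    (∀ h : H, ∃ (a : E) (φ : E ≃ₐ[F] E), Algebra.norm F a = 1 ∧ ∀ e, h • ψ e = ψ (a * φ e)) ∧
    ∀ (a : E) (φ : E ≃ₐ[F] E), Algebra.norm F a = 1 → ∃ h : H, ∀ e, h • ψ e = ψ (a * φ e) := by
  classical
  obtain ⟨k, -, hk, -⟩ := P.nc
  obtain ⟨v, hv, hkv⟩ := P.ref_fix b hk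
  obtain ⟨A, a1, a2, a3, a4⟩ := P.exists_A b hk
  have hq := P.two_le b
  have hcomm : ∀ a ∈ A, ∀ c ∈ A, a * c = c * a := fun a ha c hc => by
    have := a3 _ (mul_mem ha hc)
    rw [← mul_assoc, a3 a ha, mul_assoc, a3 c hc, ← mul_assoc, mul_left_inj, ← mul_inv_rev,
      inv_inj] at this
    exact this.symm
  let ρ : H →* AddMonoid.End V := DistribMulAction.toAddMonoidEnd H V
  have hρ : ∀ h x, ρ h x = h • x := fun _ _ => rfl
  let R : Subring (AddMonoid.End V) := Subring.closure (ρ '' A)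
  have : IsMulCommutative R := Subring.isMulCommutative_closure (by
    rintro _ ⟨a, ha, rfl⟩ _ ⟨c, hc, rfl⟩
    rw [← map_mul, ← map_mul, hcomm a ha c hc])
  let ι : A → R := fun a => ⟨ρ a, Subring.subset_closure ⟨a, a.2, rfl⟩⟩
  have hR : ∀ (e : R) (a : A) (x : V), e.1 (a.1 • x) = a.1 • e.1 x := fun e a x =>
    congrArg (fun f : R => f.1 x) (mul_comm e (ι a))
  have hinj : ∀ e : R, e ≠ 0 → ∀ x, e.1 x = 0 → x = 0 := fun e he x hx => by
    rcases P.irrA a1 a2 (AddMonoidHom.ker e.1) (fun a ha y hy => by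
      have hy' : e.1 y = 0 := hy
      change e.1 (a • y) = 0
      rw [hR e ⟨a, ha⟩, hy', smul_zero]) with h | h
    · have : x ∈ AddMonoidHom.ker e.1 := hx
      rwa [h] at this
    · refine absurd (Subtype.ext (AddMonoidHom.ext fun y => ?_)) he
      have : y ∈ AddMonoidHom.ker e.1 := h ▸ AddSubgroup.mem_top y
      exact this
  have : Nontrivial R := ⟨1, 0, fun e => hv (congrArg (fun f : R => f.1 v) e)⟩
  have : NoZeroDivisors R := ⟨fun {x y} e => or_iff_not_imp_left.mpr fun hx =>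
    Subtype.ext (AddMonoidHom.ext fun z => hinj x hx _ (congrArg (fun f : R => f.1 z) e))⟩
  have : IsDomain R := NoZeroDivisors.to_isDomain R
  have : Finite (AddMonoid.End V) := DFunLike.finite (V →+ V)
  let _ : Field R := (Finite.isField_of_domain R).toField
  have := Fintype.ofFinite R
  let ev : R →+ V := ⟨⟨fun e => e.1 v, rfl⟩, fun _ _ => rfl⟩
  have hev : Function.Bijective ev := ⟨(injective_iff_map_eq_zero ev).mpr fun e he =>
    by_contra fun h0 => hv (hinj e h0 v he), by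
    rw [← AddMonoidHom.range_eq_top]
    refine (P.irrA a1 a2 _ ?_).resolve_left fun e => hv ?_
    · rintro a ha _ ⟨e, rfl⟩
      exact ⟨ι ⟨a, ha⟩ * e, rfl⟩
    · have : v ∈ ev.range := ⟨1, rfl⟩
      rwa [e] at this⟩
  have hcR : Nat.card R = q * q := (Nat.card_eq_of_bijective ev hev).trans P.card
  obtain ⟨p, _, n, hp, hn⟩ := FiniteField.card' R
  obtain ⟨m, -, hm⟩ := (Nat.dvd_prime_pow hp).mp
    (show q ∣ p ^ (n : ℕ) by rw [← hn, ← Nat.card_eq_fintype_card, hcR]; exact dvd_mul_right _ _)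
  have hm0 : m ≠ 0 := by rintro rfl; rw [pow_zero] at hm; omega
  have := Fact.mk hp
  let F := GaloisField p m
  let E := FiniteField.Extension F p 2
  have hF : Nat.card F = q := (GaloisField.card p m hm0).trans hm.symm
  have hE : Nat.card E = q * q := by rw [FiniteField.natCard_extension, hF, sq]
  let _ := Fintype.ofFinite F
  let _ := Fintype.ofFinite E
  let j : E ≃+* R := FiniteField.ringEquivOfCardEq (by
    rw [← Nat.card_eq_fintype_card, ← Nat.card_eq_fintype_card, hE, hcR])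
  let ψ : E ≃+ V := j.toAddEquiv.trans (AddEquiv.ofBijective ev hev)
  have hψ : ∀ e, ψ e = (j e).1 v := fun _ => rfl
  let μ : A →* E :=
    { toFun := fun a => j.symm (ι a)
      map_one' := by rw [← map_one j.symm]; congr 1; exact Subtype.ext (map_one ρ)
      map_mul' := fun a c => by rw [← map_mul j.symm]; congr 1; exact Subtype.ext (map_mul ρ _ _) }
  have hμ : ∀ (a : A) e, a.1 • ψ e = ψ (μ a * e) := fun a e => by
    rw [hψ, hψ, map_mul]
    change _ = ((j (j.symm (ι a))) * j e).1 v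
    rw [j.apply_symm_apply]; rfl
  have hμ1 : ∀ a : A, μ a ^ (q + 1) = 1 := fun a => by
    rw [← map_pow, ← a1, pow_card_eq_one', map_one]
  have hμ2 : Function.Injective μ := (injective_iff_map_eq_one μ).mpr fun a ha =>
    Subtype.ext (b.faith _ fun x => by
      obtain ⟨e, rfl⟩ := ψ.surjective x
      rw [hμ, ha, one_mul])
  have hN : ∀ a : E, Algebra.norm F a = 1 ↔ a ^ (q + 1) = 1 := fun a => by
    rw [← (algebraMap F E).injective.eq_iff, FiniteField.algebraMap_norm_eq_pow_sum,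
      FiniteField.finrank_extension, hF, map_one]
    simp [Finset.sum_range_succ, add_comm]
  have hμ3 : ∀ a : E, a ^ (q + 1) = 1 → ∃ c, μ c = a := fun a ha => by
    have h1 : Nat.card {x : E // x ^ (q + 1) = 1} ≤ Nat.card A := by
      rw [a1]
      refine le_trans ?_ ((Multiset.toFinset_card_le _).trans
        (Polynomial.card_nthRoots (q + 1) (1 : E)))
      rw [← Nat.card_eq_finsetCard]
      exact Nat.card_le_card_of_injective (fun x => ⟨x.1, by
        rw [Multiset.mem_toFinset, Polynomial.mem_nthRoots (by omega)]; exact x.2⟩)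
        fun x y e => Subtype.ext (Subtype.mk.inj e)
    obtain ⟨c, hc⟩ := (Function.Injective.bijective_of_nat_card_le
      (f := fun c : A => (⟨μ c, hμ1 c⟩ : {x : E // x ^ (q + 1) = 1}))
      (fun x y e => hμ2 (congrArg Subtype.val e)) h1).2 ⟨a, ha⟩
    exact ⟨c, congrArg Subtype.val hc⟩
  let Fr := FiniteField.frobeniusAlgEquivOfAlgebraic F E
  have hFr : ∀ e, Fr e = e ^ q := fun e => by rw [← hF, Nat.card_eq_fintype_card]; rfl
  have hkψ : ∀ e, k • ψ e = ψ (Fr e) := by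
    let d : V →+ V := DistribSMul.toAddMonoidHom V k -
      (ψ.toAddMonoidHom.comp Fr.toRingEquiv.toAddEquiv.toAddMonoidHom).comp ψ.symm.toAddMonoidHom
    have hd : ∀ e, ψ e ∈ d.ker ↔ k • ψ e = ψ (Fr e) := fun e => by
      simp [d, sub_eq_zero]
    have h1 : ψ 1 = v := by rw [hψ, map_one]; rfl
    rcases P.irrA a1 a2 d.ker (fun a ha y hy => by
      obtain ⟨e, rfl⟩ := ψ.surjective y
      rw [hd] at hy
      rw [hμ ⟨a, ha⟩, hd, ← hμ ⟨a, ha⟩, ← mul_smul, a3 a ha, mul_smul, hy, map_mul Fr,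
        hFr (μ _)]
      refine (hμ ⟨a, ha⟩⁻¹ _).trans ?_
      rw [map_inv]
      congr 2
      exact inv_eq_of_mul_eq_one_left (by rw [← pow_succ, hμ1])) with h | h
    · have : ψ 1 ∈ d.ker := (hd 1).mpr (by rw [map_one Fr, h1, hkv])
      rw [h, h1] at this
      exact absurd this hv
    · exact fun e => (hd e).mp (h ▸ AddSubgroup.mem_top _)
  refine ⟨F, E, inferInstance, inferInstance, inferInstance, inferInstance, inferInstance, ψ,
    FiniteField.finrank_extension F p 2, fun h => ?_, fun a φ ha => ?_⟩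
  · rcases a4 h with e | e
    · exact ⟨μ ⟨h, e⟩, 1, (hN _).mpr (hμ1 _), fun x => hμ ⟨h, e⟩ x⟩
    · refine ⟨μ ⟨_, e⟩, Fr, (hN _).mpr (hμ1 _), fun x => ?_⟩
      rw [← hμ, ← hkψ, mul_smul, b.tt hk]
  · obtain ⟨c, rfl⟩ := hμ3 a ((hN a).mp ha)
    obtain ⟨⟨i, hi⟩, rfl⟩ := (FiniteField.bijective_frobeniusAlgEquivOfAlgebraic_pow F E).2 φ
    have hi' : i < 2 := FiniteField.finrank_extension F p 2 ▸ hi
    interval_cases i
    · exact ⟨c, fun e => by simpa using hμ c e⟩
    · exact ⟨c * k, fun e => by rw [mul_smul, hkψ, hμ]; simp [Fr]⟩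

end Pl

theorem Bn.prime (b : Bn H V) [Nontrivial V] (h : ∀ (g : H) (x : V), g • x = x ∨ g • x = -x) :
    (Nat.card V).Prime := by
  have : IsSimpleAddGroup V := ⟨fun U _ => b.irr U fun g x hx => by
    rcases h g x with e | e <;> rw [e]
    exacts [hx, neg_mem hx]⟩
  exact IsSimpleAddGroup.prime_card

theorem Bn.main (b : Bn H V) [Nontrivial V] : ((Nat.card V).Prime ∧ Nat.card H ≤ 2) ∨
    ∃ (F E : Type) (_ : Field F) (_ : Fintype F) (_ : Field E) (_ : Fintype E)
    (_ : Algebra F E) (ψ : E ≃+ V), finrank F E = 2 ∧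
    (∀ h : H, ∃ (a : E) (φ : E ≃ₐ[F] E), Algebra.norm F a = 1 ∧ ∀ e, h • ψ e = ψ (a * φ e)) ∧
    ∀ (a : E) (φ : E ≃ₐ[F] E), Algebra.norm F a = 1 → ∃ h : H, ∀ e, h • ψ e = ψ (a * φ e) := by
  by_cases h1 : ∀ g : H, g = 1
  · have : Subsingleton H := ⟨fun a c => (h1 a).trans (h1 c).symm⟩
    exact Or.inl ⟨b.prime fun g x => Or.inl (by rw [h1 g, one_smul]),
      (Finite.card_le_one_iff_subsingleton.mpr this).trans one_le_two⟩
  push Not at h1
  obtain ⟨h, h1⟩ := h1
  rcases b.parity with he | ho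
  · obtain ⟨q, P⟩ := b.pl_even he h1
    exact Or.inr (P.model b)
  · rcases b.pl_odd ho h1 with ⟨t, h2, h3⟩ | ⟨q, P⟩
    · refine Or.inl ⟨b.prime fun g x => (h3 g).imp (fun e => by rw [e, one_smul])
        fun e => by rw [e, h2], ?_⟩
      simpa using Nat.card_le_card_of_surjective (fun c : Bool => if c then (1 : H) else t)
        fun g => (h3 g).elim (fun e => ⟨true, e.symm⟩) fun e => ⟨false, e.symm⟩
    · exact Or.inr (P.model b)

end Cfsg.Agent.H27.Bin
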