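import Mathlib
import Cfsg.Agent.H27.Schur3

/-! Groups with an abelian normal subgroup and cyclic quotient; central extensions of metacyclic
groups. -/

namespace Cfsg.Agent.H27

open Subgroup
open scoped commutatorElement IsMulCommutative

section CycExt

variable {G : Type*} [Group G]

theorem comm_mul_of_abelian_normal (A : Subgroup G) [hn : A.Normal] (hA : IsMulCommutative A)
    (x : G) {a b : G} (ha : a ∈ A) (hb : b ∈ A) : ⁅x, a * b⁆ = ⁅x, a⁆ * ⁅x, b⁆ := by
  have h1 : x * b * x⁻¹ * b⁻¹ ∈ A := mul_mem (hn.conj_mem b hb x) (inv_mem hb)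
  have h2 : a⁻¹ * (x * b * x⁻¹ * b⁻¹) = (x * b * x⁻¹ * b⁻¹) * a⁻¹ :=
    congrArg Subtype.val (hA.is_comm.comm (⟨_, inv_mem ha⟩ : A) ⟨_, h1⟩)
  simp only [commutatorElement_def]
  calc x * (a * b) * x⁻¹ * (a * b)⁻¹ = x * a * x⁻¹ * (x * b * x⁻¹ * b⁻¹ * a⁻¹) := by group
    _ = x * a * x⁻¹ * (a⁻¹ * (x * b * x⁻¹ * b⁻¹)) := by rw [h2]
    _ = _ := by group

/-- The homomorphism `a ↦ ⁅x, a⁆` on an abelian normal subgroup. -/
def commHom (A : Subgroup G) [A.Normal] (hA : IsMulCommutative A) (x : G) : A →* G :=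
  MonoidHom.mk' (fun a => ⁅x, (a : G)⁆) (fun a b => comm_mul_of_abelian_normal A hA x a.2 b.2)

theorem commHom_apply (A : Subgroup G) [A.Normal] (hA : IsMulCommutative A) (x : G) (a : A) :
    commHom A hA x a = ⁅x, (a : G)⁆ := rfl

/-- If `A` is abelian normal and `G = A ⟨x⟩` then `G' = {⁅x, a⁆ : a ∈ A}`. -/
theorem commutator_eq_range_commHom (A : Subgroup G) [hn : A.Normal] (hA : IsMulCommutative A)
    (x : G) (hgen : A ⊔ zpowers x = ⊤) : commutator G = (commHom A hA x).range := by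
  have hle : (commHom A hA x).range ≤ A := by
    rintro _ ⟨a, rfl⟩
    exact mul_mem (hn.conj_mem _ a.2 x) (inv_mem a.2)
  apply le_antisymm
  · haveI : (commHom A hA x).range.Normal := by
      rw [← normalizer_eq_top_iff, eq_top_iff, ← hgen, sup_le_iff]
      constructor
      · intro a ha
        rw [mem_normalizer_iff]
        intro h
        constructor
        · intro hh
          have : a * h = h * a := congrArg Subtype.val (hA.is_comm.comm (⟨a, ha⟩ : A) ⟨h, hle hh⟩)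
          rw [this]; simpa using hh
        · intro hh
          have h1 : h ∈ A := by simpa [mul_assoc] using hn.conj_mem _ (hle hh) a⁻¹
          have : a * h = h * a := congrArg Subtype.val (hA.is_comm.comm (⟨a, ha⟩ : A) ⟨h, h1⟩)
          rw [this] at hh; simpa using hh
      · rw [zpowers_le, mem_normalizer_iff]
        intro h
        constructor
        · rintro ⟨a, rfl⟩
          refine ⟨⟨x * a * x⁻¹, hn.conj_mem _ a.2 x⟩, ?_⟩
          simp only [commHom_apply, commutatorElement_def]; group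
        · rintro ⟨a, ha⟩
          refine ⟨⟨x⁻¹ * a * x⁻¹⁻¹, hn.conj_mem _ a.2 x⁻¹⟩, ?_⟩
          have : h = x⁻¹ * (x * h * x⁻¹) * x := by group
          rw [this, ← ha]
          simp only [commHom_apply, commutatorElement_def]; group
    let φ := QuotientGroup.mk' (commHom A hA x).range
    have key : ∀ g ∈ A ⊔ zpowers x, ∀ h ∈ A ⊔ zpowers x, Commute (φ g) (φ h) := by
      have h1 : ∀ a ∈ A, Commute (φ x) (φ a) := by
        intro a ha
        rw [← commutatorElement_eq_one_iff_commute, ← map_commutatorElement]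
        exact (QuotientGroup.eq_one_iff _).2 ⟨⟨a, ha⟩, rfl⟩
      have h2 : ∀ a ∈ A, ∀ b ∈ A, Commute (φ a) (φ b) := by
        intro a ha b hb
        exact Commute.map (congrArg Subtype.val (hA.is_comm.comm (⟨a, ha⟩ : A) ⟨b, hb⟩)) φ
      intro g hg h hh
      have hg' : g ∈ ((A ⊔ zpowers x : Subgroup G) : Set G) := hg
      have hh' : h ∈ ((A ⊔ zpowers x : Subgroup G) : Set G) := hh
      rw [normal_mul] at hg' hh'
      obtain ⟨a, ha, _, ⟨i, rfl⟩, rfl⟩ := hg'
      obtain ⟨b, hb, _, ⟨j, rfl⟩, rfl⟩ := hh'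
      simp only [map_mul, map_zpow]
      exact Commute.mul_left (Commute.mul_right (h2 a ha b hb) ((h1 a ha).symm.zpow_right j))
        (Commute.mul_right ((h1 b hb).zpow_left i) (((Commute.refl _).zpow_left i).zpow_right j))
    rw [_root_.commutator_def, commutator_le]
    intro g _ h _
    rw [← QuotientGroup.eq_one_iff]
    change φ _ = 1
    rw [map_commutatorElement, commutatorElement_eq_one_iff_commute]
    exact key g (hgen ▸ mem_top g) h (hgen ▸ mem_top h)
  · rintro _ ⟨a, rfl⟩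
    exact commutator_mem_commutator (mem_top _) (mem_top _)

end CycExt

section Meta

variable {Γ : Type*} {Q : Type*} [Group Γ] [Group Q] {τ : Γ →* Q}

theorem comap_zpowers_comm (hτ : τ.ker ≤ center Γ) (a : Γ) :
    IsMulCommutative ((zpowers (τ a)).comap τ) := by
  have key : ∀ y ∈ (zpowers (τ a)).comap τ, ∃ (i : ℤ) (z : Γ), z ∈ center Γ ∧ y = a ^ i * z := by
    rintro y ⟨i, hi⟩
    refine ⟨i, (a ^ i)⁻¹ * y, hτ ?_, by group⟩
    rw [MonoidHom.mem_ker, map_mul, map_inv, map_zpow, ← hi]; simp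
  refine ⟨⟨fun y y' => Subtype.ext ?_⟩⟩
  obtain ⟨i, z, hz, h⟩ := key _ y.2
  obtain ⟨j, w, hw, h'⟩ := key _ y'.2
  change (y : Γ) * y' = y' * y
  rw [h, h']
  have c1 : ∀ g, Commute z g := fun g => (mem_center_iff.1 hz g).symm
  have c2 : ∀ g, Commute w g := fun g => (mem_center_iff.1 hw g).symm
  exact (Commute.mul_left (Commute.mul_right (((Commute.refl a).zpow_left i).zpow_right j)
    (c2 _).symm) (c1 _))

/-- In a central extension of a metacyclic group `⟨u, v⟩` with `⟨u⟩` normal, the commutator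
subgroup is generated by the commutator of lifts. -/
theorem meta_commutator (hτ : IsCentExt τ) (a b : Γ) [(zpowers (τ a)).Normal]
    (hgen : zpowers (τ a) ⊔ zpowers (τ b) = ⊤) : commutator Γ = zpowers ⁅b, a⁆ := by
  let N := (zpowers (τ a)).comap τ
  have hN := comap_zpowers_comm hτ.2 a
  have h1 : N ⊔ zpowers b = ⊤ := by
    rw [eq_top_iff]
    intro g _
    have : τ g ∈ ((zpowers (τ a) ⊔ zpowers (τ b) : Subgroup Q) : Set Q) := hgen ▸ mem_top _
    rw [normal_mul] at this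
    obtain ⟨u, hu, _, ⟨j, rfl⟩, h⟩ := this
    have h2 : g = (g * (b ^ j)⁻¹) * b ^ j := by group
    rw [h2]
    refine mul_mem_sup ?_ ⟨j, rfl⟩
    change τ _ ∈ zpowers (τ a)
    rw [map_mul, map_inv, map_zpow, ← h]; simpa using hu
  rw [commutator_eq_range_commHom N hN b h1]
  have ha : a ∈ N := mem_zpowers _
  apply le_antisymm
  · rintro _ ⟨⟨y, i, hi⟩, rfl⟩
    have h2 : commHom N hN b ⟨y, i, hi⟩ = commHom N hN b (⟨a, ha⟩ ^ i) := by
      apply comm_eq_of_eq hτ.2 rfl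
      simp only [SubgroupClass.coe_zpow, map_zpow]
      exact hi.symm
    rw [h2, map_zpow]
    exact ⟨i, rfl⟩
  · rw [zpowers_le]
    exact ⟨⟨a, ha⟩, rfl⟩

theorem meta_comm_zpow (hτ : τ.ker ≤ center Γ) (a b : Γ) [(zpowers (τ a)).Normal] (i : ℤ) :
    ⁅b, a ^ i⁆ = ⁅b, a⁆ ^ i := by
  have hN := comap_zpowers_comm hτ a
  have ha : a ∈ (zpowers (τ a)).comap τ := mem_zpowers _
  exact map_zpow (commHom _ hN b) ⟨a, ha⟩ i

theorem meta_comm_pow (hτ : τ.ker ≤ center Γ) (a b : Γ) [(zpowers (τ a)).Normal] (i : ℕ) :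
    ⁅b, a ^ i⁆ = ⁅b, a⁆ ^ i := by
  simpa using meta_comm_zpow hτ a b i

/-- If `τ(a)^i` commutes with... precisely: if `τ (a ^ i) = τ (b ^ j)` then `⁅b, a⁆ ^ i = 1`. -/
theorem meta_comm_pow_eq_one (hτ : τ.ker ≤ center Γ) (a b : Γ) [(zpowers (τ a)).Normal]
    (i j : ℕ) (h : τ a ^ i = τ b ^ j) : ⁅b, a⁆ ^ i = 1 := by
  rw [← meta_comm_pow hτ, comm_eq_of_eq hτ (x' := b) (y' := b ^ j) rfl (by simpa using h)]
  exact ((Commute.refl b).pow_right j).commutator_eq

/-- If `v u v⁻¹ = u ^ r` and `v ^ n ∈ ⟨u⟩` then `⁅b, a⁆ ^ (1 + r + ⋯ + r^(n-1)) = 1`. -/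
theorem meta_comm_geom (hτ : τ.ker ≤ center Γ) (a b : Γ) [hn : (zpowers (τ a)).Normal]
    (r : ℕ) (hr : τ b * τ a * (τ b)⁻¹ = τ a ^ r) (n : ℕ) (h : τ b ^ n ∈ zpowers (τ a)) :
    ⁅b, a⁆ ^ (∑ i ∈ Finset.range n, r ^ i) = 1 := by
  have hN := comap_zpowers_comm hτ a
  set N := (zpowers (τ a)).comap τ
  have ha : a ∈ N := mem_zpowers _
  set c := ⁅b, a⁆ with hc
  have hcN : c ∈ N := mul_mem ((inferInstance : N.Normal).conj_mem _ ha b) (inv_mem ha)
  have hca : Commute c a := congrArg Subtype.val (hN.is_comm.comm (⟨c, hcN⟩ : N) ⟨a, ha⟩)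
  have h1 : b * a * b⁻¹ = c * a := by rw [hc, commutatorElement_def]; group
  have h2 : b * c * b⁻¹ = c ^ r := by
    have e1 : ⁅b, c * a⁆ = ⁅b, a ^ r⁆ := by
      apply comm_eq_of_eq hτ rfl
      rw [← h1, map_mul, map_mul, map_inv, hr, map_pow]
    rw [meta_comm_pow hτ, ← hc] at e1
    rw [← e1, commutatorElement_def]
    calc b * c * b⁻¹ = b * c * b⁻¹ * (c * a) * (c * a)⁻¹ := by group
      _ = b * c * b⁻¹ * (b * a * b⁻¹) * (c * a)⁻¹ := by rw [h1]
      _ = _ := by group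
  have h3 : ∀ k : ℕ, b ^ k * a * (b ^ k)⁻¹ = c ^ (∑ i ∈ Finset.range k, r ^ i) * a := by
    intro k
    induction k with
    | zero => simp
    | succ k ih =>
      calc b ^ (k + 1) * a * (b ^ (k + 1))⁻¹ = b * (b ^ k * a * (b ^ k)⁻¹) * b⁻¹ := by group
        _ = (b * c ^ (∑ i ∈ Finset.range k, r ^ i) * b⁻¹) * (b * a * b⁻¹) := by rw [ih]; group
        _ = (c ^ r) ^ (∑ i ∈ Finset.range k, r ^ i) * (c * a) := by
          rw [← conj_pow, h2, h1]
        _ = _ := by
          rw [← pow_mul, ← mul_assoc, ← pow_succ, Finset.sum_range_succ', Finset.mul_sum]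
          simp only [pow_succ', pow_zero]
  have h4 : b ^ n ∈ N := by change τ _ ∈ zpowers (τ a); simpa using h
  have h5 : b ^ n * a = a * b ^ n :=
    congrArg Subtype.val (hN.is_comm.comm (⟨_, h4⟩ : N) ⟨a, ha⟩)
  have h6 := h3 n
  rw [h5] at h6
  simpa using h6.symm

/-- The kernel of a stem extension of a metacyclic group. -/
theorem meta_card_ker [Finite Γ] (hτ : IsStemExtension τ) (a b : Γ) [(zpowers (τ a)).Normal]
    (hgen : zpowers (τ a) ⊔ zpowers (τ b) = ⊤) :
    Nat.card τ.ker * orderOf ⁅τ b, τ a⁆ = orderOf ⁅b, a⁆ := by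
  have h1 := meta_commutator (stem_centExt hτ) a b hgen
  have h2 : τ.ker ≤ zpowers ⁅b, a⁆ := h1 ▸ hτ.2.2
  let f : zpowers ⁅b, a⁆ →* Q := τ.comp (zpowers ⁅b, a⁆).subtype
  have h3 : Nat.card f.ker = Nat.card τ.ker := by
    have : f.ker = τ.ker.subgroupOf (zpowers ⁅b, a⁆) := rfl
    rw [this]
    exact Nat.card_congr (subgroupOfEquivOfLe h2).toEquiv
  have h4 : f.range = zpowers ⁅τ b, τ a⁆ := by
    rw [MonoidHom.range_comp, range_subtype, MonoidHom.map_zpowers, map_commutatorElement]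
  rw [← Nat.card_zpowers, ← Nat.card_zpowers, ← h3, ← h4, ← f.ker.card_mul_index,
    index_ker]

end Meta

end Cfsg.Agent.H27
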