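import Mathlib
import Cfsg.Prelude.Def_TwoFusion

/-! Direct decompositions of Sylow 2-subgroups of alternating groups, I. -/

set_option autoImplicit false
set_option linter.unusedSectionVars false
set_option linter.unusedVariables false

namespace Cfsg.Agent.H27.Dc

open Subgroup Equiv Equiv.Perm

section
variable {G G' : Type*} [Group G] [Group G'] {P S₁ S₂ : Subgroup G}

def Dec (P : Subgroup G) : Prop := ∃ S₁ S₂ : Subgroup G, S₁ ≠ ⊥ ∧ S₂ ≠ ⊥ ∧ IsInternalDirectProduct S₁ S₂ P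

theorem dec_map {f : G →* G'} (hf : Function.Injective f) : Dec (P.map f) ↔ Dec P := by
  constructor
  · rintro ⟨S₁, S₂, h1, h2, h3, h4, h5, h6, h7⟩
    have e1 : (S₁.comap f).map f = S₁ := map_comap_eq_self (h3.trans (map_le_range _ _))
    have e2 : (S₂.comap f).map f = S₂ := map_comap_eq_self (h4.trans (map_le_range _ _))
    have e3 : S₁.comap f ⊔ S₂.comap f = P := map_injective hf (by rw [Subgroup.map_sup, e1, e2, h7])
    refine ⟨S₁.comap f, S₂.comap f, fun e => h1 (by rw [← e1, e, Subgroup.map_bot]), fun e => h2 (by rw [← e2, e, Subgroup.map_bot]),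
      e3 ▸ le_sup_left, e3 ▸ le_sup_right, fun a ha b hb => hf (by simpa using h5 _ ha _ hb), ?_, e3⟩
    rw [← comap_inf, h6, MonoidHom.comap_bot, (MonoidHom.ker_eq_bot_iff f).2 hf]
  · rintro ⟨S₁, S₂, h1, h2, h3, h4, h5, h6, h7⟩
    refine ⟨S₁.map f, S₂.map f, by rwa [Ne, map_eq_bot_iff_of_injective _ hf],
      by rwa [Ne, map_eq_bot_iff_of_injective _ hf], map_mono h3, map_mono h4, ?_, ?_, by rw [← Subgroup.map_sup, h7]⟩
    · rintro _ ⟨a, ha, rfl⟩ _ ⟨b, hb, rfl⟩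
      rw [← map_mul, h5 a ha b hb, map_mul]
    · rw [← map_inf _ _ _ hf, h6, Subgroup.map_bot]

theorem idp_symm (h : IsInternalDirectProduct S₁ S₂ P) : IsInternalDirectProduct S₂ S₁ P :=
  ⟨h.2.1, h.1, fun a ha b hb => (h.2.2.1 b hb a ha).symm, inf_comm S₁ S₂ ▸ h.2.2.2.1, sup_comm S₁ S₂ ▸ h.2.2.2.2⟩

theorem idp_mul (h : IsInternalDirectProduct S₁ S₂ P) {g : G} (hg : g ∈ P) : ∃ a ∈ S₁, ∃ b ∈ S₂, a * b = g := by
  rw [← h.2.2.2.2, ← SetLike.mem_coe, coe_mul_of_left_le_normalizer_right] at hg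
  · exact hg
  intro a ha
  refine mem_normalizer_iff.2 fun b => ⟨fun hb => ?_, fun hb => ?_⟩
  · rwa [h.2.2.1 a ha b hb, mul_inv_cancel_right]
  · have := h.2.2.1 _ (inv_mem ha) _ hb
    rwa [show b = a * b * a⁻¹ by
      calc b = a⁻¹ * (a * b * a⁻¹) * a := by group
        _ = _ := by rw [this]; group]

theorem idp_conj (h : IsInternalDirectProduct S₁ S₂ P) {g s : G} (hg : g ∈ P) (hs : s ∈ S₁) : g * s * g⁻¹ ∈ S₁ := by
  obtain ⟨a, ha, b, hb, rfl⟩ := idp_mul h hg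
  rw [show a * b * s * (a * b)⁻¹ = a * (b * s) * b⁻¹ * a⁻¹ by group, ← h.2.2.1 s hs b hb]
  simpa [mul_assoc] using mul_mem (mul_mem ha hs) (inv_mem ha)

theorem idp_cen [Finite G] (hP : IsPGroup 2 P) (h : IsInternalDirectProduct S₁ S₂ P) (h1 : S₁ ≠ ⊥) :
    ∃ z ∈ S₁, z ≠ 1 ∧ ∀ g ∈ P, g * z = z * g := by
  haveI := (nontrivial_iff_ne_bot _).2 h1
  haveI := (hP.to_le h.1).center_nontrivial
  obtain ⟨⟨⟨z, hz⟩, h2⟩, h3⟩ := exists_ne (1 : center S₁)
  refine ⟨z, hz, fun e => h3 (Subtype.ext (Subtype.ext e)), fun g hg => ?_⟩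
  obtain ⟨a, ha, b, hb, rfl⟩ := idp_mul h hg
  rw [mul_assoc, ← h.2.2.1 z hz b hb, ← mul_assoc, ← mul_assoc]
  exact congrArg (· * b) (congrArg Subtype.val (mem_center_iff.1 h2 ⟨a, ha⟩))

end

variable {Ω : Type*} [Fintype Ω] [DecidableEq Ω] {P S₁ S₂ : Subgroup (Perm Ω)} {ι j g z : Perm Ω} {x y : Ω}

structure Str (P : Subgroup (Perm Ω)) (ι : Perm Ω) : Prop where
  ii : ∀ x, ι (ι x) = x
  fx : ∀ x y, ι x = x → ι y = y → x = y
  ev : P ≤ alternatingGroup Ω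
  cm : ∀ g ∈ P, ∀ x, g (ι x) = ι (g x)
  tt : ∀ x y, ι x ≠ x → ι y ≠ y → swap x (ι x) * swap y (ι y) ∈ P
  three : ∀ x y, ∃ z, ι z ≠ z ∧ z ≠ x ∧ z ≠ ι x ∧ z ≠ y ∧ z ≠ ι y

theorem Str.cen1 (h : Str P ι) (hz : z ∈ P) (hc : ∀ g ∈ P, g * z = z * g) (x : Ω) : z x = x ∨ z x = ι x := by
  have h1 := h.cm z hz x
  by_cases hx : ι x = x
  · exact .inl (h.fx _ _ (by rw [← h1, hx]) hx)
  obtain ⟨y, a1, a2, a3, a4, a5⟩ := h.three x (z x)
  have h2 := congrArg (· x) (hc _ (h.tt x y hx a1))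
  have := h.ii
  have := z.injective.ne hx
  simp only [coe_mul, Function.comp_apply, swap_apply_def] at h2
  grind

theorem Str.cen2 (h : Str P ι) (hz : z ∈ P) (hc : ∀ g ∈ P, g * z = z * g)
    (hx : ∀ y y', ι y ≠ y → ι y' ≠ y' → (∀ g ∈ P, g x ≠ y) → (∀ g ∈ P, g x ≠ y') → y' = y ∨ y' = ι y)
    (h0 : z x = x) : z = 1 := by
  have k : ∀ y, z y ≠ y → z y = ι y ∧ ι y ≠ y ∧ ∀ g ∈ P, g x ≠ y := fun y hy => by
    have := (h.cen1 hz hc y).resolve_left hy
    refine ⟨this, this ▸ hy, ?_⟩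
    rintro g hg rfl
    exact hy ((congrArg (· x) (hc g hg)).symm.trans (congrArg g h0))
  by_contra h1
  obtain ⟨y, hy⟩ : ∃ y, z y ≠ y := not_forall.1 fun h => h1 (Equiv.ext h)
  obtain ⟨a1, a2, a3⟩ := k y hy
  have : z = swap y (ι y) := Equiv.ext fun w => by
    have := h.cm z hz y
    have := h.ii y
    by_cases hw : z w = w
    · rw [swap_apply_def]; grind
    · obtain ⟨b1, b2, b3⟩ := k w hw
      rcases hx y w a2 b2 a3 b3 with rfl | rfl
      · rw [swap_apply_left, a1]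
      · rw [swap_apply_right, b1, this]
  have h2 := h.ev hz
  rw [this, mem_alternatingGroup, sign_swap a2.symm] at h2
  exact absurd h2 (by decide)

theorem Str.not_dec1 (h : Str P ι) (hP : IsPGroup 2 P)
    (hx : ∀ y y', ι y ≠ y → ι y' ≠ y' → (∀ g ∈ P, g x ≠ y) → (∀ g ∈ P, g x ≠ y') → y' = y ∨ y' = ι y) : ¬ Dec P := by
  rintro ⟨S₁, S₂, h1, h2, h3⟩
  obtain ⟨z, a1, a2, a3⟩ := idp_cen hP h3 h1
  obtain ⟨w, b1, b2, b3⟩ := idp_cen hP (idp_symm h3) h2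
  have a4 := (h.cen1 (h3.1 a1) a3 x).resolve_left fun e => a2 (h.cen2 (h3.1 a1) a3 hx e)
  have b4 := (h.cen1 (h3.2.1 b1) b3 x).resolve_left fun e => b2 (h.cen2 (h3.2.1 b1) b3 hx e)
  have := h.cen2 (mul_mem (inv_mem (h3.1 a1)) (h3.2.1 b1)) (fun g hg =>
    (Commute.mul_right (Commute.inv_right (a3 g hg)) (b3 g hg))) hx (by rw [mul_apply, b4, ← a4]; simp)
  rw [inv_mul_eq_one] at this
  exact a2 (mem_bot.1 (h3.2.2.2.1.le ⟨a1, this ▸ b1⟩))

theorem Str.lemA (h : Str P ι) (h3 : IsInternalDirectProduct S₁ S₂ P) {c : Ω} (hx : ι x ≠ x) (hc : ι c ≠ c)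
    (ho : ∀ g ∈ P, g x ≠ c) : (∀ s ∈ S₁, s x = x ∨ s x = ι x) ∨ ∀ s ∈ S₂, s x = x ∨ s x = ι x := by
  by_contra! hh
  obtain ⟨⟨y₁, a1, a2, a3⟩, y₂, b1, b2, b3⟩ := hh
  have hi := h.ii
  have hg := h.tt x c hx hc
  have o2 : ∀ u ∈ P, u x ≠ ι c := fun u hu e => by
    obtain ⟨w, c1, c2, c3, -⟩ := h.three c c
    refine ho _ (mul_mem (h.tt c w hc c1) hu) ?_
    simp only [coe_mul, Function.comp_apply, swap_apply_def, e]; grind
  have c1 : x ≠ c := ho 1 (one_mem _)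
  have c2 : x ≠ ι c := o2 1 (one_mem _)
  set g := swap x (ι x) * swap c (ι c) with hg'
  have gx : g x = ι x := by simp only [hg', coe_mul, Function.comp_apply, swap_apply_def]; grind
  have gy : ∀ u ∈ P, u x ≠ x → u x ≠ ι x → g (u x) = u x := fun u hu h1 h2 => by
    have := ho u hu
    have := o2 u hu
    simp only [hg', coe_mul, Function.comp_apply, swap_apply_def]; grind
  have gz : ∀ u ∈ P, u x ≠ x → u x ≠ ι x → g⁻¹ (u x) = u x := fun u hu h1 h2 =>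
    inv_eq_iff_eq.2 (gy u hu h1 h2).symm
  clear_value g
  have k : ∀ y ∈ S₁, y x ≠ x → y x ≠ ι x → y₂ x = y x ∨ y₂ x = ι (y x) := fun y hy h1 h2 => by
    by_contra! h4
    have hy' := h3.1 hy
    have h5 := congrArg (· x) (h3.2.2.1 _ (mul_mem (idp_conj h3 hg hy) (inv_mem hy)) _ b1)
    have h6 := gz _ (inv_mem hy') (fun e => h1 (inv_eq_iff_eq.1 e).symm) fun e => h2 (by
      rw [inv_eq_iff_eq, h.cm y hy'] at e; rw [← hi (y x), ← e])
    have h7 := gz _ (mul_mem (inv_mem hy') (h3.2.1 b1)) (fun e => h4.1 (inv_eq_iff_eq.1 e)) fun e => h4.2 (by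
      rw [← h.cm y hy']; exact inv_eq_iff_eq.1 e)
    simp only [mul_apply] at h5 h7
    rw [h6, h7] at h5
    simp only [Perm.coe_inv, Equiv.apply_symm_apply] at h5
    rw [gx, gy _ (h3.2.1 b1) b2 b3] at h5
    exact hx (y₂.injective h5).symm
  have k2 : ∀ u ∈ S₁, u x = x ∨ u x = ι x → u (y₁ x) = y₁ (u x) := fun u hu h1 => by
    have h2 : u (y₂ x) = y₂ (u x) := congrArg (· x) (h3.2.2.1 _ hu _ b1)
    have h4 := h.cm u (h3.1 hu)
    have h5 := h.cm y₁ (h3.1 a1) x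
    have h6 := h.cm y₂ (h3.2.1 b1) x
    have h7 := h4 (y₁ x)
    have h8 := hi (u (y₁ x))
    have h9 := hi (y₁ x)
    rcases k y₁ a1 a2 a3 with e | e <;> rcases h1 with e' | e' <;> grind
  obtain ⟨s, hs, t, ht, rfl⟩ := idp_mul h3 hg
  have k3 : s (y₁ x) ≠ y₁ (s x) := fun e => by
    have e1 := gy _ (h3.1 a1) a2 a3
    have c : ∀ a ∈ S₁, ∀ w, a (t w) = t (a w) := fun a ha w => congrArg (· w) (h3.2.2.1 a ha t ht)
    rw [mul_apply, c s hs, e, ← c y₁ a1, ← c s hs, ← mul_apply s t, gx] at e1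
    exact hx (y₁.injective e1)
  by_cases h1 : s x = x ∨ s x = ι x
  · exact k3 (k2 s hs h1)
  push Not at h1
  have h2 := k2 (y₁⁻¹ * s) (mul_mem (inv_mem a1) hs) (by
    have := k s hs h1.1 h1.2
    have := k y₁ a1 a2 a3
    have := hi (s x)
    have := hi (y₁ x)
    rw [mul_apply, inv_eq_iff_eq, inv_eq_iff_eq, h.cm y₁ (h3.1 a1)]
    grind)
  rw [mul_apply, mul_apply, inv_eq_iff_eq] at h2
  exact k3 (by simpa using h2)

theorem lemC (hi : ∀ x, ι (ι x) = x) (jj : ∀ x, j (j x) = x) (ij : ∀ x, ι (j x) = j (ι x))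
    (jn : ∀ x, ι x ≠ x → j x ≠ x ∧ j x ≠ ι x) {H : Subgroup (Perm Ω)}
    (hH : ∀ x, ι x ≠ x → swap x (ι x) * swap (j x) (ι (j x)) ∈ H) (g : Perm Ω)
    (h1 : ∀ x, g x = x ∨ g x = ι x) (h2 : ∀ x, g x = x → g (j x) = j x) : g ∈ H := by
  induction' hn : g.support.card using Nat.strong_induction_on with n ih generalizing g
  by_cases h : g = 1
  · exact h ▸ one_mem _
  obtain ⟨x, hx⟩ : ∃ y, g y ≠ y := not_forall.1 fun h' => h (Equiv.ext h')
  have a1 := (h1 x).resolve_left hx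
  have a2 : ι x ≠ x := a1 ▸ hx
  obtain ⟨a3, a4⟩ := jn x a2
  have a5 : g (j x) = ι (j x) := (h1 _).resolve_left fun e => hx (by simpa [jj] using h2 _ e)
  have a6 : ∀ w, g w = ι w → g (ι w) = w := fun w e => by
    rcases h1 (ι w) with e' | e'
    · exact e'.trans (g.injective (e'.trans e.symm))
    · rw [e', hi]
  have a7 := a6 x a1
  have a8 := a6 _ a5
  have b : ∀ w, (swap x (ι x) * swap (j x) (ι (j x)) * g) w =
      if w = x ∨ w = ι x ∨ w = j x ∨ w = ι (j x) then w else g w := fun w => by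
    have := hi x
    have := hi (j x)
    have := hi w
    have := h1 w
    simp only [coe_mul, Function.comp_apply, swap_apply_def]; grind
  have b1 : (swap x (ι x) * swap (j x) (ι (j x)) * g).support ⊂ g.support := by
    refine ⟨fun w => ?_, fun hs => ?_⟩
    · simp only [mem_support, b]; grind
    · have := mem_support.1 (hs (mem_support.2 hx))
      rw [b] at this; simp at this
  refine (mul_mem_cancel_left (hH x a2)).1 (ih _ (hn ▸ Finset.card_lt_card b1) _ (fun w => ?_) (fun w => ?_) rfl)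
  · have := h1 w
    rw [b]; grind
  · have := h2 w
    have := jj w
    have := jj x
    have := ij x
    have := ij w
    have := ij (j x)
    have := h2 (j x)
    have := hi x
    have := h2 (ι x)
    have := h2 (ι (j x))
    have := jj (ι x)
    rw [b, b]; grind

structure Str2 (P : Subgroup (Perm Ω)) (ι j : Perm Ω) : Prop extends Str P ι where
  jj : ∀ x, j (j x) = x
  ij : ∀ x, ι (j x) = j (ι x)
  jn : ∀ x, ι x ≠ x → j x ≠ x ∧ j x ≠ ι x
  ka : ∀ x, ι x ≠ x → swap x (j x) * swap (ι x) (ι (j x)) ∈ P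

def C (S : Subgroup (Perm Ω)) (ι : Perm Ω) (y : Ω) : Prop := ∀ s ∈ S, s y = y ∨ s y = ι y

theorem Str2.ka' (h : Str2 P ι j) (hx : ι x ≠ x) : (swap x (j x) * swap (ι x) (ι (j x))) x = j x := by
  have := h.jn x hx
  have := h.ii x
  have := h.ii (j x)
  simp only [coe_mul, Function.comp_apply, swap_apply_def]; grind

theorem Str2.lemE (h : Str2 P ι j) (h3 : IsInternalDirectProduct S₁ S₂ P) (hx : C S₂ ι x) :
    C S₂ ι (j x) ∧ ∀ s ∈ S₂, s x = x → s (j x) = j x := by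
  by_cases h1 : ι x = x
  · rw [h.fx (j x) x (by rw [h.ij, h1]) h1]
    exact ⟨hx, fun _ _ => id⟩
  obtain ⟨a, ha, b, hb, e⟩ := idp_mul h3 (h.ka x h1)
  have e1 := h.ka' h1
  rw [← e, mul_apply] at e1
  have k : ∀ s ∈ S₂, s (j x) = a (s (b x)) := fun s hs => e1 ▸ (congrArg (· (b x)) (h3.2.2.1 a ha s hs)).symm
  have := h.cm a (h3.1 ha)
  have := h.ii x
  have := h.ii (a x)
  have := hx b hb
  refine ⟨fun s hs => ?_, fun s hs => ?_⟩ <;>
  · have := h.cm s (h3.2.1 hs) x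
    have := hx s hs
    have := k s hs
    grind

theorem Str2.lemD (h : Str2 P ι j) (h3 : IsInternalDirectProduct S₁ S₂ P) (hx : ∀ x, C S₂ ι x) : S₂ = ⊥ := by
  rw [← h3.2.2.2.1, right_eq_inf]
  refine fun s hs => lemC h.ii h.jj h.ij h.jn (fun x h1 => ?_) s (fun x => hx x s hs) fun x => (h.lemE h3 (hx x)).2 s hs
  obtain ⟨c, c1, c2, c3, c4, c5⟩ := h.three x (j x)
  obtain ⟨a, ha, b, hb, e⟩ := idp_mul h3 (h.tt x c h1 c1)
  have hk := h.ka x h1
  have k1 := h.ka' h1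
  set κ := swap x (j x) * swap (ι x) (ι (j x)) with hκ
  have k2 : κ c = c := by simp only [hκ, coe_mul, Function.comp_apply, swap_apply_def]; grind
  have k3 : b * κ = κ * b := by
    obtain ⟨a', ha', b', hb', e'⟩ := idp_mul h3 hk
    rw [← e']
    refine Commute.mul_right (h3.2.2.1 a' ha' b hb).symm (Equiv.ext fun w => ?_)
    have := hx w b hb
    have := hx w b' hb'
    have := h.cm b (h3.2.1 hb) w
    have := h.cm b' (h3.2.1 hb') w
    simp only [mul_apply]; grind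
  have k4 : κ * (a * b) * κ⁻¹ = swap (j x) (ι (j x)) * swap c (ι c) := by
    rw [e, ← k1, ← h.cm κ hk, swap_apply_apply]
    conv_rhs => rw [← k2, ← h.cm κ hk, swap_apply_apply]
    group
  have k5 : swap x (ι x) * swap (j x) (ι (j x)) = (a * b) * (κ * (a * b) * κ⁻¹)⁻¹ := by
    rw [k4, e, mul_inv_rev, swap_inv, swap_inv, mul_assoc, swap_mul_self_mul]
  rw [k5, show a * b * (κ * (a * b) * κ⁻¹)⁻¹ = a * (b * κ * b⁻¹ * a⁻¹ * κ⁻¹) by group, k3, mul_inv_cancel_right]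
  exact mul_mem ha (idp_conj h3 hk (inv_mem ha))

theorem Str2.lemF (h : Str2 P ι j) (h3 : IsInternalDirectProduct S₁ S₂ P) {c : Ω} {s : Perm Ω} (hs : s ∈ S₂)
    (hc : ¬ C S₂ ι c) (hy : C S₂ ι y) : (swap c (ι c) * s) y = s y := by
  have k : ∀ w, C S₂ ι w → C S₂ ι (ι w) := fun w hw t ht => by
    rw [h.cm t (h3.2.1 ht)]
    exact (hw t ht).imp (congrArg ι) (congrArg ι)
  have h1 : y ≠ c := fun e => hc (e ▸ hy)
  have h2 : ι y ≠ c := fun e => hc (e ▸ k y hy)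
  have := h.ii y
  have := h.ii c
  have := hy s hs
  rw [mul_apply, swap_apply_def]; grind

theorem Str2.not_dec (h : Str2 P ι j) (hP : IsPGroup 2 P) : ¬ Dec P := fun hd => by
  by_cases hx : ∃ x, ι x ≠ x ∧ ∀ c, ι c ≠ c → ∃ g ∈ P, g x = c
  · obtain ⟨x, -, hx⟩ := hx
    refine h.not_dec1 (x := x) hP (fun y y' h1 _ h2 => ?_) hd
    obtain ⟨g, hg, e⟩ := hx y h1
    exact (h2 g hg e).elim
  push Not at hx
  obtain ⟨S₁, S₂, h1, h2, h3⟩ := hd
  have k0 : ∀ S ≤ P, ∀ x, ¬ C S ι x → ι x ≠ x := fun S hS x h4 e =>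
    h4 fun s hs => .inl (h.fx _ _ (by rw [← h.cm s (hS hs), e]) e)
  have k : ∀ x, C S₁ ι x ∨ C S₂ ι x := fun x => or_iff_not_imp_left.2 fun h4 => by
    obtain ⟨c, c1, c2⟩ := hx x (k0 _ h3.1 x h4)
    exact (h.lemA h3 (k0 _ h3.1 x h4) c1 c2).resolve_left h4
  obtain ⟨c, hc⟩ := not_forall.1 fun h' => h2 (h.lemD h3 h')
  obtain ⟨a, ha⟩ := not_forall.1 fun h' => h1 (h.lemD (idp_symm h3) h')
  have a1 := k0 _ h3.1 a ha
  obtain ⟨s, hs, t, ht, e⟩ := idp_mul h3 (h.tt a c a1 (k0 _ h3.2.1 c hc))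
  have e1 : swap a (ι a) * s = swap c (ι c) * t⁻¹ := by
    rw [← swap_mul_self_mul a (ι a) (swap c (ι c)), ← e]; group
  have k1 : ∀ y, ((swap a (ι a) * s) y = y ∨ (swap a (ι a) * s) y = ι y) ∧
      ((swap a (ι a) * s) y = y → (swap a (ι a) * s) (j y) = j y) := fun y => by
    rcases k y with hy | hy
    · have := h.lemE (idp_symm h3) hy
      rw [h.lemF (idp_symm h3) hs ha hy, h.lemF (idp_symm h3) hs ha this.1]
      exact ⟨hy s hs, this.2 s hs⟩
    · have := h.lemE h3 hy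
      rw [e1, h.lemF h3 (inv_mem ht) hc hy, h.lemF h3 (inv_mem ht) hc this.1]
      exact ⟨hy _ (inv_mem ht), this.2 _ (inv_mem ht)⟩
  have h4 := lemC h.ii h.jj h.ij h.jn (H := alternatingGroup Ω) (fun x hx => h.ev (h.tt x _ hx fun e =>
    hx (j.injective ((h.ij x).symm.trans e)))) _ (fun y => (k1 y).1) fun y => (k1 y).2
  rw [mul_mem_cancel_right (h.ev (h3.1 hs)), mem_alternatingGroup, sign_swap a1.symm] at h4
  exact absurd h4 (by decide)

end Cfsg.Agent.H27.Dc
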