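import Mathlib
import Cfsg.Agent.H27.Dec1

/-! Direct decompositions of Sylow 2-subgroups of alternating groups, II. -/

set_option autoImplicit false
set_option linter.unusedSectionVars false
set_option linter.unusedVariables false

namespace Cfsg.Agent.H27.Dc

open Subgroup Equiv Equiv.Perm MulAction

variable {Ω : Type*} [Fintype Ω] [DecidableEq Ω] {Q : Subgroup (Perm Ω)} {ι j g z : Perm Ω} {x y : Ω}

structure St0 (Q : Subgroup (Perm Ω)) (ι : Perm Ω) : Prop where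
  pg : IsPGroup 2 Q
  ii : ∀ x, ι (ι x) = x
  fx : ∀ x y, ι x = x → ι y = y → x = y
  sw : ∀ x, swap x (ι x) ∈ Q

theorem St0.of_swap (h : St0 Q ι) (h1 : swap x y ∈ Q) (h2 : x ≠ y) : ι x = y := by
  have k : ∀ x y, swap x y ∈ Q → x ≠ y → ι x = y ∨ ι x = x := fun x y h1 h2 => by
    by_contra! h3
    obtain ⟨k, hk⟩ := IsPGroup.iff_orderOf.1 h.pg ⟨_, mul_mem h1 (h.sw x)⟩
    rw [orderOf_mk, (isThreeCycle_swap_mul_swap_same h2 h3.2.symm h3.1.symm).orderOf] at hk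
    have := (Nat.prime_three.dvd_of_dvd_pow hk.dvd)
    omega
  have := k x y h1 h2
  have := k y x (swap_comm x y ▸ h1) h2.symm
  have := h.fx x y
  have := h.ii y
  grind

theorem St0.cm (h : St0 Q ι) (hg : g ∈ Q) (x : Ω) : g (ι x) = ι (g x) := by
  have k : ∀ g ∈ Q, ∀ x, ι x ≠ x → ι (g x) = g (ι x) := fun g hg x hx =>
    h.of_swap (swap_apply_apply g _ _ ▸ mul_mem (mul_mem hg (h.sw x)) (inv_mem hg)) (g.injective.ne hx.symm)
  by_cases hx : ι x = x
  · by_contra h1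
    rw [hx] at h1
    have := k _ (inv_mem hg) (g x) (Ne.symm h1)
    rw [eq_inv_iff_eq] at this
    exact h1 (by simpa [hx] using this)
  · exact (k g hg x hx).symm

theorem St0.str (h : St0 Q ι) (hn : 6 ≤ Fintype.card Ω) : Str (Q ⊓ alternatingGroup Ω) ι where
  ii := h.ii
  fx := h.fx
  ev := inf_le_right
  cm := fun g hg => h.cm hg.1
  tt := fun x y hx hy => ⟨mul_mem (h.sw x) (h.sw y), by simp [mem_alternatingGroup, hx.symm, hy.symm]⟩
  three := fun x y => by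
    by_contra! h1
    have h2 : (Finset.univ.filter fun w => ι w = w).card ≤ 1 :=
      Finset.card_le_one.2 fun a ha b hb => h.fx a b (by simpa using ha) (by simpa using hb)
    have h3 : (Finset.univ : Finset Ω) ⊆ (Finset.univ.filter fun w => ι w = w) ∪ {x, ι x, y, ι y} := fun w _ => by
      have := h1 w
      simp only [Finset.mem_union, Finset.mem_filter, Finset.mem_univ, Finset.mem_insert, Finset.mem_singleton]
      grind
    have := (Finset.card_le_card h3).trans (Finset.card_union_le _ _)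
    have : ({x, ι x, y, ι y} : Finset Ω).card ≤ 4 := Finset.card_le_four
    simp only [Finset.card_univ] at *
    omega

theorem restr (Q : Sylow 2 (Perm Ω)) (U : Set Ω) (hU : ∀ q ∈ Q, ∀ x, q x ∈ U ↔ x ∈ U) (hg : g ∈ Q) :
    ∃ r ∈ Q, (∀ x ∈ U, r x = g x) ∧ ∀ x ∉ U, r x = x := by
  classical
  let R : Subgroup (Perm Ω) :=
    { carrier := {g | ∃ a ∈ Q, ∃ b ∈ Q, (∀ x ∈ U, g x = a x) ∧ ∀ x ∉ U, g x = b x}
      one_mem' := ⟨1, one_mem _, 1, one_mem _, fun _ _ => rfl, fun _ _ => rfl⟩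
      mul_mem' := by
        rintro g g' ⟨a, ha, b, hb, h1, h2⟩ ⟨a', ha', b', hb', h3, h4⟩
        refine ⟨a * a', mul_mem ha ha', b * b', mul_mem hb hb', fun x hx => ?_, fun x hx => ?_⟩
        · rw [mul_apply, h3 x hx, h1 _ ((hU _ ha' x).2 hx), mul_apply]
        · rw [mul_apply, h4 x hx, h2 _ (mt (hU _ hb' x).1 hx), mul_apply]
      inv_mem' := by
        rintro g ⟨a, ha, b, hb, h1, h2⟩
        refine ⟨a⁻¹, inv_mem ha, b⁻¹, inv_mem hb, fun x hx => ?_, fun x hx => ?_⟩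
        · rw [inv_eq_iff_eq, h1 _ ((hU _ (inv_mem ha) x).2 hx)]; simp
        · rw [inv_eq_iff_eq, h2 _ (mt (hU _ (inv_mem hb) x).1 hx)]; simp }
  have hR : IsPGroup 2 R := by
    rintro ⟨g, a, ha, b, hb, h1, h2⟩
    obtain ⟨N, hN⟩ := IsPGroup.iff_card.1 Q.isPGroup'
    have k : ∀ m : ℕ, (∀ x ∈ U, (g ^ m) x = (a ^ m) x) ∧ ∀ x ∉ U, (g ^ m) x = (b ^ m) x := fun m => by
      induction m with
      | zero => exact ⟨fun _ _ => rfl, fun _ _ => rfl⟩
      | succ m ih =>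
        refine ⟨fun x hx => ?_, fun x hx => ?_⟩
        · rw [pow_succ, pow_succ, mul_apply, mul_apply, h1 x hx, ih.1 _ ((hU _ ha x).2 hx)]
        · rw [pow_succ, pow_succ, mul_apply, mul_apply, h2 x hx, ih.2 _ (mt (hU _ hb x).1 hx)]
    have e : ∀ a ∈ Q, a ^ 2 ^ N = 1 := fun a ha =>
      congrArg Subtype.val (hN ▸ pow_card_eq_one' (x := (⟨a, ha⟩ : Q)))
    refine ⟨N, Subtype.ext (Equiv.ext fun x => ?_)⟩
    by_cases hx : x ∈ U
    · exact ((k _).1 x hx).trans (by rw [e a ha]; rfl)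
    · exact ((k _).2 x hx).trans (by rw [e b hb]; rfl)
  have h1 : ∀ x ∈ U, ofSubtype (g.subtypePerm (hU g hg)) x = g x := fun x hx => ofSubtype_subtypePerm_of_mem _ hx
  have h2 : ∀ x ∉ U, ofSubtype (g.subtypePerm (hU g hg)) x = x := fun x hx => ofSubtype_subtypePerm_of_not_mem _ hx
  exact ⟨_, (Q.is_maximal' hR fun q hq => ⟨q, hq, q, hq, fun _ _ => rfl, fun _ _ => rfl⟩).le
    ⟨g, hg, 1, one_mem _, h1, h2⟩, h1, h2⟩

theorem dec_of (Q : Sylow 2 (Perm Ω)) (h : St0 Q ι) {a u v : Ω} (ha : ι a ≠ a) (h0 : ∀ q ∈ Q, q a = a ∨ q a = ι a)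
    (U : Set Ω) (hU : ∀ q ∈ Q, ∀ x, q x ∈ U ↔ x ∈ U) (hu : ι u ≠ u) (h1 : u ∈ U) (h2 : a ∉ U) (hv : ι v ≠ v)
    (h3 : v ∉ U) (h4 : v ≠ a) (h5 : v ≠ ι a) : Dec (Q ⊓ alternatingGroup Ω) := by
  have hi := h.ii
  have c : ∀ x, ι x ∈ U ↔ x ∈ U := fun x => by simpa using hU _ (h.sw x) x
  have ev : ∀ x y, ι x ≠ x → ι y ≠ y → swap x (ι x) * swap y (ι y) ∈ (Q ⊓ alternatingGroup Ω : Subgroup _) :=
    fun x y hx hy => ⟨mul_mem (h.sw x) (h.sw y), by simp [mem_alternatingGroup, hx.symm, hy.symm]⟩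
  have c1 := c u
  have c2 := c a
  have c3 := c v
  refine ⟨Q ⊓ alternatingGroup Ω ⊓ fixingSubgroup _ {x | x ∉ U ∧ x ≠ a ∧ x ≠ ι a},
    Q ⊓ alternatingGroup Ω ⊓ fixingSubgroup _ U, fun e => ?_, fun e => ?_, inf_le_left, inf_le_left, ?_, ?_,
    le_antisymm (sup_le inf_le_left inf_le_left) fun g hg => ?_⟩
  · have := congrArg (· u) (mem_bot.1 (e.le ⟨ev u a hu ha, (mem_fixingSubgroup_iff _).2 fun x hx => ?_⟩))
    · simp only [coe_mul, Function.comp_apply, swap_apply_def, coe_one, id] at this; grind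
    · simp only [Perm.smul_def, coe_mul, Function.comp_apply, swap_apply_def]; grind
  · have := congrArg (· v) (mem_bot.1 (e.le ⟨ev v a hv ha, (mem_fixingSubgroup_iff _).2 fun x hx => ?_⟩))
    · simp only [coe_mul, Function.comp_apply, swap_apply_def, coe_one, id] at this; grind
    · simp only [Perm.smul_def, coe_mul, Function.comp_apply, swap_apply_def]; grind
  · rintro g ⟨⟨g1, -⟩, g2⟩ k ⟨⟨k1, -⟩, k2⟩
    replace g2 : ∀ x, x ∉ U ∧ x ≠ a ∧ x ≠ ι a → g x = x := (mem_fixingSubgroup_iff _).1 g2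
    replace k2 : ∀ x ∈ U, k x = x := (mem_fixingSubgroup_iff _).1 k2
    refine Equiv.ext fun x => ?_
    have := hU g g1 x
    have := hU k k1 x
    have := h0 g g1
    have := h0 k k1
    have := h.cm g1 a
    have := h.cm k1 a
    have := g2 x
    have := g2 (k x)
    have := k2 x
    have := k2 (g x)
    have := k.injective.eq_iff (a := x) (b := a)
    have := k.injective.eq_iff (a := x) (b := ι a)
    simp only [mul_apply]; grind
  · rw [eq_bot_iff]
    rintro g ⟨⟨⟨g1, g3⟩, g2⟩, -, k2⟩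
    replace g2 : ∀ x, x ∉ U ∧ x ≠ a ∧ x ≠ ι a → g x = x := (mem_fixingSubgroup_iff _).1 g2
    replace k2 : ∀ x ∈ U, g x = x := (mem_fixingSubgroup_iff _).1 k2
    have := h.cm g1 a
    rcases h0 g g1 with e | e
    · exact Equiv.ext fun x => by rw [one_apply]; grind
    · replace g3 : sign g = 1 := g3
      rw [show g = swap a (ι a) from Equiv.ext fun x => by rw [swap_apply_def]; grind, sign_swap ha.symm] at g3
      exact absurd g3 (by decide)
  obtain ⟨r, r1, r2, r3⟩ := restr Q U hU hg.1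
  obtain ⟨s, s1, s2, s3⟩ : ∃ s ∈ (Q ⊓ alternatingGroup Ω : Subgroup _), (∀ x ∈ U, s x = g x) ∧
      ∀ x, x ∉ U ∧ x ≠ a ∧ x ≠ ι a → s x = x := by
    rcases Int.units_eq_one_or (sign r) with e | e
    · exact ⟨r, ⟨r1, e⟩, r2, fun x hx => r3 x hx.1⟩
    · refine ⟨r * swap a (ι a), ⟨mul_mem r1 (h.sw a), by simp [mem_alternatingGroup, e, ha.symm]⟩,
        fun x hx => ?_, fun x hx => ?_⟩ <;> rw [mul_apply, swap_apply_def] <;> grind
  rw [← mul_inv_cancel_left s g]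
  exact mul_mem_sup ⟨s1, (mem_fixingSubgroup_iff _).2 s3⟩
    ⟨Subgroup.mul_mem _ (Subgroup.inv_mem _ s1) hg, (mem_fixingSubgroup_iff _).2 fun x hx => inv_eq_iff_eq.2 (s2 x hx).symm⟩

theorem dec_main (Q : Sylow 2 (Perm Ω)) (h : St0 Q ι) (hn : 6 ≤ Fintype.card Ω)
    (h4 : Fintype.card Ω % 4 = 2 ∨ Fintype.card Ω % 4 = 3) (hr : ∀ r, 4 * (Fintype.card Ω / 4) ≠ 2 ^ r) :
    Dec (Q ⊓ alternatingGroup Ω) := by
  have hi := h.ii
  obtain ⟨⟨s, hs⟩, h1⟩ := h.pg.nonempty_fixed_point_of_prime_not_dvd_card (Set.powersetCard Ω 2) (by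
    rw [Set.powersetCard.card, Nat.card_eq_fintype_card, Nat.choose_two_right]
    generalize Fintype.card Ω = n at h4 hn
    obtain ⟨m, rfl | rfl⟩ : ∃ m, n = 4 * m + 2 ∨ n = 4 * m + 3 := ⟨n / 4, by omega⟩
    · rw [show (4 * m + 2) * (4 * m + 2 - 1) = 2 * (2 * (4 * m * m + 3 * m) + 1) by rw [Nat.add_sub_assoc (by omega)]; ring]
      omega
    · rw [show (4 * m + 3) * (4 * m + 3 - 1) = 2 * (2 * (4 * m * m + 5 * m + 1) + 1) by
        rw [Nat.add_sub_assoc (by omega)]; ring]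
      omega)
  obtain ⟨a, b, hab, rfl⟩ := Finset.card_eq_two.1 hs
  have h2 : ∀ q ∈ Q, (q a = a ∨ q a = b) ∧ (q b = a ∨ q b = b) := fun q hq => by
    have : ({q a, q b} : Finset Ω) = {a, b} := by
      have := congrArg Subtype.val (h1 ⟨q, hq⟩)
      erw [Set.powersetCard.coe_smul] at this
      simpa [Finset.smul_finset_insert, Subgroup.smul_def] using this
    exact ⟨by simpa using this.le (Finset.mem_insert_self _ _), by simpa using this.le (show q b ∈ _ by simp)⟩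
  obtain rfl : b = ι a := by
    have := (h2 _ (h.sw a)).1
    have := (h2 _ (h.sw b)).2
    have := h.fx a b
    simp only [swap_apply_left] at *
    grind
  obtain ⟨u, u1, u2, u3, -⟩ := (h.str hn).three a a
  have hU : ∀ q ∈ Q, ∀ x, q x ∈ orbit Q u ↔ x ∈ orbit Q u := fun q hq x => by
    conv_lhs => rw [← smul_orbit (⟨q, hq⟩ : (Q : Subgroup (Perm Ω))) u]
    exact Set.smul_mem_smul_set_iff
  have a1 : a ∉ orbit Q u := by
    rintro ⟨q, hq⟩
    have := (h2 _ (inv_mem q.2)).1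
    rw [inv_eq_iff_eq.2 (show a = q.1 u from hq.symm)] at this
    grind
  by_contra hd
  have a2 : ι a ∉ orbit Q u := by simpa using mt (hU _ (h.sw a) a).1 a1
  have a3 : (orbit Q u)ᶜ ⊆ insert a (insert (ι a) {x | ι x = x}) := fun v hv => by
    by_contra h5
    simp only [Set.mem_insert_iff, Set.mem_ofPred_eq, not_or] at h5
    exact hd (dec_of Q h hab.symm (fun q hq => (h2 q hq).1) _ hU u1 (mem_orbit_self u) a1 h5.2.2 hv h5.1 h5.2.1)
  have a4 : {x | ι x = x}.ncard ≤ 1 := (Set.ncard_le_one).2 fun a ha b hb => h.fx a b ha hb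
  have a5 := (Set.ncard_le_ncard a3).trans ((Set.ncard_insert_le _ _).trans
    (Nat.succ_le_succ (Set.ncard_insert_le _ _)))
  have a6 := Set.ncard_add_ncard_compl (orbit Q u)
  obtain ⟨e, he⟩ := h.pg.card_orbit u
  rw [Nat.card_coe_set_eq] at he
  rw [he, Nat.card_eq_fintype_card] at a6
  obtain _ | _ | e := e
  · omega
  · omega
  refine hr (e + 2) ?_
  rw [pow_add] at a6 ⊢
  omega

theorem not_dec_pow (Q : Sylow 2 (Perm Ω)) (h : St0 Q ι) (hn : 6 ≤ Fintype.card Ω)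
    (h4 : Fintype.card Ω % 4 = 2 ∨ Fintype.card Ω % 4 = 3) {r : ℕ} (hr : 4 * (Fintype.card Ω / 4) = 2 ^ r) :
    ¬ Dec (Q ⊓ alternatingGroup Ω) := by
  classical
  obtain ⟨c₀, c1⟩ := (exists_with_cycleType_iff Ω (m := {2 ^ r})).2 ⟨by simp; omega, by simp; omega⟩
  haveI := Fintype.ofFinite (Perm Ω ⧸ (Q : Subgroup (Perm Ω)))
  obtain ⟨x, hx⟩ := exists_fixed_point_of_prime (p := 2) (n := r) (α := Perm Ω ⧸ (Q : Subgroup (Perm Ω)))
    (by rw [← Nat.card_eq_fintype_card]; exact Q.not_dvd_index) (σ := toPermHom (Perm Ω) _ c₀)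
    (by rw [← map_pow, show 2 ^ r = orderOf c₀ by simp [← lcm_cycleType, c1], pow_orderOf_eq_one, map_one])
  obtain ⟨t, rfl⟩ := QuotientGroup.mk_surjective x
  have c2 : t⁻¹ * c₀ * t⁻¹⁻¹ ∈ (Q : Subgroup (Perm Ω)) := by
    simpa [mul_assoc] using QuotientGroup.eq.1 (hx.symm : (t : Perm Ω ⧸ (Q : Subgroup (Perm Ω))) = (c₀ * t : Perm Ω))
  rw [← cycleType_conj (τ := t⁻¹)] at c1
  generalize t⁻¹ * c₀ * t⁻¹⁻¹ = c at c1 c2
  have c3 : c.IsCycle := card_cycleType_eq_one.1 (by simp [c1])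
  have c4 : c.supportᶜ.card = Fintype.card Ω - 2 ^ r := by rw [Finset.card_compl, ← sum_cycleType, c1]; simp
  have c5 : ∀ y, c y = y → c (ι y) = ι y := fun y hy => by rw [h.cm c2, hy]
  obtain ⟨a, a1, a2⟩ : ∃ a, c a = a ∧ ι a ≠ a := by
    obtain ⟨a, ha, b, hb, hab⟩ := Finset.one_lt_card.1 (show 1 < c.supportᶜ.card by omega)
    by_contra! h5
    exact hab (h.fx a b (h5 a (by simpa using ha)) (h5 b (by simpa using hb)))
  obtain ⟨x, x1, x2⟩ := c3
  have k : ∀ y, (∀ g ∈ (Q ⊓ alternatingGroup Ω : Subgroup _), g x ≠ y) → c y = y := fun y hy => by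
    by_contra h5
    obtain ⟨i, hi⟩ := x2 h5
    rcases Int.units_eq_one_or (sign (c ^ i)) with e | e
    · exact hy _ ⟨zpow_mem c2 i, e⟩ hi
    · refine hy (swap a (ι a) * c ^ i) ⟨mul_mem (h.sw a) (zpow_mem c2 i), ?_⟩ ?_
      · show sign _ = 1
        rw [Perm.sign_mul, e, sign_swap a2.symm]; rfl
      · have := c5 a a1
        rw [mul_apply, hi, swap_apply_def]; grind
  refine (h.str hn).not_dec1 (x := x) (h.pg.to_le inf_le_left) fun y y' b1 b2 b3 b4 => ?_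
  by_contra! h5
  have h6 : ({y, ι y, y', ι y'} : Finset Ω) ⊆ c.supportᶜ := fun w hw => by
    have := k y b3
    have := k y' b4
    simp only [Finset.mem_insert, Finset.mem_singleton, Finset.mem_compl, notMem_support] at hw ⊢
    grind
  have := Finset.card_le_card h6
  have := h.ii y
  have := h.ii y'
  rw [Finset.card_eq_four.2 ⟨_, _, _, _, by grind, by grind, by grind, by grind, by grind, by grind, rfl⟩] at *
  omega

end Cfsg.Agent.H27.Dc
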