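import Mathlib
import Cfsg.Agent.H27.Dec2

/-! Direct decompositions of Sylow 2-subgroups of alternating groups, III. -/

set_option autoImplicit false
set_option linter.unusedSectionVars false
set_option linter.unusedVariables false

namespace Cfsg.Agent.H27.Dc

open Subgroup Equiv Equiv.Perm MulAction

variable {n : ℕ}

def mkp (f : ℕ → ℕ) (h1 : ∀ x < n, f x < n) (h2 : ∀ x < n, f (f x) = x) : Perm (Fin n) :=
  ⟨fun x => ⟨f x, h1 _ x.2⟩, fun x => ⟨f x, h1 _ x.2⟩, fun x => Fin.ext (h2 _ x.2), fun x => Fin.ext (h2 _ x.2)⟩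

def io (n : ℕ) : Perm (Fin n) := mkp (fun x => if x % 2 = 0 then (if x + 1 < n then x + 1 else x) else x - 1)
  (fun x _ => by split_ifs <;> omega) fun x _ => by split_ifs <;> omega

def jo (n : ℕ) : Perm (Fin n) := mkp (fun x => if x < 4 * (n / 4) then (if x % 4 < 2 then x + 2 else x - 2) else x)
  (fun x _ => by split_ifs <;> omega) fun x _ => by split_ifs <;> omega

theorem io_val (x : Fin n) : (io n x).1 = if x.1 % 2 = 0 then (if x.1 + 1 < n then x.1 + 1 else x.1) else x.1 - 1 := rfl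

theorem jo_val (x : Fin n) :
    (jo n x).1 = if x.1 < 4 * (n / 4) then (if x.1 % 4 < 2 then x.1 + 2 else x.1 - 2) else x.1 := rfl

def D (n : ℕ) : Subgroup (Perm (Fin n)) where
  carrier := {g | (∀ x, (g x).1 / 4 = x.1 / 4) ∧ ∀ x y, (g x).1 / 2 = (g y).1 / 2 ↔ x.1 / 2 = y.1 / 2}
  one_mem' := ⟨fun _ => rfl, fun _ _ => Iff.rfl⟩
  mul_mem' := fun {g h} hg hh => ⟨fun x => (hg.1 _).trans (hh.1 x), fun x y => (hg.2 _ _).trans (hh.2 x y)⟩
  inv_mem' := fun {g} hg => ⟨fun x => by simpa using (hg.1 (g⁻¹ x)).symm,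
    fun x y => by simpa using (hg.2 (g⁻¹ x) (g⁻¹ y)).symm⟩

theorem D_pg : IsPGroup 2 (D n) := by
  rintro ⟨g, h1, h2⟩
  have k : ∀ x, (g (g x)).1 / 2 = x.1 / 2 := fun x => by
    have := h1 x
    have := h1 (g x)
    have := h2 x (g x)
    omega
  refine ⟨2, Subtype.ext (Equiv.ext fun x => ?_)⟩
  show g (g (g (g x))) = x
  by_cases h : g (g x) = x
  · rw [h, h]
  have := Fin.val_ne_of_ne h
  have := Fin.val_ne_of_ne (g.injective.ne (g.injective.ne h))
  have := k x
  have := k (g (g x))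
  exact Fin.ext (by omega)

theorem model (n : ℕ) : ∃ Q : Sylow 2 (Perm (Fin n)), St0 Q (io n) ∧
    (6 ≤ n → n % 4 ≤ 1 → Str2 (Q ⊓ alternatingGroup (Fin n)) (io n) (jo n)) := by
  obtain ⟨Q, hQ⟩ := (D_pg (n := n)).exists_le_sylow
  have h : St0 Q (io n) := by
    refine ⟨Q.isPGroup', (io n).left_inv, fun x y => ?_, fun x => hQ ?_⟩
    · have := x.2
      have := y.2
      simp only [Fin.ext_iff, io_val]; split_ifs <;> omega
    have k : ∀ y, (swap x (io n x) y).1 / 2 = y.1 / 2 := fun y => by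
      have := io_val x
      rw [swap_apply_def]; split_ifs at * <;> simp only [Fin.ext_iff] at * <;> omega
    exact ⟨fun y => by have := k y; omega, fun y z => by rw [k, k]⟩
  refine ⟨Q, h, fun h6 h4 => ?_⟩
  have jn : ∀ x, io n x ≠ x → jo n x ≠ x ∧ jo n x ≠ io n x := fun x => by
    have := x.2
    simp only [Ne, Fin.ext_iff, io_val, jo_val]; split_ifs <;> omega
  have ij : ∀ x, io n (jo n x) = jo n (io n x) := fun x => by
    have := x.2
    simp only [Fin.ext_iff, io_val, jo_val]; split_ifs <;> omega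
  have jj : ∀ x, jo n (jo n x) = x := (jo n).left_inv
  refine ⟨h.str (by simpa using h6), jj, ij, jn, fun x hx => ⟨hQ ?_, ?_⟩⟩
  · have k : ∀ y, ((swap x (jo n x) * swap (io n x) (io n (jo n x))) y).1 =
        if y.1 / 4 = x.1 / 4 then (jo n y).1 else y.1 := fun y => by
      have b1 : ∀ y, (io n y).1 / 4 = y.1 / 4 := fun y => by rw [io_val]; split_ifs <;> omega
      have b2 : ∀ y, (jo n y).1 / 4 = y.1 / 4 := fun y => by rw [jo_val]; split_ifs <;> omega
      have := h.ii x
      have := h.ii (jo n x)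
      have := jn x hx
      split_ifs with h1
      · have : y = x ∨ y = io n x ∨ y = jo n x ∨ y = io n (jo n x) := by
          have := x.2
          have := y.2
          have := Fin.val_ne_of_ne hx
          simp only [Fin.ext_iff, io_val, jo_val] at *
          split_ifs at * <;> omega
        congr 1
        simp only [mul_apply, swap_apply_def]; grind
      · congr 1
        simp only [mul_apply, swap_apply_def]; grind
    refine ⟨fun y => ?_, fun y z => ?_⟩
    · rw [k, jo_val]; split_ifs <;> omega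
    · rw [k, k, jo_val, jo_val]; split_ifs <;> omega
  · simp [mem_alternatingGroup, (jn x hx).1.symm]

theorem dec_iff (P : Sylow 2 (alternatingGroup (Fin n))) (Q : Sylow 2 (Perm (Fin n))) :
    Dec (P : Subgroup (alternatingGroup (Fin n))) ↔ Dec (Q ⊓ alternatingGroup (Fin n) : Subgroup _) := by
  let A := alternatingGroup (Fin n)
  obtain ⟨Q', h1⟩ := (P.isPGroup'.map A.subtype).exists_le_sylow
  obtain ⟨g, rfl⟩ := exists_smul_eq (Perm (Fin n)) Q Q'
  have h2 := P.is_maximal' ((g • Q).isPGroup'.comap_of_injective A.subtype A.subtype_injective)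
    (map_le_iff_le_comap.1 h1)
  rw [← dec_map A.subtype_injective, ← dec_map (f := (MulAut.conj g).toMonoidHom) (MulAut.conj g).injective (P := _ ⊓ A),
    ← h2, map_comap_eq, range_subtype, map_inf _ _ _ (MulAut.conj g).injective, inf_comm]
  congr! 2
  exact (Subgroup.Normal.conj_smul_eq_self g A).symm

theorem dec_four {G : Type*} [Group G] {P : Subgroup G} (h : Nat.card P = 4) (h2 : ∀ x ∈ P, x * x = 1) : Dec P := by
  haveI : Finite P := Nat.finite_of_card_ne_zero (by omega)
  have k : ∀ x ∈ P, x ≠ 1 → Nat.card (zpowers x) = 2 := fun x hx h1 => by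
    rw [Nat.card_zpowers]; exact orderOf_eq_prime (by rw [sq, h2 x hx]) h1
  obtain ⟨⟨x, hx⟩, h1⟩ := (ne_bot_iff_exists_ne_one (H := P)).1 (by rintro rfl; simp at h)
  replace h1 : x ≠ 1 := fun e => h1 (Subtype.ext e)
  obtain ⟨y, hy, h3⟩ := SetLike.not_le_iff_exists.1 fun h' : P ≤ zpowers x => by
    haveI : Finite (zpowers x) := Nat.finite_of_card_ne_zero (by rw [k x hx h1]; omega)
    have := card_le_of_le h'
    rw [k x hx h1] at this; omega
  have h4 : y ≠ 1 := fun e => h3 (e ▸ one_mem _)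
  have h5 := zpowers_le.2 hx
  have h6 := zpowers_le.2 hy
  refine ⟨zpowers x, zpowers y, zpowers_ne_bot.2 h1, zpowers_ne_bot.2 h4, h5, h6, fun a ha b hb => ?_, ?_, ?_⟩
  · have := h2 _ (mul_mem (h5 ha) (h6 hb))
    rw [← mul_eq_one_iff_inv_eq.1 this, mul_inv_rev, mul_eq_one_iff_inv_eq.1 (h2 a (h5 ha)),
      mul_eq_one_iff_inv_eq.1 (h2 b (h6 hb))]
  · haveI : Finite (zpowers y) := Nat.finite_of_card_ne_zero (by rw [k y hy h4]; omega)
    have h7 := card_dvd_of_le (inf_le_right : zpowers x ⊓ zpowers y ≤ _)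
    rw [k y hy h4, Nat.dvd_prime Nat.prime_two] at h7
    refine card_eq_one.1 (h7.resolve_right fun e => h3 ?_)
    exact (eq_of_le_of_card_ge inf_le_right (by rw [e, k y hy h4])).ge (mem_zpowers y) |>.1
  · have h7 := sup_le h5 h6
    haveI : Finite (zpowers x ⊔ zpowers y : Subgroup G) := Finite.of_injective _ (inclusion_injective h7)
    refine eq_of_le_of_card_ge h7 ?_
    have h8 := card_dvd_of_le h7
    have h9 := card_dvd_of_le (le_sup_left : zpowers x ≤ zpowers x ⊔ zpowers y)
    have h10 : Nat.card (zpowers x ⊔ zpowers y : Subgroup G) ≠ 2 := fun e =>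
      h3 ((eq_of_le_of_card_ge (le_sup_left : zpowers x ≤ _) (by rw [e, k x hx h1])).ge (mem_sup_right (mem_zpowers y)))
    rw [h, k x hx h1] at *
    have := Nat.le_of_dvd (by norm_num) h8
    generalize Nat.card (zpowers x ⊔ zpowers y : Subgroup G) = m at *
    interval_cases m <;> omega

end Cfsg.Agent.H27.Dc
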