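import Mathlib

/-! Binomial coefficients with small prime factors. -/

set_option autoImplicit false
set_option linter.unusedSectionVars false
set_option linter.unusedVariables false

namespace Cfsg.Agent.H27.Der

open Nat

theorem le_of_dvd_choose {r a b : ℕ} (hr : r.Prime) (h : b ≤ a) (hd : r ∣ a.choose b) : r ≤ a := by
  refine hr.dvd_factorial.1 (hd.trans ?_)
  rw [← choose_mul_factorial_mul_factorial h, mul_assoc]
  exact dvd_mul_right _ _

theorem choose_mono {n r k : ℕ} (h : r ≤ k) (h2 : 2 * k ≤ n) : n.choose r ≤ n.choose k := by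
  induction k, h using Nat.le_induction with
  | base => rfl
  | succ k hk ih => exact (ih (by omega)).trans (choose_le_succ_of_lt_half_left (by omega))

theorem pow_desc {n r : ℕ} (h : r ≤ n) (j : ℕ) : n ^ j * r.descFactorial j ≤ r ^ j * n.descFactorial j := by
  induction j with
  | zero => simp
  | succ j ih =>
    have h1 : n * (r - j) ≤ r * (n - j) := by
      rw [Nat.mul_sub, Nat.mul_sub, mul_comm n r]
      exact Nat.sub_le_sub_left (Nat.mul_le_mul_right _ h) _
    calc _ = (n * (r - j)) * (n ^ j * r.descFactorial j) := by rw [descFactorial_succ]; ring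
      _ ≤ (r * (n - j)) * (r ^ j * n.descFactorial j) := Nat.mul_le_mul h1 ih
      _ = _ := by rw [descFactorial_succ]; ring

theorem choose_le_pow {n k s : ℕ} (hn : 0 < n) (hk : k ≤ n) (f : ℕ → ℕ)
    (h1 : ∀ p, p.Prime → p ∣ n.choose k → f p ∈ Finset.Icc 1 s)
    (h2 : ∀ p q, p.Prime → q.Prime → f p = f q → p = q) : n.choose k ≤ n ^ s := by
  have h0 := (choose_pos hk).ne'
  have h3 : (n.choose k).primeFactors.card ≤ (Finset.Icc 1 s).card :=
    Finset.card_le_card_of_injOn f
      (fun p hp => h1 p (prime_of_mem_primeFactors hp) (dvd_of_mem_primeFactors hp))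
      fun p hp q hq => h2 p q (prime_of_mem_primeFactors hp) (prime_of_mem_primeFactors hq)
  rw [card_Icc, Nat.add_sub_cancel] at h3
  rw [← prod_factorization_pow_eq_self h0]
  exact (Finset.prod_le_pow_card _ _ n fun p _ => pow_factorization_choose_le hn).trans
    (Nat.pow_le_pow_right hn h3)

theorem nt1 {n k r : ℕ} (hr : r.Prime) (hk : r ≤ k) (h2 : 2 * k ≤ n) (hn : r * r ≤ n)
    (hmax : ∀ s, s.Prime → s ∣ n.choose k → s ≤ r) : False := by
  have h0 := hr.two_le
  have hm := choose_mono hk h2
  by_cases h9 : 9 ≤ r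
  · have h3 := choose_le_pow (s := (r - 1) / 2) (by omega) (by omega : k ≤ n) (fun p => if p = 2 then 4 else p / 2)
      (fun p hp hd => by
        have := hmax p hp hd
        have := hp.two_le
        have := hp.eq_two_or_odd
        have := hr.eq_two_or_odd
        simp only [Finset.mem_Icc]; split_ifs <;> omega)
      (fun p q hp hq => by
        have := hp.eq_two_or_odd
        have := hq.eq_two_or_odd
        have : p ≠ 9 := by rintro rfl; norm_num at hp
        have : q ≠ 9 := by rintro rfl; norm_num at hq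
        split_ifs <;> omega)
    have h4 := pow_desc (by omega : r ≤ n) r
    rw [descFactorial_self, descFactorial_eq_factorial_mul_choose, ← mul_assoc, mul_right_comm] at h4
    have h5 := (Nat.le_of_mul_le_mul_right h4 (factorial_pos r)).trans (Nat.mul_le_mul_left _ (hm.trans h3))
    have h6 : n ^ (r + r) ≤ n ^ (r + 2 * ((r - 1) / 2)) :=
      calc n ^ (r + r) = n ^ r * n ^ r := pow_add _ _ _
        _ ≤ (r ^ r * n ^ ((r - 1) / 2)) * (r ^ r * n ^ ((r - 1) / 2)) := Nat.mul_le_mul h5 h5
        _ = (r * r) ^ r * n ^ (2 * ((r - 1) / 2)) := by ring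
        _ ≤ n ^ r * n ^ (2 * ((r - 1) / 2)) := Nat.mul_le_mul_right _ (Nat.pow_le_pow_left hn _)
        _ = _ := (pow_add _ _ _).symm
    have := (Nat.pow_le_pow_iff_right (by omega)).1 h6
    omega
  have h3 := choose_le_pow (s := (r + 1) / 2) (by omega) (by omega : k ≤ n) (fun p => (p + 1) / 2)
    (fun p hp hd => by
      have := hmax p hp hd
      have := hp.two_le
      simp only [Finset.mem_Icc]; omega)
    (fun p q hp hq => by
      have := hp.eq_two_or_odd
      have := hq.eq_two_or_odd
      have := hp.two_le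
      have := hq.two_le
      omega)
  have h4 := Nat.mul_le_mul_left r ! (hm.trans h3)
  rw [← descFactorial_eq_factorial_mul_choose] at h4
  obtain ⟨m, rfl⟩ := Nat.exists_eq_add_of_le' hn
  clear h3 hm hmax hn h2 hk
  have := hr.eq_two_or_odd
  obtain rfl | rfl | rfl | rfl : r = 2 ∨ r = 3 ∨ r = 5 ∨ r = 7 := by omega
  all_goals
    simp only [descFactorial_succ, descFactorial_zero, factorial, Nat.reduceMul, Nat.reduceAdd, Nat.reduceDiv,
      Nat.reduceSubDiff, Nat.sub_zero, Nat.succ_eq_add_one] at h4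
    ring_nf at h4
    omega

theorem nt2 {n k r : ℕ} (hr : r.Prime) (hk : 1 ≤ k) (h2 : 2 * k ≤ n) (hn : 5 ≤ n) (hd : r ∣ n.choose k)
    (hmax : ∀ s, s.Prime → s ∣ n.choose k → s ≤ r) : n % r < k % r ∧ (r = 2 → 4 ∣ n) := by
  haveI := Fact.mk hr
  refine ⟨lt_of_not_ge fun h => ?_, ?_⟩
  · have h1 := (Choose.choose_modEq_choose_mod_mul_choose_div_nat (n := n) (k := k) (p := r)).dvd_iff dvd_rfl
    rcases hr.dvd_mul.1 (h1.1 hd) with h3 | h3
    · exact (Nat.mod_lt n hr.pos).not_ge (le_of_dvd_choose hr h h3)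
    refine nt1 hr (le_of_not_gt fun h4 => ?_) h2 ?_ hmax
    · rw [Nat.div_eq_of_lt h4, choose_zero_right] at h3
      exact hr.not_dvd_one h3
    · exact (Nat.le_div_iff_mul_le hr.pos).1 (le_of_dvd_choose hr (Nat.div_le_div_right (by omega)) h3)
  rintro rfl
  obtain rfl : k = 1 := by
    by_contra h
    exact nt1 hr (by omega) h2 (by omega) hmax
  rw [choose_one_right] at hd hmax
  obtain ⟨m, rfl⟩ := hd
  obtain ⟨q, hq, h3⟩ := Nat.exists_prime_and_dvd (by omega : m ≠ 1)
  obtain rfl : q = 2 := le_antisymm (hmax q hq (h3.mul_left _)) hq.two_le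
  omega

end Cfsg.Agent.H27.Der
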