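import Mathlib
import Cfsg.Agent.H27.Der1
import Cfsg.Agent.H16.Supp

/-! Derangements of prime order for subgroups of alternating groups. -/

set_option autoImplicit false
set_option linter.unusedSectionVars false
set_option linter.unusedVariables false

namespace Cfsg.Agent.H27.Der

open Subgroup Equiv Equiv.Perm MulAction
open scoped Nat Pointwise

theorem conj_mem {G : Type*} [Group G] [Finite G] (K : Subgroup G) {p : ℕ} (hp : p.Prime) (h : ¬ p ∣ K.index)
    {g : G} (hg : g ^ p = 1) : ∃ a, a⁻¹ * g * a ∈ K := by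
  classical
  haveI := Fact.mk hp
  haveI := Fintype.ofFinite (G ⧸ K)
  obtain ⟨x, hx⟩ := exists_fixed_point_of_prime (p := p) (n := 1) (α := G ⧸ K) (by rwa [← Nat.card_eq_fintype_card])
    (σ := toPermHom G _ g) (by rw [← map_pow, pow_one, hg, map_one])
  obtain ⟨a, rfl⟩ := QuotientGroup.mk_surjective x
  exact ⟨a, by simpa [mul_assoc] using QuotientGroup.eq.1 (hx.symm : (a : G ⧸ K) = ((g * a : G) : G ⧸ K))⟩

theorem two_mul_le {n r : ℕ} (hr : r.Prime) (h : r * r ∣ n !) : 2 * r ≤ n := by
  haveI := Fact.mk hr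
  by_contra h1
  have h2 : n / r < 2 := (Nat.div_lt_iff_lt_mul hr.pos).2 (by omega)
  rw [← sq, padicValNat_dvd_iff_le (Nat.factorial_ne_zero _), ← Nat.div_add_mod n r,
    padicValNat_factorial_mul_add _ (Nat.mod_lt _ hr.pos), padicValNat_factorial_mul] at h
  generalize n / r = m at h h2
  interval_cases m <;> simp at h

variable {α : Type*} [Fintype α] [DecidableEq α]

theorem exists_g {r t : ℕ} (hr : r.Prime) (ht : 0 < t) (h : t * r ≤ Fintype.card α) (h2 : r = 2 → Even t) :
    ∃ g ∈ alternatingGroup α, orderOf g = r ∧ g.cycleType = Multiset.replicate t r := by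
  obtain ⟨g, hg⟩ := (exists_with_cycleType_iff α (m := Multiset.replicate t r)).2
    ⟨by simpa using h, fun a ha => Multiset.eq_of_mem_replicate ha ▸ hr.two_le⟩
  refine ⟨g, ?_, ?_, hg⟩
  · rw [mem_alternatingGroup, sign_of_cycleType, hg, Multiset.sum_replicate, Multiset.card_replicate, smul_eq_mul]
    refine Even.neg_one_pow ?_
    rw [← Nat.mul_succ]
    rcases hr.eq_two_or_odd' with h | h
    · exact (h2 h).mul_right _
    · exact h.add_one.mul_left _
  · rw [← lcm_cycleType, hg]
    obtain ⟨t, rfl⟩ := Nat.exists_eq_add_of_lt ht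
    refine Nat.dvd_antisymm (Multiset.lcm_dvd.2 fun a ha => Multiset.eq_of_mem_replicate ha ▸ dvd_rfl)
      (Multiset.dvd_lcm (by simp))

theorem no_inv {r : ℕ} (hr : r.Prime) {g : Perm α} (hg : g ^ r = 1) (Y : Set α) (hY : ∀ x, g x ∈ Y ↔ x ∈ Y) :
    Y.ncard % r ≤ g.supportᶜ.card := by
  classical
  haveI := Fact.mk hr
  have h1 := card_compl_support_modEq (p := r) (n := 1) (σ := g.subtypePerm hY)
    (by rw [pow_one, subtypePerm_pow]; ext x; simp [hg])
  rw [← Nat.card_coe_set_eq, Nat.card_eq_fintype_card, ← show _ % r = _ % r from h1]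
  refine (Nat.mod_le _ _).trans (Finset.card_le_card_of_injOn Subtype.val (fun x hx => ?_) Subtype.val_injective.injOn)
  simpa [Subtype.ext_iff] using hx

theorem card_orb {p : ℕ} (hp : p.Prime) {c : Perm α} (hc : orderOf c = p) {x : α} (hx : c x ≠ x) :
    (orbit (zpowers c) x).ncard = p := by
  rw [← index_stabilizer]
  refine ((Nat.dvd_prime hp).1 ?_).resolve_left fun h => hx ?_
  · rw [← hc, ← Nat.card_zpowers]; exact index_dvd_card _
  · exact (index_eq_one.1 h).ge (mem_top (⟨c, mem_zpowers c⟩ : zpowers c))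

theorem prim {H : Subgroup (Perm α)} [IsPretransitive H α] {p : ℕ} (hp : p.Prime) {c : Perm α} (hc : orderOf c = p)
    (hH : c ∈ H) {x : α} (hx : c x ≠ x) (h : Fintype.card α < 2 * p) : IsPreprimitive H α := by
  have h1 := card_orb hp hc hx
  haveI : IsPreprimitive (zpowers c) (orbit (zpowers c) x) := IsPreprimitive.of_prime_card (by
    rw [Nat.card_coe_set_eq, h1]; exact hp)
  let f : orbit (zpowers c) x →ₑ[inclusion (zpowers_le.2 hH)] α := ⟨Subtype.val, fun _ _ => rfl⟩
  refine IsPreprimitive.of_card_lt (f := f) ?_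
  rw [show Set.range f = orbit (zpowers c) x from Subtype.range_coe, h1, Nat.card_eq_fintype_card]
  exact h

theorem index_St (hn : 3 ≤ Fintype.card α) (Y : Set α) :
    (stabilizer (Perm α) Y).relIndex (alternatingGroup α) = (Fintype.card α).choose Y.ncard := by
  classical
  haveI := Set.powersetCard.isPretransitive_alternatingGroup (α := α) (n := Y.ncard) (by simpa using hn)
  let s : Set.powersetCard α Y.ncard := ⟨Y.toFinset, (Set.ncard_eq_toFinset_card' Y).symm⟩
  have := index_stabilizer_of_transitive (alternatingGroup α) s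
  rw [Set.powersetCard.card, Nat.card_eq_fintype_card] at this
  rw [← this, relIndex]
  congr 1
  ext g
  rw [mem_subgroupOf, mem_stabilizer_iff, mem_stabilizer_iff, ← Subtype.coe_inj, ← Finset.coe_inj]
  erw [Set.powersetCard.coe_smul]
  simp [s, Subgroup.smul_def]

theorem core (hn : 5 ≤ Fintype.card α) {H : Subgroup (Perm α)} (hH : H ≤ alternatingGroup α) {r : ℕ} (hr : r.Prime)
    (hrd : r ∣ H.relIndex (alternatingGroup α)) (hmax : ∀ s, s.Prime → s ∣ H.relIndex (alternatingGroup α) → s ≤ r)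
    (hext : Fintype.card α = 6 ∨ ∀ M, M ≤ alternatingGroup α → ¬ alternatingGroup α ≤ M →
      normalizer (H : Set (Perm α)) ≤ normalizer (M : Set (Perm α)) → M ≤ H) :
    ∃ g ∈ alternatingGroup α, orderOf g = r ∧ ∀ a, a * g * a⁻¹ ∉ H := by
  classical
  haveI : Nontrivial α := Fintype.one_lt_card_iff_nontrivial.1 (by omega)
  haveI := Fact.mk hr
  set A := alternatingGroup α
  set n := Fintype.card α with hn'
  have e1 : Nat.card H * H.relIndex A = Nat.card A := by
    rw [← relIndex_bot_left, ← relIndex_bot_left, relIndex_mul_relIndex _ _ _ bot_le hH]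
  have e2 : 2 * Nat.card A = n ! := by
    rw [two_mul_nat_card_alternatingGroup, Nat.card_perm, Nat.card_eq_fintype_card]
  have hA : ¬ A ≤ H := fun h => hr.not_dvd_one (relIndex_eq_one.2 h ▸ hrd)
  have oc : ∀ a g : Perm α, orderOf (a * g * a⁻¹) = orderOf g := fun a g => (MulAut.conj a).orderOf_eq g
  by_cases h1 : r ∣ Nat.card H
  swap
  · obtain ⟨g, hg⟩ := exists_prime_orderOf_dvd_card' (G := A) r (e1 ▸ hrd.mul_left _)
    refine ⟨g, g.2, by simpa using hg, fun a ha => h1 ?_⟩
    rw [← hg, ← Subgroup.orderOf_coe, ← oc a]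
    exact H.orderOf_dvd_natCard ha
  have h2 : 2 * r ≤ n := two_mul_le hr (e2 ▸ e1 ▸ (Nat.mul_dvd_mul h1 hrd).mul_left _)
  obtain ⟨p, hp, h3, h4⟩ := Nat.exists_prime_lt_and_le_two_mul (n / 2) (by omega)
  haveI := Fact.mk hp
  have h5 : p ∣ Nat.card H := by
    have : p ∣ n ! := hp.dvd_factorial.2 (by omega)
    rw [← e2, ← e1, hp.dvd_mul, hp.dvd_mul] at this
    rcases this with h | h | h
    · have := Nat.le_of_dvd two_pos h; omega
    · exact h
    · have := hmax p hp h; omega
  obtain ⟨⟨c, hc⟩, h6⟩ := exists_prime_orderOf_dvd_card' (G := H) p h5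
  rw [orderOf_mk] at h6
  obtain ⟨x, hx⟩ : ∃ x, c x ≠ x := not_forall.1 fun h => hp.ne_one (by rw [← h6, show c = 1 from Equiv.ext h, orderOf_one])
  have hpn : n < 2 * p := by have := hp.eq_two_or_odd; omega
  by_cases hX : orbit H x = Set.univ
  · haveI := (isPretransitive_iff_orbit_eq_univ x).2 hX
    have hP := prim hp h6 hc hx hpn
    by_cases h7 : r = 2
    · obtain ⟨g, a1, a2, a3⟩ := exists_g (α := α) (r := 3) (t := 1) (by norm_num) one_pos (by omega) (by simp)
      obtain ⟨a, ha⟩ := conj_mem (H.subgroupOf A) (p := 3) (by norm_num)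
        (fun h => by have := hmax 3 (by norm_num) h; omega) (g := ⟨g, a1⟩)
        (Subtype.ext (by simpa [a2] using pow_orderOf_eq_one g))
      refine (hA (alternatingGroup_le_of_isPreprimitive_of_isThreeCycle_mem hP ?_ ha)).elim
      exact (cycleType_conj (τ := (a : Perm α)⁻¹)).trans a3
    obtain ⟨g, a1, a2, a3⟩ := exists_g (α := α) (t := 1) hr one_pos (by omega) (fun h => (h7 h).elim)
    have a4 : g.IsCycle := card_cycleType_eq_one.1 (by simp [a3])
    have := hr.two_le
    exact ⟨g, a1, a2, fun a ha => hA (H16.jordan_prime_cycle hP hr (by omega) a4.conj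
      (by rw [card_support_conj, ← a4.orderOf, a2]) ha)⟩
  set X := orbit H x
  have b1 : p ≤ X.ncard := card_orb hp h6 hx ▸ Set.ncard_le_ncard (by
    rintro _ ⟨g, rfl⟩; exact ⟨⟨g, zpowers_le.2 hc g.2⟩, rfl⟩)
  have b2 : X.ncard + Xᶜ.ncard = n := by rw [Set.ncard_add_ncard_compl, Nat.card_eq_fintype_card]
  have b3 : 0 < Xᶜ.ncard := (Set.ncard_pos).2 (Set.nonempty_compl.2 hX)
  have b4 : H ≤ stabilizer (Perm α) Xᶜ := fun g hg => by
    rw [stabilizer_compl]; exact smul_orbit (⟨g, hg⟩ : H) x
  have b5 := index_St (by omega) Xᶜ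
  set k := Xᶜ.ncard
  have b6 : n % r < k % r ∧ (r = 2 → 4 ∣ n) := by
    rcases hext with h | h
    · have c1 : n.choose k ∣ H.relIndex A := b5 ▸ relIndex_dvd_of_le_left _ b4
      obtain rfl : p = 5 := by have := hp.eq_two_or_odd; omega
      rw [show k = 1 by omega, h] at c1 ⊢
      have := hmax 3 (by norm_num) (dvd_trans (by norm_num) c1)
      obtain rfl : r = 3 := by omega
      simp
    have b7 : H.relIndex A = n.choose k := by
      rw [← b5, ← inf_relIndex_right (stabilizer _ _)]
      congr 1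
      refine le_antisymm (le_inf b4 hH) (h _ inf_le_right (fun h => ?_) fun σ hσ => ?_)
      · rw [relIndex_eq_one.2 (h.trans inf_le_left)] at b5
        have := choose_mono (n := n) b3 (by omega)
        rw [Nat.choose_one_right, ← b5] at this
        omega
      have b8 : σ • X = orbit H (σ x) := by
        ext y
        rw [Set.mem_smul_set_iff_inv_smul_mem]
        constructor
        · rintro ⟨g, hg⟩
          exact ⟨⟨_, (mem_normalizer_iff.1 hσ g).1 g.2⟩, by
            simpa [Subgroup.smul_def, ← Perm.eq_inv_iff_eq] using hg⟩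
        · rintro ⟨g, hg⟩
          exact ⟨⟨_, (mem_normalizer_iff.1 (inv_mem hσ) g).1 g.2⟩, by
            simpa [Subgroup.smul_def] using hg⟩
      have b9 : σ • X = X := by
        rw [b8]
        refine (orbit.eq_or_disjoint _ _).resolve_right fun hd => ?_
        have : _ ≤ k := Set.ncard_le_ncard (Set.subset_compl_iff_disjoint_right.2 hd)
        rw [← b8, Set.ncard_smul_set] at this
        omega
      exact inf_normalizer_le_normalizer_inf ⟨le_normalizer (by rwa [stabilizer_compl]), (normalizer_eq_top A).ge (mem_top σ)⟩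
    rw [b7] at hrd hmax
    exact nt2 hr b3 (by omega) hn hrd hmax
  obtain ⟨g, a1, a2, a3⟩ := exists_g (α := α) (t := n / r) hr (Nat.div_pos (by omega) hr.pos) (Nat.div_mul_le_self _ _)
    (by rintro rfl; have := b6.2 rfl; exact even_iff_two_dvd.2 (by omega))
  refine ⟨g, a1, a2, fun a ha => b6.1.not_ge ?_⟩
  refine (no_inv hr (g := a * g * a⁻¹) (by rw [← a2, ← oc a, pow_orderOf_eq_one]) Xᶜ fun y => ?_).trans (le_of_eq ?_)
  · conv_lhs => rw [← show _ • Xᶜ = Xᶜ from b4 ha]
    exact Set.smul_mem_smul_set_iff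
  · rw [Finset.card_compl, card_support_conj, ← sum_cycleType, a3, Multiset.sum_replicate, smul_eq_mul,
      Nat.mod_eq_sub, mul_comm]

end Cfsg.Agent.H27.Der
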