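import Mathlib
import Cfsg.Agent.H27.DerLen
import Cfsg.Agent.H10.Sp
import Cfsg.Agent.H10.SL2b

/-! Derived length of `p`-subgroups of linear groups: lower bounds through wreath products. -/

set_option autoImplicit false

namespace Cfsg.Agent.H27

open Subgroup Module
open scoped commutatorElement MatrixGroups

universe u v

theorem dser_wreath {D Q : Type*} [Group D] [Group Q] [Nontrivial Q] {k : ℕ} (h : derivedSeries D k ≠ ⊥) :
    derivedSeries (D ≀ᵣ Q) (k + 1) ≠ ⊥ := by
  classical
  let f : (commutator (D ≀ᵣ Q) ⊓ (RegularWreathProduct.rightHom (D := D) (Q := Q)).ker : Subgroup _) →* D :=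
    { toFun := fun w => w.1.left 1
      map_one' := rfl
      map_mul' := fun a b => by
        have : a.1.right = 1 := a.2.2
        simp [this] }
  refine dser_succ_ne_bot inf_le_left f (fun a => ?_) h
  obtain ⟨q, hq⟩ := exists_ne (1 : Q)
  refine ⟨⟨⁅(⟨Pi.mulSingle 1 a, 1⟩ : D ≀ᵣ Q), RegularWreathProduct.inl q⁆,
    commutator_mem_commutator trivial trivial, ?_⟩, ?_⟩
  · simp [commutatorElement_def]
  · simp [f, commutatorElement_def, hq]

theorem isPGroup_wreath {D Q : Type*} [Group D] [Group Q] [Finite D] [Finite Q] {p : ℕ} [Fact p.Prime]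
    (hD : IsPGroup p D) (hQ : IsPGroup p Q) : IsPGroup p (D ≀ᵣ Q) := by
  obtain ⟨a, ha⟩ := hD.exists_card_eq
  obtain ⟨b, hb⟩ := hQ.exists_card_eq
  exact IsPGroup.of_card (n := a * Nat.card Q + b) (by rw [RegularWreathProduct.card, ha, pow_add, pow_mul, ← hb])

theorem isPGroup_zmod (p : ℕ) [Fact p.Prime] : IsPGroup p (Multiplicative (ZMod p)) :=
  IsPGroup.of_card (n := 1) (by simp)

theorem dser_sylow {G H : Type*} [Group G] [Group H] [Finite H] {p : ℕ} [Fact p.Prime] (hG : IsPGroup p G)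
    (f : G →* H) (hf : Function.Injective f) (P : Sylow p H) {k : ℕ} (h : derivedSeries G k ≠ ⊥) :
    derivedSeries P k ≠ ⊥ := by
  have h1 : IsPGroup p f.range := hG.of_surjective _ f.rangeRestrict_surjective
  obtain ⟨Q, hQ⟩ := h1.exists_le_sylow
  refine dser_ne_bot_of_inj ((Sylow.equiv Q P).toMonoidHom.comp ((inclusion hQ).comp f.rangeRestrict)) ?_ h
  exact (Sylow.equiv Q P).injective.comp ((inclusion_injective hQ).comp
    (MonoidHom.rangeRestrict_injective_iff.2 hf))

theorem exists_perm_tower (p : ℕ) [Fact p.Prime] (k : ℕ) :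
    ∃ (G : Type) (_ : Group G) (_ : Finite G) (X : Type) (_ : MulAction G X) (_ : FaithfulSMul G X),
      IsPGroup p G ∧ derivedSeries G k ≠ ⊥ ∧ Nat.card X = p ^ (k + 1) := by
  induction k with
  | zero =>
    exact ⟨Multiplicative (ZMod p), inferInstance, inferInstance, Multiplicative (ZMod p), inferInstance,
      inferInstance, isPGroup_zmod p, top_ne_bot, by simp⟩
  | succ k ih =>
    obtain ⟨G, _, _, X, _, _, h1, h2, h3⟩ := ih
    haveI : Nonempty X := (Nat.card_pos_iff.1 (h3 ▸ pow_pos (Fact.out : p.Prime).pos _)).1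
    exact ⟨G ≀ᵣ Multiplicative (ZMod p), inferInstance, inferInstance, X × Multiplicative (ZMod p), inferInstance,
      inferInstance, isPGroup_wreath h1 (isPGroup_zmod p), dser_wreath h2, by simp [h3, pow_succ]⟩

theorem dser_perm_ne {Y : Type*} [Finite Y] {p : ℕ} [Fact p.Prime] (P : Sylow p (Equiv.Perm Y)) {k : ℕ}
    (h : p ^ (k + 1) ≤ Nat.card Y) : derivedSeries P k ≠ ⊥ := by
  obtain ⟨G, _, _, X, _, _, h1, h2, h3⟩ := exists_perm_tower p k
  haveI : Finite X := (Nat.card_pos_iff.1 (h3 ▸ pow_pos (Fact.out : p.Prime).pos _)).2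
  obtain ⟨ι⟩ : Nonempty (X ↪ Y) := by
    haveI := Fintype.ofFinite X
    haveI := Fintype.ofFinite Y
    exact Function.Embedding.nonempty_of_card_le (by simpa [← Nat.card_eq_fintype_card, h3] using h)
  exact dser_sylow h1 ((Equiv.Perm.viaEmbeddingHom ι).comp (MulAction.toPermHom G X))
    ((Equiv.Perm.viaEmbeddingHom_injective ι).comp MulAction.toPerm_injective) P h2

/-- a `p`-group of derived length `> k` acting faithfully in dimension `d`, (preserving a symplectic form) -/
def Tw (F : Type u) [Field F] (p d k : ℕ) (sp : Prop) : Prop :=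
  ∃ (G : Type u) (_ : Group G) (_ : Finite G) (V : Type u) (_ : AddCommGroup V) (_ : Module F V)
    (_ : FiniteDimensional F V) (ρ : G →* (V ≃ₗ[F] V)) (B : LinearMap.BilinForm F V),
    IsPGroup p G ∧ derivedSeries G k ≠ ⊥ ∧ finrank F V = d ∧ Function.Injective ρ ∧
      (∀ g u v, B (ρ g u) (ρ g v) = B u v) ∧ (sp → B.Nondegenerate ∧ B.IsAlt)

/-- the imprimitive representation of a wreath product -/
def wrRep {F : Type*} [Field F] {V : Type*} [AddCommGroup V] [Module F V] {D : Type*} [Group D]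
    (ρ : D →* (V ≃ₗ[F] V)) (Q : Type*) [Group Q] : D ≀ᵣ Q →* ((Q → V) ≃ₗ[F] (Q → V)) where
  toFun w :=
    { toFun := fun f x => ρ (w.left x) (f (w.right⁻¹ * x))
      invFun := fun f x => ρ (w.left (w.right * x))⁻¹ (f (w.right * x))
      map_add' := fun f g => by ext x; simp
      map_smul' := fun c f => by ext x; simp
      left_inv := fun f => by
        ext x
        simp [← LinearEquiv.mul_apply, ← map_mul]
      right_inv := fun f => by
        ext x
        simp [← LinearEquiv.mul_apply, ← map_mul] }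
  map_one' := by ext f x; simp
  map_mul' a b := by ext f x; simp [mul_assoc]

theorem wrRep_apply {F : Type*} [Field F] {V : Type*} [AddCommGroup V] [Module F V] {D : Type*} [Group D]
    (ρ : D →* (V ≃ₗ[F] V)) (Q : Type*) [Group Q] (w : D ≀ᵣ Q) (f : Q → V) (x : Q) :
    wrRep ρ Q w f x = ρ (w.left x) (f (w.right⁻¹ * x)) := rfl

theorem Tw.succ {F : Type u} [Field F] {p d k : ℕ} [Fact p.Prime] {sp : Prop} (h : Tw F p d k sp) :
    Tw F p (d * p) (k + 1) sp := by
  classical
  obtain ⟨G, _, _, V, _, _, _, ρ, B, h1, h2, h3, h4, h5, h6⟩ := h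
  haveI : Nontrivial V := by
    rcases subsingleton_or_nontrivial V with h | h
    · haveI : Subsingleton G := h4.subsingleton
      exact absurd (Subsingleton.elim _ _) h2
    · exact h
  let Q := Multiplicative (ZMod p)
  let B' : LinearMap.BilinForm F (Q → V) := ∑ x : Q, B.comp (LinearMap.proj x) (LinearMap.proj x)
  have hB' : ∀ u v, B' u v = ∑ x : Q, B (u x) (v x) := fun u v => by simp [B', LinearMap.sum_apply]
  refine ⟨G ≀ᵣ Q, inferInstance, inferInstance, Q → V, inferInstance, inferInstance, inferInstance, wrRep ρ Q, B',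
    isPGroup_wreath h1 (isPGroup_zmod p), dser_wreath h2, ?_, ?_, ?_, fun hs => ⟨?_, ?_⟩⟩
  · rw [finrank_pi_fintype]; simp [h3, Q, mul_comm]
  · rw [injective_iff_map_eq_one]
    intro w hw
    have hw' : ∀ (f : Q → V) x, ρ (w.left x) (f (w.right⁻¹ * x)) = f x := fun f x => by
      rw [← wrRep_apply, hw]; rfl
    obtain ⟨v, hv⟩ := exists_ne (0 : V)
    have hr : w.right = 1 := by
      by_contra hr
      have := hw' (Pi.single 1 v) 1
      simp [hr] at this
      exact hv this.symm
    ext x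
    · apply h4
      ext u
      simpa using hw' (fun _ => u) x
    · exact hr
  · intro w u v
    simp only [hB', wrRep_apply, h5]
    exact Fintype.sum_equiv (Equiv.mulLeft w.right⁻¹) _ _ fun x => rfl
  · obtain ⟨⟨hl, hr⟩, -⟩ := h6 hs
    refine ⟨fun u hu => funext fun x => hl _ fun v => ?_, fun u hu => funext fun x => hr _ fun v => ?_⟩
    · have := hu (Pi.single x v)
      rwa [hB', Finset.sum_eq_single x (fun y _ hy => by simp [hy]) (by simp), Pi.single_eq_same] at this
    · have := hu (Pi.single x v)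
      rwa [hB', Finset.sum_eq_single x (fun y _ hy => by simp [hy]) (by simp), Pi.single_eq_same] at this
  · intro u
    rw [hB']
    exact Finset.sum_eq_zero fun x _ => (h6 hs).2 _

theorem Tw.pow {F : Type u} [Field F] {p d k : ℕ} [Fact p.Prime] {sp : Prop} (h : Tw F p d k sp) (j : ℕ) :
    Tw F p (d * p ^ j) (k + j) sp := by
  induction j with
  | zero => simpa using h
  | succ j ih => rw [pow_succ, ← mul_assoc]; exact ih.succ

theorem Tw.add {F : Type u} [Field F] {p d k : ℕ} {sp : Prop} (h : Tw F p d k sp) (W : Type u) [AddCommGroup W]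
    [Module F W] [FiniteDimensional F W] (C : LinearMap.BilinForm F W) (hC : sp → C.Nondegenerate ∧ C.IsAlt) :
    Tw F p (d + finrank F W) k sp := by
  obtain ⟨G, _, _, V, _, _, _, ρ, B, h1, h2, h3, h4, h5, h6⟩ := h
  let B' : LinearMap.BilinForm F (V × W) :=
    B.comp (LinearMap.fst F V W) (LinearMap.fst F V W) + C.comp (LinearMap.snd F V W) (LinearMap.snd F V W)
  have hB' : ∀ u v, B' u v = B u.1 v.1 + C u.2 v.2 := fun u v => by simp [B']
  let ρ' : G →* ((V × W) ≃ₗ[F] (V × W)) :=
    { toFun := fun g => (ρ g).prodCongr (LinearEquiv.refl F W)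
      map_one' := by ext <;> simp
      map_mul' := fun a b => by ext <;> simp }
  refine ⟨G, inferInstance, inferInstance, V × W, inferInstance, inferInstance, inferInstance, ρ', B',
    h1, h2, by rw [finrank_prod, h3], ?_, fun g u v => by simp [hB', ρ', h5], fun hs => ⟨?_, ?_⟩⟩
  · intro a b hab
    apply h4
    ext u
    simpa [ρ'] using congrArg (fun e : (V × W) ≃ₗ[F] (V × W) => (e (u, 0)).1) hab
  · obtain ⟨⟨hl, hr⟩, -⟩ := h6 hs
    obtain ⟨⟨hl', hr'⟩, -⟩ := hC hs
    refine ⟨fun u hu => Prod.ext (hl _ fun v => ?_) (hl' _ fun v => ?_),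
      fun u hu => Prod.ext (hr _ fun v => ?_) (hr' _ fun v => ?_)⟩
    · simpa [hB'] using hu (v, 0)
    · simpa [hB'] using hu (0, v)
    · simpa [hB'] using hu (v, 0)
    · simpa [hB'] using hu (0, v)
  · intro u
    rw [hB', (h6 hs).2, (hC hs).2, add_zero]

theorem Tw.gl {F : Type u} [Field F] [Finite F] {p d k n : ℕ} [Fact p.Prime] (h : Tw F p d k False) (hn : d ≤ n)
    (P : Sylow p (GL (Fin n) F)) : derivedSeries P k ≠ ⊥ := by
  obtain ⟨G, _, _, V, _, _, _, ρ, B, h1, h2, h3, h4, -, -⟩ := h.add (Fin (n - d) → F) 0 False.elim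
  have hV : finrank F V = n := by rw [h3]; simp; omega
  let e := (Matrix.GeneralLinearGroup.toLin' (Module.finBasisOfFinrankEq F V hV)).trans
    (LinearMap.GeneralLinearGroup.generalLinearEquiv F V)
  exact dser_sylow h1 (e.symm.toMonoidHom.comp ρ) (e.symm.injective.comp h4) P h2

theorem Tw.sp {F : Type u} [Field F] [Finite F] {p d k n : ℕ} [Fact p.Prime] (h : Tw F p (2 * d) k True) (hn : d ≤ n)
    (P : Sylow p (Matrix.symplecticGroup (Fin n) F)) : derivedSeries P k ≠ ⊥ := by
  obtain ⟨G, _, _, V, _, _, _, ρ, B, h1, h2, h3, h4, h5, h6⟩ := h.add (Fin (n - d) ⊕ Fin (n - d) → F)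
    (H10.spBilin _ F) fun _ => ⟨H10.spBilin_nondegenerate, H10.spBilin_isAlt⟩
  have hV : finrank F V = 2 * Fintype.card (Fin n) := by rw [h3]; simp; omega
  obtain ⟨e⟩ := H10.nonempty_sp_equiv_isom (h6 trivial).1 (h6 trivial).2 hV
  refine dser_sylow h1 (e.symm.toMonoidHom.comp (ρ.codRestrict (H10.isomGroup B) h5)) (e.symm.injective.comp ?_) P h2
  exact fun a b hab => h4 (congrArg Subtype.val hab)

theorem tw_gl_base (F : Type u) [Field F] [Finite F] {p : ℕ} [Fact p.Prime] (hq : ¬ p ∣ Nat.card F) :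
    Tw F p (orderOf ((Nat.card F : ℕ) : ZMod p)) 0 False := by
  classical
  haveI := Fintype.ofFinite F
  set e := orderOf ((Nat.card F : ℕ) : ZMod p) with he
  have hq0 : ((Nat.card F : ℕ) : ZMod p) ≠ 0 := by rwa [Ne, ZMod.natCast_eq_zero_iff]
  have he0 : 0 < e := (isOfFinOrder_iff_pow_eq_one.2 ⟨p - 1, by have := (Fact.out : p.Prime).two_le; omega,
    ZMod.pow_card_sub_one_eq_one hq0⟩).orderOf_pos
  have hd : p ∣ Nat.card (GL (Fin e) F) := by
    rw [Matrix.card_GL_field]
    refine Dvd.dvd.trans ?_ (Finset.dvd_prod_of_mem _ (Finset.mem_univ ⟨0, he0⟩))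
    rw [← ZMod.natCast_eq_zero_iff, Nat.cast_sub (Nat.pow_le_pow_right Fintype.card_pos (Nat.zero_le _)),
      ← Nat.card_eq_fintype_card]
    simp [he]
  obtain ⟨g, hg⟩ := exists_prime_orderOf_dvd_card' p hd
  refine ⟨zpowers g, inferInstance, inferInstance, Fin e → F, inferInstance, inferInstance, inferInstance,
    (Matrix.GeneralLinearGroup.toLin.trans (LinearMap.GeneralLinearGroup.generalLinearEquiv F _)).toMonoidHom.comp
      (zpowers g).subtype, 0, IsPGroup.of_card (n := 1) (by rw [Nat.card_zpowers, hg, pow_one]), ?_, by simp,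
      (Matrix.GeneralLinearGroup.toLin.trans (LinearMap.GeneralLinearGroup.generalLinearEquiv F _)).injective.comp
        (zpowers g).subtype_injective, by simp, False.elim⟩
  haveI : Nontrivial (zpowers g) := Finite.one_lt_card_iff_nontrivial.1 (by
    rw [Nat.card_zpowers, hg]; exact (Fact.out : p.Prime).one_lt)
  exact top_ne_bot

theorem tw_sp_base (F : Type u) [Field F] [Finite F] (h2 : (2 : F) ≠ 0) : Tw F 2 2 1 True := by
  obtain ⟨P⟩ : Nonempty (Sylow 2 SL(2, F)) := inferInstance
  obtain ⟨k, hk, ⟨e⟩⟩ := (H10.sl2_two_group h2 P.isPGroup').resolve_left (H10.not_isCyclic_sylow_two h2 P)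
  let B : LinearMap.BilinForm F (Fin 2 → F) := Matrix.toBilin' !![0, 1; -1, 0]
  have hB : ∀ u v, B u v = u 0 * v 1 - u 1 * v 0 := fun u v => by
    simp [B, Matrix.toBilin'_apply, Fin.sum_univ_two]; ring
  refine ⟨P, inferInstance, inferInstance, Fin 2 → F, inferInstance, inferInstance, inferInstance,
    Matrix.SpecialLinearGroup.toLin'.comp (P : Subgroup SL(2, F)).subtype, B, P.isPGroup', ?_, by simp,
    Matrix.SpecialLinearGroup.toLin'_injective.comp (P : Subgroup SL(2, F)).subtype_injective, ?_, fun _ => ⟨⟨?_, ?_⟩, ?_⟩⟩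
  · refine dser_ne_bot_of_inj e.symm.toMonoidHom e.symm.injective fun h => ?_
    have h1 : ⁅QuaternionGroup.a (1 : ZMod (2 * 2 ^ k)), QuaternionGroup.xa 0⁆ ∈ derivedSeries (QuaternionGroup (2 ^ k)) 1 :=
      commutator_mem_commutator trivial trivial
    rw [h, mem_bot, commutatorElement_eq_one_iff_mul_comm] at h1
    simp only [QuaternionGroup.a_mul_xa, QuaternionGroup.xa_mul_a, QuaternionGroup.xa.injEq, zero_sub, zero_add] at h1
    have h3 : ((2 : ℕ) : ZMod (2 * 2 ^ k)) = 0 := by
      push_cast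
      linear_combination -h1
    rw [ZMod.natCast_eq_zero_iff] at h3
    have := Nat.le_of_dvd two_pos h3
    have : 2 ^ 1 ≤ 2 ^ k := Nat.pow_le_pow_right two_pos hk
    omega
  · intro g u v
    have hd := g.1.det_coe
    rw [Matrix.det_fin_two] at hd
    simp [hB, Matrix.SpecialLinearGroup.toLin'_apply, Matrix.mulVec, dotProduct, Fin.sum_univ_two]
    linear_combination (u 0 * v 1 - u 1 * v 0) * hd
  · intro u hu
    have h0 := hu ![0, 1]
    have h1 := hu ![1, 0]
    simp [hB] at h0 h1
    ext i; fin_cases i <;> simp [h0, h1]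
  · intro u hu
    have h0 := hu ![0, 1]
    have h1 := hu ![1, 0]
    simp [hB] at h0 h1
    ext i; fin_cases i <;> simp [h0, h1]
  · intro u
    rw [hB]; ring

end Cfsg.Agent.H27
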