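import Cfsg.Agent.H1.G2a
import Cfsg.Agent.H2.Cores

/-! Pieces (D) and (E) for Sylow `2`-subgroups of type `G₂(q)`. -/

set_option autoImplicit false
set_option linter.unusedSectionVars false
set_option linter.unusedVariables false

namespace Cfsg.Agent.H1.G2

open Subgroup Cfsg.Agent.H19.Gt

variable {G K : Type*} [Group G] [Finite G] [CommGroup K] {τ : K × K →* G} {u v : G} {z : K}
  {S : Sylow 2 G} {X : Subgroup G}

theorem de_nsq [Finite K] (hc : IsCyclic K) (h4 : 4 ∣ Nat.card K) :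
    ∃ κ : K, ¬ IsSquare κ ∧ ∀ a : K, IsSquare a ∨ IsSquare (κ * a) := by
  obtain ⟨κ, hκ⟩ := hc.exists_ofOrder_eq_natCard
  have hgen : ∀ a : K, ∃ i : ℕ, a = κ ^ i := fun a => by
    have : zpowers κ = ⊤ := eq_top_of_card_eq _ (by rw [Nat.card_zpowers, hκ])
    obtain ⟨i, hi⟩ := (mem_powers_iff_mem_zpowers.2 (this ▸ mem_top a) : a ∈ Submonoid.powers κ)
    exact ⟨i, hi.symm⟩
  refine ⟨κ, ?_, fun a => ?_⟩
  · rintro ⟨c, e⟩
    obtain ⟨i, rfl⟩ := hgen c
    rw [← pow_add] at e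
    have e2 : κ ^ 1 = κ ^ (i + i) := by rw [pow_one]; exact e
    rw [pow_eq_pow_iff_modEq, hκ] at e2
    have := (e2.of_dvd ((show 2 ∣ 4 by norm_num).trans h4))
    unfold Nat.ModEq at this
    omega
  · obtain ⟨i, rfl⟩ := hgen a
    rcases Nat.even_or_odd' i with ⟨l, rfl | rfl⟩
    · exact .inl ⟨κ ^ l, by rw [← pow_add]; congr 1; omega⟩
    · exact .inr ⟨κ ^ (l + 1), by rw [← pow_add, ← pow_succ']; congr 1; omega⟩

theorem pD (h : Gz (S : Subgroup G) τ u v z) (hc : ∀ g : G, g * τ (z, z) = τ (z, z) * g)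
    (fus : ∀ s ∈ h.M, s * s = 1 → s ≠ 1 → s ≠ τ (z, z) → IsConj s (τ (z, 1)))
    (nc : ∀ a : K, ¬ IsSquare a → ¬ IsConj (τ (a, 1) * u) (τ (z, 1))) : ∃ X, Hy S τ u v z X := by
  have := h.fin
  have g := h.toGs
  obtain ⟨κ, k1, k2⟩ := de_nsq h.cyc h.four
  have n1 : τ (κ, 1) ∉ h.M := by
    rintro ⟨a, b, e, f | f | f | f⟩
    · obtain ⟨rfl, rfl⟩ := g.teq.1 f
      exact k1 (by rwa [mul_one] at e)
    · exact h.ne_u _ _ _ _ f.symm
    · exact h.ne_v _ _ _ _ f.symm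
    · exact h.ne_w _ _ _ _ f.symm
  have n2 : ∀ s ∈ (S : Subgroup G), τ (κ, 1) * s ∈ h.M ∨ s ∈ h.M := fun s hs => by
    obtain ⟨a, b, e⟩ := (g.mem _).1 hs
    rcases k2 (a * b) with q | q
    · exact .inr ⟨a, b, q, e⟩
    · refine .inl ⟨κ * a, 1 * b, by rwa [one_mul, mul_assoc], ?_⟩
      rcases e with rfl | rfl | rfl | rfl
      · exact .inl (tm ..)
      · exact .inr (.inl (tm' ..))
      · exact .inr (.inr (.inl (tm' ..)))
      · exact .inr (.inr (.inr (tm' ..)))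
  have idx : h.M.relIndex (S : Subgroup G) = 2 :=
    index_eq_two_iff_exists_notMem_and'.2 ⟨⟨τ (κ, 1), g.tS _ _⟩, n1, fun s => n2 s.1 s.2⟩
  have xx : τ (κ, 1) * u * (τ (κ, 1) * u) = 1 := by
    rw [mul_assoc, g.ut', g.uu, mul_one, tm]; simp [t1]
  have x1 : τ (κ, 1) * u ≠ 1 := t1 τ ▸ h.ne_u _ _ _ _
  have xo : orderOf (τ (κ, 1) * u) = 2 := orderOf_eq_prime (by rw [pow_two, xx]) x1
  have xM : τ (κ, 1) * u ∉ h.M := fun e => n1 (by
    have := mul_mem e h.uM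
    rwa [mul_assoc, g.uu, mul_one] at this)
  rcases Cfsg.Agent.S0111.result S h.M h.M_le idx _ xo (mul_mem (g.tS _ _) g.uS) xM with
    ⟨X, hn, hi, hx⟩ | ⟨c, hcM⟩
  · obtain ⟨ρ, r, -⟩ := h.rho
    have yX : τ (z, 1) ∈ X := by
      have := mul_self_mem_of_index_two hi (τ (ρ, 1))
      rwa [tm, r, mul_one] at this
    have MX : h.M ≤ X := h.M_gen fun s hs e1 e2 e3 => by
      obtain ⟨c, hc⟩ := isConj_iff.1 (fus s hs e1 e2 e3).symm
      exact hc ▸ hn.conj_mem _ yX c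
    refine ⟨X, h, hc, hn, hi, le_antisymm (fun s hs => ?_) (le_inf h.M_le MX), fus⟩
    refine (n2 s hs.1).resolve_left fun e => hx (mul_mem ?_ (MX h.uM))
    exact (X.mul_mem_cancel_right hs.2).1 (MX e)
  · refine (nc κ k1 ((isConj_iff.2 ⟨c, rfl⟩).trans (fus _ hcM ?_ ?_ ?_))).elim
    · rw [cj_mul, xx]; simp
    · exact fun e => x1 (cj_one.1 e)
    · intro e
      refine h.ne_u κ 1 z z ?_
      calc τ (κ, 1) * u = c⁻¹ * (c * (τ (κ, 1) * u) * c⁻¹) * c := by group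
        _ = τ (z, z) := by rw [e, hc]; group

theorem pE (h : Hy S τ u v z X) : ∃ (S' : Sylow 2 (G ⧸ Cfsg.oddCore G))
    (τ' : K × K →* G ⧸ Cfsg.oddCore G) (u' v' : G ⧸ Cfsg.oddCore G)
    (X' : Subgroup (G ⧸ Cfsg.oddCore G)), Hy S' τ' u' v' z X' := by
  have g := h.gz.toGs
  set π := QuotientGroup.mk' (Cfsg.oddCore G) with hπ
  have su : Function.Surjective π := QuotientGroup.mk'_surjective _
  have ker : π.ker = Cfsg.oddCore G := QuotientGroup.ker_mk' _
  have od : ∀ o ∈ π.ker, (orderOf o).Coprime 2 := fun o ho => by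
    rw [ker] at ho
    exact Nat.Coprime.coprime_dvd_left (orderOf_dvd_natCard _ ho)
      (Cfsg.Agent.H2.pPrimeCore_coprime (G := G) (p := 2))
  have inj : ∀ s ∈ (S : Subgroup G), π s = 1 → s = 1 := fun s hs e => by
    obtain ⟨k, hk⟩ := IsPGroup.iff_orderOf.1 S.2 ⟨s, hs⟩
    have e1 : orderOf s = 2 ^ k := by rw [← hk, ← orderOf_coe]
    have e2 := (od s e).pow_right k
    rw [← e1, Nat.coprime_self] at e2
    exact orderOf_eq_one_iff.1 e2
  have kX : π.ker ≤ X := fun o ho => by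
    obtain ⟨k, hk⟩ := (Nat.coprime_two_right.1 (od o ho))
    have e : o = (o * o) ^ (k + 1) := by
      rw [← pow_two, ← pow_mul, show 2 * (k + 1) = orderOf o + 1 by omega, pow_succ,
        pow_orderOf_eq_one, one_mul]
    rw [e]
    exact pow_mem (mul_self_mem_of_index_two h.idx o) _
  have gz : Gz ((S.mapSurjective su : Sylow 2 _) : Subgroup (G ⧸ Cfsg.oddCore G)) (π.comp τ) (π u) (π v)
      z := by
    refine ⟨⟨g.cyc, g.four, ?_, ?_, ?_, ?_, fun a b => ?_, fun a b => ?_, fun x => ?_⟩,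
      h.gz.fin, h.gz.two, h.gz.z1, h.gz.zz⟩
    · refine (injective_iff_map_eq_one _).2 fun x e => g.inj ?_
      rw [map_one]; exact inj _ (g.tS x.1 x.2) e
    · rw [← map_mul, g.uu, map_one]
    · rw [← map_mul, g.vv, map_one]
    · rw [← map_mul, g.uv, map_mul]
    · rw [MonoidHom.comp_apply, MonoidHom.comp_apply, ← map_mul, g.ut, map_mul]
    · rw [MonoidHom.comp_apply, MonoidHom.comp_apply, ← map_mul, g.vt, map_mul]
    · rw [Sylow.coe_mapSurjective]
      constructor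
      · rintro ⟨s, hs, rfl⟩
        obtain ⟨a, b, e⟩ := (g.mem _).1 hs
        refine ⟨a, b, ?_⟩
        simp only [MonoidHom.comp_apply, ← map_mul]
        rcases e with e | e | e | e <;> rw [e] <;> tauto
      · rintro ⟨a, b, e⟩
        simp only [MonoidHom.comp_apply, ← map_mul] at e
        rcases e with e | e | e | e <;> exact ⟨_, (g.mem _).2 ⟨a, b, by tauto⟩, e.symm⟩
  have mM : gz.M = h.gz.M.map π := by
    ext x
    rw [gz.memM]
    constructor
    · rintro ⟨a, b, q, e⟩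
      simp only [MonoidHom.comp_apply, ← map_mul] at e
      rcases e with e | e | e | e <;> exact ⟨_, h.gz.memM.2 ⟨a, b, q, by tauto⟩, e.symm⟩
    · rintro ⟨s, hs, rfl⟩
      obtain ⟨a, b, q, e⟩ := h.gz.memM.1 hs
      refine ⟨a, b, q, ?_⟩
      simp only [MonoidHom.comp_apply, ← map_mul]
      rcases e with e | e | e | e <;> rw [e] <;> tauto
  refine ⟨S.mapSurjective su, π.comp τ, π u, π v, X.map π, gz, fun x => ?_, h.nml.map π su,
    (index_map_eq X su kX).trans h.idx, ?_, ?_⟩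
  · obtain ⟨x, rfl⟩ := su x
    rw [MonoidHom.comp_apply, ← map_mul, h.cen, map_mul]
  · rw [mM, Sylow.coe_mapSurjective, ← h.inf]
    refine le_antisymm ?_ (map_inf_le _ _ _)
    rintro _ ⟨⟨s, hs, rfl⟩, hx⟩
    have : s ∈ (X.map π).comap π := hx
    rw [comap_map_eq, sup_eq_left.2 kX] at this
    exact ⟨s, ⟨hs, this⟩, rfl⟩
  · rw [mM]
    rintro _ ⟨s, hs, rfl⟩ e1 e2 e3
    have hS := h.gz.M_le hs
    exact π.map_isConj (h.fus s hs (inj _ (mul_mem hS hS) (by rw [map_mul, e1]))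
      (fun e => e2 (by rw [e, map_one])) fun e => e3 (by rw [e]; rfl))

end Cfsg.Agent.H1.G2
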