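import Mathlib
import Cfsg.Agent.H5.NPC
import Cfsg.Agent.FT.BG01

/-! Glauberman: for `p ≥ 5`, `J(S)` (abelian version) controls normal `p`-complements. -/

set_option autoImplicit false
set_option linter.unusedSectionVars false
set_option linter.unusedVariables false

namespace Cfsg.Agent.H27

open Subgroup Cfsg.Agent.FT
open Cfsg.Agent.H5b (MaxAb)
open scoped commutatorElement

universe u

variable {G : Type u} [Group G] [Finite G] {S A B M R R₀ T : Subgroup G} {p : ℕ} {a b c g x y z m : G}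

theorem jm_ab (h : MaxAb 0 S A) : Ab A := H5b.elemAb_zero.1 h.ab

theorem jm_mem (h : MaxAb 0 S A) (hx : x ∈ S) (hc : x ∈ C(A)) : x ∈ A := h.mem_of_C hx (pow_zero x) hc

theorem jc_mul_left (a b x : G) : ⁅a * b, x⁆ = a * ⁅b, x⁆ * a⁻¹ * ⁅a, x⁆ := by
  simp only [commutatorElement_def]; group

theorem jc_mul_right (g y z : G) : ⁅g, y * z⁆ = ⁅g, y⁆ * (y * ⁅g, z⁆ * y⁻¹) := by
  simp only [commutatorElement_def]; group

theorem jc_sym (hab : a * b = b * a) (h : ⁅a, x⁆ * ⁅b, x⁆ = ⁅b, x⁆ * ⁅a, x⁆) : ⁅a, ⁅b, x⁆⁆ = ⁅b, ⁅a, x⁆⁆ := by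
  have e := jc_mul_left a b x
  rw [hab, jc_mul_left] at e
  have e1 : a * ⁅b, x⁆ * a⁻¹ = b * ⁅a, x⁆ * b⁻¹ * ⁅b, x⁆ * ⁅a, x⁆⁻¹ := by rw [e]; group
  have e2 : ⁅b, x⁆ * ⁅a, x⁆⁻¹ * ⁅b, x⁆⁻¹ = ⁅a, x⁆⁻¹ := by
    rw [mul_inv_eq_iff_eq_mul, mul_inv_eq_iff_eq_mul, mul_assoc, ← h]; group
  rw [commutatorElement_def a, commutatorElement_def b ⁅a, x⁆, e1, mul_assoc _ ⁅b, x⁆, mul_assoc _ (_ * _), e2]

/-- `[A, x]` -/
def jM (A : Subgroup G) (x : G) : Subgroup G := closure {m | ∃ a ∈ A, m = ⁅a, x⁆}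

theorem jM_mem (ha : a ∈ A) (x : G) : ⁅a, x⁆ ∈ jM A x := subset_closure ⟨a, ha, rfl⟩

theorem jM_le : jM A x ≤ B ↔ ∀ a ∈ A, ⁅a, x⁆ ∈ B := by
  rw [jM, closure_le]
  exact ⟨fun h a ha => h ⟨a, ha, rfl⟩, fun h _ ⟨a, ha, e⟩ => e ▸ h a ha⟩

theorem jM_nrm (A : Subgroup G) (x : G) : A ≤ N(jM A x) := fun a ha => mem_nrm_of_cj_le (cj_le_iff.2 (jM_le.2
  fun b hb => by
    rw [mem_cj, inv_inv, show a * ⁅b, x⁆ * a⁻¹ = ⁅a * b, x⁆ * ⁅a, x⁆⁻¹ by rw [jc_mul_left]; group]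
    exact mul_mem (jM_mem (mul_mem ha hb) x) (inv_mem (jM_mem ha x))))

theorem jM_cen (h : MaxAb 0 S A) (hS : jM A x ≤ S) (hM : Ab (jM A x)) (hb : b ∈ A) : ⁅b, x⁆ ∈ A ↔ b ∈ C(jM A x) := by
  have k : ∀ a ∈ A, ⁅a, ⁅b, x⁆⁆ = ⁅b, ⁅a, x⁆⁆ := fun a ha =>
    jc_sym ((jm_ab h).comm ha hb) (hM.comm (jM_mem ha x) (jM_mem hb x))
  constructor
  · intro e
    refine le_cen1.1 (jM_le.2 fun a ha => mem_cen1.2 ?_)
    rw [← commutatorElement_eq_one_iff_mul_comm, ← inv_eq_one, commutatorElement_inv, ← k a ha,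
      commutatorElement_eq_one_iff_mul_comm]
    exact (jm_ab h).comm ha e
  · intro e
    refine jm_mem h (hS (jM_mem hb x)) (mem_cen.2 fun a ha => ?_)
    rw [← commutatorElement_eq_one_iff_mul_comm, k a ha, commutatorElement_eq_one_iff_mul_comm]
    exact (mem_cen.1 e _ (jM_mem ha x)).symm

/-- Thompson's replacement -/
theorem jM_repl (h : MaxAb 0 S A) (hS : jM A x ≤ S) (hM : Ab (jM A x)) :
    MaxAb 0 S (jM A x ⊔ A ⊓ C(jM A x)) ∧ ∀ m ∈ jM A x, ∃ a ∈ A, ∃ c ∈ A, m = ⁅a, x⁆ * c := by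
  set M := jM A x with hMd
  have key : ∀ a a' : A, (a⁻¹ * a' ∈ C(M).subgroupOf A) ↔
      ((⟨_, jM_mem a.2 x⟩ : M)⁻¹ * ⟨_, jM_mem a'.2 x⟩ ∈ A.subgroupOf M) := fun a a' => by
    have hb : (a : G)⁻¹ * a' ∈ A := mul_mem (inv_mem a.2) a'.2
    have e : ⁅(a : G), x⁆⁻¹ * ⁅(a' : G), x⁆ = a * ⁅(a : G)⁻¹ * a', x⁆ * (a : G)⁻¹ := by
      have e1 := jc_mul_left (a : G) ((a : G)⁻¹ * a') x
      rw [mul_inv_cancel_left] at e1
      rw [e1, hM.comm (conj_mem (jM_nrm A x a.2) (jM_mem hb x)) (jM_mem a.2 x), inv_mul_cancel_left]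
    rw [mem_subgroupOf, mem_subgroupOf]
    show (a : G)⁻¹ * a' ∈ C(M) ↔ ⁅(a : G), x⁆⁻¹ * ⁅(a' : G), x⁆ ∈ A
    rw [e, ← jM_cen h hS hM hb, mul_mem_cancel_right (inv_mem a.2), mul_mem_cancel_left a.2]
  let φ : A ⧸ C(M).subgroupOf A → M ⧸ A.subgroupOf M :=
    Quotient.map' (fun a => ⟨_, jM_mem a.2 x⟩) fun a a' e => by
      rw [QuotientGroup.leftRel_apply] at e ⊢
      exact (key a a').1 e
  have hφ : Function.Injective φ := fun u v => by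
    induction u using QuotientGroup.induction_on
    induction v using QuotientGroup.induction_on
    exact fun e => QuotientGroup.eq.2 ((key _ _).2 (QuotientGroup.eq.1 e))
  have h1 : C(M).relIndex A ≤ A.relIndex M := Nat.card_le_card_of_injective φ hφ
  have ab : Ab (M ⊔ A ⊓ C(M)) := hM.sup ((jm_ab h).mono inf_le_left) inf_le_right
  have h2 := card_sup_mul_card_inf (A := M) (B := A ⊓ C(M)) (cents_norm inf_le_right)
  rw [show M ⊓ (A ⊓ C(M)) = A ⊓ M by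
    rw [← inf_assoc, inf_eq_left.2 (inf_le_left.trans hM.le_cen), inf_comm], ← card_inf_mul_relIndex A M,
    mul_comm (#(A ⊓ M)), mul_right_comm] at h2
  have h3 := Nat.eq_of_mul_eq_mul_right (card_pos _) h2
  have h4 := card_inf_mul_relIndex C(M) A
  rw [inf_comm] at h4
  have h5 := h.max _ (sup_le hS (inf_le_left.trans h.le)) (H5b.elemAb_zero.2 ab)
  have h6 : A.relIndex M ≤ C(M).relIndex A := by
    refine Nat.le_of_mul_le_mul_right ?_ (card_pos (A ⊓ C(M)))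
    rw [← h3, mul_comm, h4]; exact h5
  refine ⟨h.of_card_le (sup_le hS (inf_le_left.trans h.le)) (H5b.elemAb_zero.2 ab) ?_, fun m hm => ?_⟩
  · rw [h3, ← h4, mul_comm]; exact Nat.mul_le_mul_right _ h1
  · obtain ⟨u, hu⟩ := (hφ.bijective_of_nat_card_le h6).2 (QuotientGroup.mk ⟨m, hm⟩)
    induction u using QuotientGroup.induction_on with
    | H a => exact ⟨a, a.2, _, (QuotientGroup.eq.1 hu : _ ∈ A.subgroupOf M), (mul_inv_cancel_left _ _).symm⟩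


theorem jc_right (h : g * c = c * g) (y : G) : ⁅g, y * c⁆ = ⁅g, y⁆ := by
  rw [jc_mul_right, commutatorElement_eq_one_iff_mul_comm.2 h]; group

theorem jc_one (h : x * y = y * x) : ⁅x, y⁆ = 1 := commutatorElement_eq_one_iff_mul_comm.2 h

theorem jc_mem (hg : g ∈ N(R)) (hx : x ∈ R) : ⁅g, x⁆ ∈ R := mul_mem (conj_mem hg hx) (inv_mem hx)

theorem jc_mem' (hg : g ∈ N(R)) (hx : x ∈ R) : ⁅x, g⁆ ∈ R := by
  rw [← commutatorElement_inv]; exact inv_mem (jc_mem hg hx)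

/-- elements normalizing `B` and moving `w` within `B w` -/
def jSt (B : Subgroup G) (w : G) : Subgroup G where
  carrier := {a | a ∈ N(B) ∧ ⁅a, w⁆ ∈ B}
  one_mem' := ⟨one_mem _, by simp⟩
  mul_mem' := fun {a b} ha hb => ⟨mul_mem ha.1 hb.1, by
    rw [jc_mul_left]; exact mul_mem (conj_mem ha.1 hb.2) ha.2⟩
  inv_mem' := fun {a} ha => ⟨inv_mem ha.1, by
    rw [show ⁅a⁻¹, w⁆ = a⁻¹ * ⁅a, w⁆⁻¹ * a by simp only [commutatorElement_def]; group]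
    exact conj_mem' ha.1 (inv_mem ha.2)⟩

theorem jM_min (hS : Nil S) (hA : A ≤ S) (P : G → Prop) (hP : ∀ x, P x → x ∈ S ∧ jM A x ≠ ⊥) (h : P x) :
    ∃ y, P y ∧ ∀ m ∈ jM A y, ¬ P m := by
  obtain ⟨_, ⟨y, hy, rfl⟩, hmin⟩ := exists_min_fun (fun B => ∃ y, P y ∧ B = jM A y) (fun B => #B) ⟨x, h, rfl⟩
  refine ⟨y, hy, fun m hm hPm => ?_⟩
  have h1 : jM A y ≤ S := jM_le.2 fun a ha => jc_mem (norms_of_le hA ha) (hP y hy).1
  have h2 : jM A m ≤ ⁅jM A y, A⁆ := jM_le.2 fun a ha => by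
    rw [Subgroup.commutator_comm]; exact commutator_mem_commutator ha hm
  exact (card_lt (h2.trans_lt (hS.comm_lt h1 hA (jM_nrm A y) (hP y hy).2))).not_ge (hmin _ ⟨m, hPm, rfl⟩)

theorem jic_le [R.Normal] (n : ℕ) : ∀ K : Subgroup G, ⁅R, R⁆ ≤ K → K ≤ R → g ∈ N(K) →
    (∀ w ∈ R, (fun w => ⁅g, w⁆)^[n] w ∈ K) → iterCommutator R ⟪g⟫ n ≤ K := by
  have hR : ∀ g : G, g ∈ N(R) := fun g => by rw [normalizer_eq_top]; trivial
  induction n with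
  | zero => exact fun K _ _ _ h => h
  | succ n ih =>
    intro K h1 h2 h3 h4
    have hK : R ≤ N(K) := norms_of_comm_le_of_le h1 h2
    let K' : Subgroup G :=
      { carrier := {w | w ∈ R ∧ ⁅g, w⁆ ∈ K}
        one_mem' := ⟨one_mem _, by simp⟩
        mul_mem' := fun {a b} ha hb => ⟨mul_mem ha.1 hb.1, by
          rw [jc_mul_right]; exact mul_mem ha.2 (conj_mem (hK ha.1) hb.2)⟩
        inv_mem' := fun {a} ha => ⟨inv_mem ha.1, by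
          rw [show ⁅g, a⁻¹⁆ = a⁻¹ * ⁅g, a⁆⁻¹ * a by simp only [commutatorElement_def]; group]
          exact conj_mem' (hK ha.1) (inv_mem ha.2)⟩ }
    have hi : ∀ k, ∀ w ∈ R, (fun w => ⁅g, w⁆)^[k] w ∈ R := fun k => by
      induction k with
      | zero => exact fun _ h => h
      | succ k ih => exact fun w hw => by rw [Function.iterate_succ_apply']; exact jc_mem (hR g) (ih w hw)
    have h5 := ih K' (h1.trans fun x hx => ⟨h2 hx, jc_mem h3 hx⟩) (fun x hx => hx.1)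
      (mem_nrm.2 fun x hx => ⟨conj_mem (hR g) hx.1, by
        rw [show ⁅g, g * x * g⁻¹⁆ = g * ⁅g, x⁆ * g⁻¹ by simp only [commutatorElement_def]; group]
        exact conj_mem h3 hx.2⟩)
      (fun w hw => ⟨hi n w hw, by have := h4 w hw; rwa [Function.iterate_succ_apply'] at this⟩)
    refine commutator_le.2 fun w hw a ha => ?_
    rw [← commutatorElement_inv]
    exact inv_mem ((zpowers_le.2 (show g ∈ jSt K w from ⟨h3, (h5 hw).2⟩)) ha).2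

theorem jp_D [R.Normal] (hZ : ⁅R, R⁆ ≤ C(R)) (hx : x ∈ R) (hy : y ∈ R) (g : G) :
    ⁅g, ⁅x, y⁆⁆ = ⁅⁅g, x⁆, ⁅g, y⁆⁆ * ⁅⁅g, x⁆, y⁆ * ⁅x, ⁅g, y⁆⁆ := by
  have hR : ∀ g : G, g ∈ N(R) := fun g => by rw [normalizer_eq_top]; trivial
  have c : ∀ {a b u : G}, a ∈ R → b ∈ R → u ∈ R → u * ⁅a, b⁆ * u⁻¹ = ⁅a, b⁆ := fun ha hb hu => by
    rw [mem_cen.1 (hZ (commutator_mem_commutator ha hb)) _ hu, mul_inv_cancel_right]
  have hx' := jc_mem (hR g) hx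
  have hy' := jc_mem (hR g) hy
  have m : ∀ {a b}, a ∈ R → b ∈ R → ⁅a, b⁆ ∈ R := fun ha hb => jc_mem (hR _) hb
  have e : g * ⁅x, y⁆ * g⁻¹ = ⁅⁅g, x⁆ * x, ⁅g, y⁆ * y⁆ := by simp only [commutatorElement_def]; group
  rw [commutatorElement_def g, e, jc_mul_left, c hx (mul_mem hy' hy) hx', jc_mul_right x, c hx hy hy',
    jc_mul_right ⁅g, x⁆, c hx' hy hy']
  have e1 := mem_cen.1 (hZ (commutator_mem_commutator hx hy)) _ (mul_mem (m hx' hy') (m hx' hy))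
  have e2 := mem_cen.1 (hZ (commutator_mem_commutator hx hy')) _ (mul_mem (m hx' hy') (m hx' hy))
  rw [mul_assoc ⁅x, ⁅g, y⁆⁆, ← e1, mul_assoc, mul_inv_cancel_right, e2]

theorem jp_level (hS : Nil S) (hT : T ≤ S) (hRT : R ≤ T) (h0 : R₀ ≤ R) [R.Normal] [R₀.Normal] [T.Normal]
    (h1 : ⁅R, T⁆ ≤ R₀) (h2 : R₀ ≤ C(R)) (hcyc : Cyc (S /ₛ T))
    (hdeg : ∀ g ∈ S, g ∉ T → ∃ w ∈ R, ⁅g, ⁅g, ⁅g, ⁅g, w⁆⁆⁆⁆ ∉ R₀) (hA : MaxAb 0 S A) : A ≤ T := by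
  have hN : ∀ (K : Subgroup G) [K.Normal] (g : G), g ∈ N(K) := fun K _ g => by rw [normalizer_eq_top]; trivial
  by_contra hn
  obtain ⟨A, ⟨hA, hn⟩, hmax⟩ := exists_max_fun (fun A => MaxAb 0 S A ∧ ¬ A ≤ T) (fun A => #(A ⊓ R)) ⟨hA, hn⟩
  have hRS := hRT.trans hT
  have hMR : ∀ x ∈ R, jM A x ≤ R := fun x hx => jM_le.2 fun a _ => jc_mem (hN R a) hx
  have R1 : ∀ x ∈ R, Ab (jM A x) → A ⊓ R ≤ C(jM A x) → ¬ jM A x ≤ A → jM A x ⊔ A ⊓ C(jM A x) ≤ T :=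
    fun x hx h3 h4 h5 => by
      by_contra h6
      refine (card_lt (lt_of_le_of_ne (le_inf ((le_inf inf_le_left h4).trans le_sup_right) inf_le_right)
        fun e => h5 ?_)).not_ge (hmax _ ⟨(jM_repl hA ((hMR x hx).trans hRS) h3).1, h6⟩)
      exact (le_inf le_sup_left (hMR x hx)).trans (e.ge.trans inf_le_left)
  set Z := R ⊓ C(T) with hZd
  have hZN : ∀ g : G, g ∈ N(Z) := fun g => norms_subcent (X := ⊤) (fun g _ => hN R g) (fun g _ => hN T g) trivial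
  have hZab : Ab Z := ab_iff.2 (inf_le_right.trans (cen_anti (inf_le_left.trans hRT)))
  have hRR : ⁅R, R⁆ ≤ Z := by
    refine le_inf (commutator_le_left _ _) (commutator_eq_bot_iff_le_centralizer.1 (three_subgroup ?_ ?_))
    · exact commutator_eq_bot_iff_le_centralizer.2 (h1.trans h2)
    · rw [Subgroup.commutator_comm T]; exact commutator_eq_bot_iff_le_centralizer.2 (h1.trans h2)
  have quad : ∀ z ∈ Z, jM A z ≤ A := fun z hz => by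
    by_contra h5
    have h3 : jM A z ≤ Z := jM_le.2 fun a _ => jc_mem (hZN a) hz
    have h4 : jM A z ≤ ⁅Z, A⁆ := jM_le.2 fun a ha => by
      rw [Subgroup.commutator_comm]; exact commutator_mem_commutator ha hz
    have h6 := R1 z hz.1 (hZab.mono h3) (cen_comm.1 (h3.trans (inf_le_right.trans (cen_anti (inf_le_right.trans hRT))))) h5
    have h7 := (jM_repl hA ((hMR z hz.1).trans hRS) (hZab.mono h3)).1
    refine h5 (h4.trans ((hS.eq_bot_of_le_comm (comm_le_of_le (inf_le_left.trans hRS) hA.le) hA.le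
      (commutator_le.2 fun y hy a ha => ?_)).le.trans bot_le))
    obtain ⟨m, hm, c, hc, rfl⟩ := (mem_sup_norm (cents_norm inf_le_right)).1
      (jm_mem h7 (hRS hy.1) (cen_anti h6 hy.2))
    rw [jc_mul_left, jc_one ((jm_ab hA).comm hc.1 ha), mul_one, mul_inv_cancel, one_mul]
    exact commutator_mem_commutator (h4 hm) ha
  obtain ⟨g, hg, hAg⟩ := (cyc_quo_iff fun a _ => hN T a).1 (hcyc.mono (quo_mono T hA.le))
  have hgT : g ∉ T := fun h => hn (hAg.trans (sup_le le_rfl (zpowers_le.2 h)))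
  have quad2 : ∀ z ∈ Z, ⁅g, ⁅g, z⁆⁆ = 1 := fun z hz => jc_one ((jm_ab hA).comm hg (quad z hz (jM_mem hg z)))
  have dZ : ∀ z ∈ Z, ∀ z' ∈ Z, ⁅g, z * z'⁆ = ⁅g, z⁆ * ⁅g, z'⁆ := fun z hz z' hz' => by
    rw [jc_mul_right, hZab.comm hz (jc_mem (hZN g) hz'), mul_inv_cancel_right]
  obtain ⟨w, hw⟩ := hdeg g (hA.le hg) hgT
  obtain ⟨v0, ⟨hv0, hv4'⟩, hv⟩ := jM_min hS hA.le (fun w => w ∈ R ∧ ⁅g, ⁅g, ⁅g, ⁅g, w⁆⁆⁆⁆ ∉ R₀)
    (fun x hx => ⟨hRS hx.1, fun e => hx.2 (by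
      rw [mem_bot.1 (e.le (jM_mem hg x))]; simp)⟩) hw
  have dR : ∀ {x}, x ∈ R → ⁅g, x⁆ ∈ R := fun hx => jc_mem (hN R g) hx
  have hv5 : ⁅g, ⁅g, ⁅g, ⁅g, ⁅g, v0⁆⁆⁆⁆⁆ ∈ R₀ := by
    by_contra h; exact hv _ (jM_mem hg v0) ⟨dR hv0, h⟩
  have D := fun {x y} (hx : x ∈ R) (hy : y ∈ R) => jp_D (hRR.trans (inf_le_right.trans (cen_anti hRT))) hx hy g
  have Q : ∀ {x y}, x ∈ R → y ∈ R → ⁅g, ⁅g, ⁅x, y⁆⁆⁆ = 1 := fun hx hy => quad2 _ (hRR (commutator_mem_commutator hx hy))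
  have hc : ∀ c ∈ A ⊓ R, ∀ y ∈ R, c ∈ C[⁅g, ⁅g, y⁆⁆] := fun c hc y hy => by
    have k : ∀ y ∈ R, ⁅g, ⁅c, y⁆⁆ = ⁅c, ⁅g, y⁆⁆ := fun y hy => by
      rw [D hc.2 hy, jc_one ((jm_ab hA).comm hg hc.1)]; simp
    rw [mem_cen1, ← commutatorElement_eq_one_iff_mul_comm, ← k _ (dR hy), ← k _ hy, Q hc.2 hy]
  have hv1 := dR hv0
  have hv2 := dR hv1
  have hv3 := dR hv2
  have hv4 := dR hv3
  have hc2 := fun c h => hc c h _ hv0
  have hc3 := fun c h => hc c h _ hv1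
  have hc4 := fun c h => hc c h _ hv2
  generalize e1 : ⁅g, v0⁆ = v1 at *
  generalize e2 : ⁅g, v1⁆ = v2 at *
  generalize e3 : ⁅g, v2⁆ = v3 at *
  generalize e4 : ⁅g, v3⁆ = v4 at *
  generalize e5 : ⁅g, v4⁆ = v5 at *
  have z5 : ∀ {x}, x ∈ R → ⁅x, v5⁆ = 1 := fun hx => jc_one (mem_cen.1 (h2 hv5) _ hx)
  have cZ : ∀ {x y}, x ∈ R → y ∈ R → ⁅x, y⁆ ∈ Z := fun hx hy => hRR (commutator_mem_commutator hx hy)
  have D4 : ∀ {x}, x ∈ R → ⁅g, ⁅x, v4⁆⁆ = ⁅⁅g, x⁆, v4⁆ := fun hx => by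
    rw [D hx hv4, e5, z5 hx, z5 (dR hx), one_mul, mul_one]
  have f24 : ⁅v2, v4⁆ = 1 := by rw [← e2, ← D4 hv1, ← e1, ← D4 hv0, Q hv0 hv4]
  have f34 : ⁅v3, v4⁆ = 1 := by rw [← e3, ← D4 hv2, ← e2, ← D4 hv1, Q hv1 hv4]
  have d13 : ⁅g, ⁅v1, v3⁆⁆ = ⁅v2, v3⁆ * ⁅v1, v4⁆ := by rw [D hv1 hv3, e2, e4, f24, one_mul]
  have k1 := Q hv1 hv2
  rw [D hv1 hv2, e2, e3, commutatorElement_self, mul_one, dZ _ (cZ hv2 hv3) _ (cZ hv1 hv3), d13, D hv2 hv3, e3, e4,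
    f34, f24, commutatorElement_self, one_mul, one_mul, one_mul] at k1
  have k2 := Q hv0 hv3
  rw [D hv0 hv3, e1, e4, dZ _ (mul_mem (cZ hv1 hv4) (cZ hv1 hv3)) _ (cZ hv0 hv4), dZ _ (cZ hv1 hv4) _ (cZ hv1 hv3),
    D4 hv1, D4 hv0, e1, e2, f24, d13, k1, one_mul, one_mul] at k2
  rw [k2, mul_one] at k1
  set W := R ⊓ (C[v2] ⊓ C[v3] ⊓ C[v4]) with hW
  have sw : ∀ {x y : G}, ⁅x, y⁆ = 1 → x ∈ C[y] ∧ y ∈ C[x] := fun h =>
    ⟨mem_cen1.2 (commutatorElement_eq_one_iff_mul_comm.1 h),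
      mem_cen1.2 (commutatorElement_eq_one_iff_mul_comm.1 h).symm⟩
  have n2 : v2 ∈ W ⊓ C(W) := ⟨⟨hv2, ⟨mem_cen1.2 rfl, (sw k1).1⟩, (sw f24).1⟩,
    le_cen1.1 (inf_le_right.trans (inf_le_left.trans inf_le_left))⟩
  have n3 : v3 ∈ W ⊓ C(W) := ⟨⟨hv3, ⟨(sw k1).2, mem_cen1.2 rfl⟩, (sw f34).1⟩,
    le_cen1.1 (inf_le_right.trans (inf_le_left.trans inf_le_right))⟩
  have n4 : v4 ∈ W ⊓ C(W) := ⟨⟨hv4, ⟨(sw f24).2, (sw f34).2⟩, mem_cen1.2 rfl⟩,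
    le_cen1.1 (inf_le_right.trans inf_le_right)⟩
  have n0 : R₀ ≤ W ⊓ C(W) := le_inf (le_inf h0 (le_inf (le_inf (h2.trans (cen_le_cen1 hv2))
    (h2.trans (cen_le_cen1 hv3))) (h2.trans (cen_le_cen1 hv4)))) (h2.trans (cen_anti inf_le_left))
  have gW : g ∈ N(W) := by
    have k : ∀ {x u : G}, x ∈ C[u] → x ∈ C[⁅g, u⁆] → g⁻¹ * x * g⁻¹⁻¹ ∈ C[u] := fun {x u} h h' => by
      have e : g * u * g⁻¹ = ⁅g, u⁆ * u := by simp only [commutatorElement_def]; group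
      have e' : x * (g * u * g⁻¹) = (g * u * g⁻¹) * x := by
        rw [e, ← mul_assoc, mem_cen1.1 h', mul_assoc, mem_cen1.1 h, mul_assoc]
      rw [mem_cen1]
      calc g⁻¹ * x * g⁻¹⁻¹ * u = g⁻¹ * (x * (g * u * g⁻¹)) * g := by group
        _ = _ := by rw [e']; group
    rw [← inv_mem_iff]
    refine mem_nrm.2 fun x hx => ⟨conj_mem (hN R _) hx.1, ⟨k hx.2.1.1 (e3 ▸ hx.2.1.2), k hx.2.1.2 (e4 ▸ hx.2.2)⟩,
      k hx.2.2 ?_⟩
    rw [e5]; exact (sw (z5 hx.1)).1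
  have hM : jM A v1 ≤ W ⊓ C(W) := jM_le.2 fun a ha => ((hAg.trans (sup_le (fun t ht => ?_) (zpowers_le.2 ?_)) :
    A ≤ jSt (W ⊓ C(W)) v1) ha).2
  rotate_left
  · refine ⟨norms_of_comm_le_of_le (h1.trans n0) (inf_le_left.trans inf_le_left) ht, n0 (h1 ?_)⟩
    rw [Subgroup.commutator_comm]; exact commutator_mem_commutator ht hv1
  · exact ⟨norms_subcent (zpowers_le.2 gW) (zpowers_le.2 gW) (mem_zpowers g), e2 ▸ n2⟩
  have hMab : Ab (jM A v1) := ab_iff.2 (hM.trans (inf_le_right.trans (cen_anti (hM.trans inf_le_left))))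
  have hMc : A ⊓ R ≤ C(jM A v1) := cen_comm.1 (hM.trans (inf_le_right.trans (cen_anti fun c h =>
    ⟨h.2, ⟨hc2 c h, hc3 c h⟩, hc4 c h⟩)))
  have hrep := (jM_repl hA ((hMR _ hv1).trans hRS) hMab).2
  have m2 : v2 ∈ jM A v1 := e2 ▸ jM_mem hg v1
  have dM : ∀ {a m}, a ∈ A → m ∈ jM A v1 → ⁅a, m⁆ ∈ jM A v1 := fun ha hm => jc_mem (jM_nrm A v1 ha) hm
  obtain ⟨a, ha, c, hc', e⟩ := hrep v3 (e3 ▸ dM hg m2)
  have cm : ∀ {a b}, a ∈ A → b ∈ A → a * b = b * a := fun ha hb => (jm_ab hA).comm ha hb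
  have act : ∀ m ∈ jM A v1, ⁅a, m⁆ = ⁅g, ⁅g, m⁆⁆ := fun m hm => by
    obtain ⟨b, hb, c', hc'', rfl⟩ := hrep m hm
    rw [jc_right (cm ha hc''), jc_right (cm hg hc''), jc_sym (cm ha hb) (hMab.comm (jM_mem ha _) (jM_mem hb _)),
      jc_sym (cm hg hb) (hMab.comm (jM_mem hg _) (jM_mem hb _)), e2,
      jc_sym (cm hg hb) (hMab.comm (dM hg m2) (dM hb m2)), e3, e, jc_right (cm hb hc')]
  obtain ⟨y, ⟨hy, hy'⟩, hy2⟩ := jM_min hS hA.le (fun m => m ∈ jM A v1 ∧ ¬ jM A m ≤ A)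
    (fun x hx => ⟨hRS (hMR _ hv1 hx.1), fun e => hx.2 (e.le.trans bot_le)⟩)
    (⟨m2, fun h => hv4' (by rw [← e4, ← e3, jc_one (cm hg (h (jM_mem hg v2)))]; exact one_mem _)⟩ :
      v2 ∈ jM A v1 ∧ ¬ jM A v2 ≤ A)
  have hyM : jM A y ≤ jM A v1 := jM_le.2 fun a ha => dM ha hy
  have haT : a ∈ T := R1 y (hMR _ hv1 hy) (hMab.mono hyM) (hMc.trans (cen_anti hyM)) hy' (mem_sup_right ⟨ha,
    mem_cen.2 fun m hm => by
      have : jM A m ≤ A := by by_contra h; exact hy2 m hm ⟨hyM hm, h⟩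
      rw [eq_comm, ← commutatorElement_eq_one_iff_mul_comm, act m (hyM hm), jc_one (cm hg (this (jM_mem hg m)))]⟩)
  refine hv4' ?_
  rw [← e4, e, jc_right (cm hg hc')]
  refine jc_mem (hN R₀ g) (h1 ?_)
  rw [Subgroup.commutator_comm]; exact commutator_mem_commutator haT hv1

end Cfsg.Agent.H27
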