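import Mathlib
import Cfsg.Agent.H27.JNpc

/-! Glauberman: for `p ≥ 5`, `J(S)` (abelian version) controls normal `p`-complements, part 2. -/

set_option autoImplicit false
set_option linter.unusedSectionVars false
set_option linter.unusedVariables false

namespace Cfsg.Agent.H27

open Subgroup Cfsg.Agent.FT
open Cfsg.Agent.H5b (MaxAb)
open scoped commutatorElement

universe u

variable {G : Type u} [Group G] [Finite G] {S A B D K H T : Subgroup G} {p : ℕ} [hp : Fact p.Prime] {a : G}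

theorem jp_mid (h5 : 5 ≤ p) (hS : H18.SylIn p S ⊤) (hm : IsCoatom S) (hc : C(pCore p G) ≤ pCore p G)
    (hcyc : Cyc (S /ₛ pCore p G)) (hA : MaxAb 0 S A) : A ≤ pCore p G := by
  have hN : ∀ (K : Subgroup G) [K.Normal] (X : Subgroup G), X ≤ N(K) := fun K _ X => by
    rw [normalizer_eq_top]; exact le_top
  have := H21.normal_pCore (p := p) (G := G)
  have hT := H21.pCore_le_syl hS
  have hTp : IsPGroup p (pCore p G) := H22.pgrp_pCore
  set T := pCore p G
  set L := pResidualOf p (⊤ : Subgroup G)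
  have : L.Normal := H22.normal_of_top_le_N (H22.le_N_pResidualOf _)
  have hL : ¬ L ≤ C(T) := fun h =>
    hm.1 (top_le_iff.1 ((H22.pResidualOf_sup_syl hS).ge.trans (sup_le (h.trans (hc.trans hT)) le_rfl)))
  obtain ⟨R, hRT, ⟨hRn, hRL⟩, hmin⟩ := exists_min (fun R => R.Normal ∧ ¬ L ≤ C(R)) ⟨‹T.Normal›, hL⟩
  have hlt : ∀ N : Subgroup G, N.Normal → N ≤ R → N ≠ R → N ≤ R ⊓ C(L) := fun N h1 h2 h3 =>
    le_inf h2 (cen_comm.1 (by by_contra h; exact h3 (hmin N ⟨h1, h⟩ h2)))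
  have h0 : (R ⊓ C(L)).Normal := nml_top_iff.1 ((nml_top_iff.2 hRn).subcent (hN L ⊤))
  have hne : R ⊓ C(L) < R := lt_of_le_of_ne inf_le_left fun e => hRL (cen_comm.1 (e.ge.trans inf_le_right))
  have hRL' : ⁅R, L⁆ = R := by
    by_contra h
    exact hRL (H22.res_le_C_of_comm_comm (hTp.to_le hRT) (hN R ⊤) (commutator_eq_bot_iff_le_centralizer.2
      ((hlt _ inferInstance (commutator_le_left _ _) h).trans inf_le_right)))
  have hnil : Nil S := ((pGrp_iff hp.out).2 hS.isP).nil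
  have h1 : ⁅R, T⁆ ≤ R ⊓ C(L) := hlt _ inferInstance (commutator_le_left _ _)
    (hnil.comm_lt (hRT.trans hT) hT (hN R T) (ne_bot_of_gt hne)).ne
  refine jp_level hnil hT hRT inf_le_left h1 ?_ hcyc (fun g hg hgT => ?_) hA
  · rw [cen_comm, ← commutator_eq_bot_iff_le_centralizer]
    conv_lhs => enter [1]; rw [← hRL']
    refine three_subgroup ?_ (commutator_eq_bot_iff_le_centralizer.2 ?_)
    · rw [commutator_eq_bot_iff_le_centralizer.2 (cen_comm.1 inf_le_right), commutator_bot_left]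
    · rw [Subgroup.commutator_comm]
      exact ((commutator_mono le_rfl (inf_le_left.trans hRT)).trans h1).trans inf_le_right
  · by_contra h
    simp only [not_exists, not_and, not_not] at h
    have h2 := jic_le (g := g) 4 (R ⊓ C(L)) ((commutator_mono le_rfl hRT).trans h1) inf_le_left (hN _ ⊤ trivial) h
    have h3 := H5b.chief_central_of_coatom hS hm hg hgT (U := R) (V := R ⊓ C(L)) ⟨hne, hRn, h0, fun N h1 h2 h3 => by
      by_cases e : N = R
      · exact Or.inr e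
      · exact Or.inl (le_antisymm (hlt N h1 h3 e) h2)⟩ (hTp.to_le hRT)
      ((H21.ic_anti (hN R _) (by omega)).trans h2)
    exact hne.not_ge (hRL'.ge.trans ((commutator_mono le_rfl le_top).trans h3))

theorem jp_rel (h5 : 5 ≤ p) (hS : Syl p S H) (hm : S ⋖ H) (hT : T ⊴ H) (hTp : PGrp p T) (hc : C(T) ≤ T)
    (hD : D ⊴ H) (hDp : PGrp p D) (ha : a ∈ S) (h : S ≤ D ⊔ ⟪a⟫) (hA : MaxAb 0 S A) : A ≤ O[{p}](H) := by
  have hi := H.subtype_injective
  have e := pcore_singleton hp.out H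
  have := H21.normal_pCore (p := p) (G := H)
  have h1 : A.subgroupOf H ≤ pCore p H := by
    refine jp_mid h5 (H21.sylIn_subgroupOf ((syl_iff_sylIn hp.out).1 hS)) ⟨fun e => ?_, fun K hK => ?_⟩ ?_ ?_ ?_
    · exact hm.lt.not_ge (subgroupOf_eq_top.1 e)
    · have h2 : S < K.map H.subtype := by
        rw [← map_so hS.le]; exact (map_lt_map_iff_of_injective hi).2 hK
      apply map_injective hi
      rw [map_subtype_top]
      exact ((map_subtype_le K).eq_or_lt).resolve_right (hm.2 h2)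
    · rw [← map_le_map_iff_of_injective hi, map_subtype_cen, ← e]
      exact inf_le_right.trans ((cen_anti (pcore_max hTp hT)).trans (hc.trans (pcore_max hTp hT)))
    · refine (cyc_quo_iff (by rw [normalizer_eq_top]; exact le_top)).2 ⟨⟨a, hS.le ha⟩, ha, ?_⟩
      rw [← map_le_map_iff_of_injective hi, map_so hS.le, Subgroup.map_sup, ← e, MonoidHom.map_zpowers]
      exact h.trans (sup_le_sup_right (pcore_max hDp hD) _)
    · rw [← H5b.maxAb_map_inj hi, map_so hS.le, map_so (hA.le.trans hS.le)]; exact hA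
  rw [e, ← map_so (hA.le.trans hS.le)]
  exact map_mono h1

theorem jr_ab (hn : S ≤ N(K)) (hc : Cop K S) (hS : PGrp p S)
    (hmin : ∀ Q, Q ≤ K → S ≤ N(Q) → Q ≠ ⊥ → Q = K) : Ab K := by
  by_cases h0 : K = ⊥
  · rw [h0, ab_iff]; exact bot_le
  obtain ⟨q, hq, hd⟩ := exists_prime_dvd_card h0
  obtain ⟨Q, hQ, hQn⟩ := coprime_Sylow_exists q hn hc (Or.inr hS.sol)
  have e := hmin Q hQ.le hQn fun e => (hQ.syl_eq_bot_iff hq).1 e hd
  subst e
  have e := hmin Z(Q) inf_le_left (norms_center hn) (hQ.pi.center_ne_bot h0)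
  exact ab_iff.2 (e.ge.trans inf_le_right)

theorem jr_L (hK : Ab K) (hn : A ≤ N(K)) (hc : Cop K A) (hA : Ab A) (h : ¬ A ≤ C(K)) :
    ∃ L B, L ≤ K ∧ B ≤ A ∧ Cyc (A /ₛ B) ∧ L ≤ C(B) ∧ A ≤ N(L) ∧ ⁅L, A⁆ = L ∧ L ≠ ⊥ ∧
      ∀ L', L' ≤ L → A ≤ N(L') → L' ≠ ⊥ → L' = L := by
  obtain ⟨B, hB, hcy, hB'⟩ : ∃ B, B ≤ A ∧ Cyc (A /ₛ B) ∧ ¬ K ⊓ C(B) ≤ C(A) := by
    by_contra h'
    simp only [not_exists, not_and, not_not] at h'
    exact h (cen_comm.1 (coprime_abelian_gen_cent hA hn hc h'))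
  have hn1 := norms_subcent hn (hA.norms hB)
  have hti := coprime_abel_cent_TI hn1 (hc.mono_left inf_le_left) (hK.mono inf_le_left)
  obtain ⟨L, hL, ⟨h1, h2⟩, hmin⟩ := exists_min (fun L => A ≤ N(L) ∧ L ≠ ⊥)
    (⟨normsR hn1 (norms_of_le le_rfl), fun e => hB' (commutator_eq_bot_iff_le_centralizer.1 e)⟩ :
      A ≤ N(⁅K ⊓ C(B), A⁆) ∧ ⁅K ⊓ C(B), A⁆ ≠ ⊥)
  have hL' := hL.trans (comm_le_left hn1)
  refine ⟨L, B, hL'.trans inf_le_left, hB, hcy, hL'.trans inf_le_right, h1, hmin _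
    ⟨normsR h1 (norms_of_le le_rfl), fun e => h2 (le_bot_iff.1 (hti ▸ le_inf hL
      (commutator_eq_bot_iff_le_centralizer.1 e)))⟩ (comm_le_left h1), h2, fun L' h3 h4 h5 => hmin L' ⟨h4, h5⟩ h3⟩

theorem jp_top (h5 : 5 ≤ p) [(pCore p G).Normal] (hc : C(pCore p G) ≤ pCore p G)
    (hq : HasNormalPComplement p (G ⧸ pCore p G)) (hS : H18.SylIn p S ⊤) (hm : IsCoatom S) (hA : MaxAb 0 S A) :
    A ≤ pCore p G := by
  have hT := H21.pCore_le_syl hS
  have hTp : PGrp p (pCore p G) := (pGrp_iff hp.out).2 H22.pgrp_pCore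
  set f := QuotientGroup.mk' (pCore p G)
  have hf : Function.Surjective f := QuotientGroup.mk'_surjective _
  have hk : f.ker = pCore p G := QuotientGroup.ker_mk' _
  have pre : ∀ U, PGrp p U → PGrp p (U.comap f) := fun U hU =>
    (pGrp_iff hp.out).2 (((pGrp_iff hp.out).1 hU).comap_of_ker_isPGroup f (by rw [hk]; exact H22.pgrp_pCore))
  have cm : ∀ {U : Subgroup G}, pCore p G ≤ U → (U.map f).comap f = U := fun h => comap_map_eq_self (hk.le.trans h)
  have hS1 : Syl p (S.map f) ⊤ := by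
    have := ((syl_iff_sylIn hp.out).2 hS).map f
    rwa [← MonoidHom.range_eq_map, MonoidHom.range_eq_top.2 hf] at this
  have sd := ((npc_top_iff hp.out).2 hq).sd hS1
  have hKp := pcore_pi {p}ᶜ (⊤ : Subgroup (G ⧸ pCore p G))
  have hKn := pcore_nrm {p}ᶜ (⊤ : Subgroup (G ⧸ pCore p G))
  generalize O[{p}ᶜ]((⊤ : Subgroup (G ⧸ pCore p G))) = K at sd hKp hKn
  have hK : Ab K := jr_ab sd.nrm (hKp.cop' hS1.pi) hS1.pi fun Q h1 h2 h3 => by
    rcases hm.le_iff.1 (map_le_iff_le_comap.1 (le_sup_right : S.map f ≤ Q ⊔ S.map f)) with e | e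
    · have e' : Q ⊔ S.map f = ⊤ := comap_injective hf (e.trans (comap_top f).symm)
      have := inf_sup_left h2 h1
      rw [e', inf_top_eq, sd.inf, sup_bot_eq] at this
      exact this.symm
    · refine (h3 (le_bot_iff.1 (sd.inf ▸ le_inf h1 ?_))).elim
      rw [← e, map_comap_eq_self_of_surjective hf]; exact le_sup_left
  by_contra hn
  have hA1 : A.map f ≤ S.map f := map_mono hA.le
  have hAp := hS1.pi.mono hA1
  obtain ⟨L, B, hLK, hB, hcy, hLB, hLn, hLA, hL0, hmin⟩ := jr_L hK (le_top.trans hKn) (hKp.cop' hAp)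
    ((jm_ab hA).map f) fun h => hn (by
      have h1 : S.map f ⊓ C(K) ⊴ ⊤ := ⟨le_top, by
        rw [← sd.sup]
        exact sup_le (cents_norm (cen_comm.1 inf_le_right))
          (norms_subcent (norms_of_le le_rfl) sd.nrm)⟩
      have h2 := H22.le_pCore (nml_top_iff.1 (h1.comap f)) ((pGrp_iff hp.out).1 (pre _ (hS1.pi.mono inf_le_left)))
      exact (map_le_iff_le_comap.1 (le_inf hA1 h)).trans h2)
  have hLp := hKp.mono hLK
  have hi := (hLp.cop' hAp).inf
  have hTA : ∀ U, pCore p G ≤ comap f U := fun U => hk.ge.trans (ker_le_comap f U)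
  have hcov : (A.map f).comap f ⋖ (L ⊔ A.map f).comap f := by
    refine ⟨(comap_lt_comap_of_surjective hf).2 (lt_of_le_of_ne le_sup_right fun e =>
      hL0 (le_bot_iff.1 (hi ▸ le_inf le_rfl (le_sup_left.trans e.ge)))), fun H' h1 h2 => ?_⟩
    have e0 := cm ((hTA _).trans h1.le)
    rw [← e0, comap_lt_comap_of_surjective hf] at h1 h2
    have h3 := inf_sup_right hLn h1.le
    rw [inf_eq_left.2 h2.le] at h3
    by_cases e : H'.map f ⊓ L = ⊥
    · rw [e, bot_sup_eq] at h3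
      exact h1.ne h3.symm
    · rw [hmin _ inf_le_right (normsI (norms_of_le h1.le) hLn) e] at h3
      exact h2.ne h3
  have hnp : ∀ Q : Subgroup G, PGrp p Q → ¬ L ≤ Q.map f := fun Q hQ h => hL0 (((hQ.map f).mono h).eq_bot hLp)
  have hsyl : Syl p ((A.map f).comap f) ((L ⊔ A.map f).comap f) :=
    syl_of_max (pre _ hAp) hcov.le fun Q h1 h2 h3 => (hcov.eq_or_eq h2 h3).resolve_right fun e => hnp Q h1 (by
      rw [e, map_comap_eq_self_of_surjective hf]; exact le_sup_left)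
  obtain ⟨_, ⟨a, ha, rfl⟩, hcy'⟩ := (cyc_quo_iff (((jm_ab hA).map f).norms hB)).1 hcy
  have hBn : B ⊴ L ⊔ A.map f := ⟨hB.trans le_sup_right, sup_le (cents_norm hLB) (((jm_ab hA).map f).norms hB)⟩
  have h1 := jp_rel (a := a) h5 hsyl hcov ⟨hTA _, by rw [normalizer_eq_top]; exact le_top⟩ hTp hc (hBn.comap f)
    (pre _ (hAp.mono hB)) (le_comap_map _ _ ha) (by
      rw [← cm ((hTA B).trans le_sup_left), Subgroup.map_sup, map_comap_eq_self_of_surjective hf,
        MonoidHom.map_zpowers]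
      exact comap_mono hcy')
    (hA.mono (by rw [← cm hT]; exact comap_mono hA1) (le_comap_map _ _))
  refine hnp _ (pcore_pi {p} ((L ⊔ A.map f).comap f)) (hLA.ge.trans ?_)
  have h2 := (pcore_nml {p} ((L ⊔ A.map f).comap f)).map f
  rw [map_comap_eq_self_of_surjective hf] at h2
  exact (commutator_mono le_rfl (map_mono h1)).trans (comm_le_right (le_sup_left.trans h2.nrm))

theorem hasNPC_of_J (h5 : 5 ≤ p) (hS : H18.SylIn p S ⊤) (hN : HasNormalPComplement p N(H5b.Jn 0 S)) :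
    HasNormalPComplement p G :=
  H5b.hasNPC_of_pair (G := G) (H5b.isFn_Jn 0) (H5b.isFn_Jn 0)
    (fun _ _ _ _ h h' => H5b.Jn_ne_bot h h' (Or.inl rfl)) (fun _ _ _ _ h h' => H5b.Jn_ne_bot h h' (Or.inl rfl))
    (fun X _ _ _ _ hc hq S hS hm => Or.inl (H5b.Jn_normal_of_le hS
      (H5b.Jn_le_iff.2 fun A hA => jp_top h5 hc hq hS hm hA))) G
    (H21.Sec.refl G) S hS hN (H4.hasNPC_of_le (cen_le_nrm _) hN)

end Cfsg.Agent.H27
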