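import Cfsg.Agent.H1.PLow
import Cfsg.Agent.H1.Prim

/-! Groups whose maximal subgroups are `p`-nilpotent or of prime index. -/

set_option autoImplicit false

namespace Cfsg.Agent.H27

open Subgroup Cfsg.Agent.FT Cfsg.Agent.H1

universe u

theorem npc_res {p : ℕ} (hp : p.Prime) : ∀ (n : ℕ) {G : Type u} [Group G] [Finite G] {H : Subgroup G},
    #H = n → PSol p H → (∀ M, MaxIn M H → NPC p M ∨ (M.relIndex H).Prime) →
    NPC p (piGen {p} (piGen {p}ᶜ H)) := by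
  intro n
  induction n using Nat.strong_induction_on with
  | _ n ih =>
  intro G _ _ H hn hs h
  set L := piGen {p} (piGen {p}ᶜ H) with hL
  have hLH : L ⊴ H := ⟨(piGen_le _ _).trans (piGen_le _ _), norms_piGen _ (piGen_nml _ _).2⟩
  have hq : ∀ K, K ⊴ H → K ≠ ⊥ → NPC p (L /ₛ K) := by
    intro K hK h1
    rw [hL, quo_piGen _ ((piGen_le _ _).trans hK.2), quo_piGen _ hK.2]
    refine ih _ (hn ▸ card_quo_lt hK h1) rfl (hs.quo hp hK.2) fun M hM => ?_
    have h2 := hM.qpre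
    rw [qpre_quo_of_nml hK] at h2
    rcases h _ h2 with h3 | h3
    · left
      have := h3.quo (K := K) (qpre_le _)
      rwa [quo_qpre] at this
    · right
      rwa [relIndex_qpre _ hK.2] at h3
  by_cases hL1 : L = ⊥
  · rw [hL1]; exact npc_of_p' (piGrp_bot _)
  obtain ⟨N, hNL, hN⟩ := exists_minNml hL1 hLH.2
  have hNH : N ⊴ H := ⟨hNL.trans hLH.1, hN.nrm⟩
  have hNL' : N ⊴ L := hNH.mono hNL hLH.1
  by_cases hp' : PiGrp {p}ᶜ N
  · exact npc_of_quo hp' hNL' (hq N hNH hN.ne)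
  have hNp : PGrp p N := by
    by_contra hc
    apply hN.ne
    refine (hs.mono hp hNH.1).core hp ?_ ?_
    · rcases hN.eq_bot_or_eq (pcore_le {p} N) (norms_pcore _ hN.nrm) with h1 | h1
      · exact h1
      · exact absurd (h1 ▸ pcore_pi _ _) hc
    · rcases hN.eq_bot_or_eq (pcore_le {p}ᶜ N) (norms_pcore _ hN.nrm) with h1 | h1
      · exact h1
      · exact absurd (h1 ▸ pcore_pi _ _) hp'
  have hLN := hq N hNH hN.ne
  set K := qpre(N, O[{p}ᶜ](L /ₛ N)) with hK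
  have hKH : K ⊴ H := qpre_nml hNH ((hLH.quo N).pcore _)
  have hKL : K ≤ L := qpre_le_of_le_quo hNL (pcore_le _ _)
  have hNK : Hall {p} N K := hall_of_quo_pi' (nml_qpre _) hNp (by rw [hK, quo_qpre]; exact pcore_pi _ _)
  obtain ⟨T, hT, hsd⟩ := hNK.exists_compl (nml_qpre _).2
  have hfr := sd_frattini hsd (hNp.cop hT.pi) (Or.inl hNp.nil.sol) hKH hNH.2
  by_cases hTn : H ≤ N(T)
  · refine npc_of_hall (K := T) ⟨hT.le.trans hKL, hT.pi, ?_⟩ (hLH.1.trans hTn)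
    rw [← relIndex_mul hT.le hKL]
    refine hT.idx.mul ?_
    rw [hK, relIndex_qpre _ hNL'.2, compl_compl]
    exact hLN.relIndex
  obtain ⟨M, hM1, hM⟩ := exists_maxIn (H := H ⊓ N(T)) (M := H)
    (lt_of_le_of_ne inf_le_left fun e => hTn (inf_eq_left.1 e))
  have hNM : ¬ N ≤ M := fun e => hM.lt.not_ge (hfr.sup ▸ sup_le e hM1)
  by_cases hc : ∃ R, H ≤ N(R) ∧ R ≤ M ∧ R ≠ ⊥
  · obtain ⟨R, h1, h2, h3⟩ := hc
    refine npc_of_quo_of_quo hNL'.2 (hLH.1.trans h1) ?_ hLN (hq R ⟨h2.trans hM.lt.le, h1⟩ h3)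
    rw [(hN.inf_eq_bot_or_le h1).resolve_right fun e => hNM (e.trans h2), inf_bot_eq]
  have hcf : CoreFree M H := ⟨hM, fun R h1 h2 => by_contra fun h3 => hc ⟨R, h1, h2, h3⟩⟩
  obtain ⟨-, -, hsd2, -⟩ := hcf.nil_nml hNH hNp.nil hN.ne
  have hMn : NPC p M := by
    rcases h M hM with h1 | h1
    · exact h1
    · rw [hsd2.relIndex_right] at h1
      have e : #N = p := hNp.piNat.eq_prime h1 dvd_rfl
      have h2 := relIndex_cen_dvd_pred hp e (hM.lt.le.trans hNH.2)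
      have h3 := card_inf_mul_relIndex C(N) M
      rw [hcf.cen_inf hNH hN.ne, card_bot', one_mul] at h3
      rw [h3] at h2
      refine npc_of_p' (p'nat_of_not_dvd fun h4 => ?_)
      have := Nat.le_of_dvd (by have := hp.two_le; omega) (h4.trans h2)
      have := hp.two_le
      omega
  have h1 : NPC p (H /ₛ N) := by rw [hsd2.quo_eq]; exact hMn.quo (hM.lt.le.trans hNH.2)
  have h2 : L /ₛ N = ⊥ := by
    rw [hL, quo_piGen _ ((piGen_le _ _).trans hNH.2), quo_piGen _ hNH.2, ← pRes_eq, h1.pRes_eq,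
      piGen_eq_bot_iff]
    exact pcore_pi _ _
  exact npc_of_pGrp (hNp.mono ((quo_eq_bot hNL'.2).1 h2))

theorem exists_chain_max {G : Type u} [Group G] [Finite G] {p : ℕ} (hp : p.Prime)
    (hG : Cfsg.IsPSolvable p G)
    (hmax : ∀ M : Subgroup G, IsCoatom M → (∃ K : Subgroup ↥M, K.Normal ∧ ¬ p ∣ Nat.card K ∧
      ∃ k : ℕ, K.index = p ^ k) ∨ (M.index).Prime) :
    ∃ A B C : Subgroup G, A.Normal ∧ B.Normal ∧ C.Normal ∧ A ≤ B ∧ B ≤ C ∧ ¬ p ∣ Nat.card A ∧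
      (∃ k : ℕ, A.relIndex B = p ^ k) ∧ ¬ p ∣ B.relIndex C ∧ ∃ k : ℕ, C.index = p ^ k := by
  have h := npc_res hp _ (H := (⊤ : Subgroup G)) rfl (psol_top hp hG) fun M hM => by
    rcases hmax M (maxIn_top_iff.1 hM) with ⟨K, hK, h1, k, h2⟩ | h1
    · left
      refine npc_of_hall (K := K.map M.subtype) ⟨map_subtype_le _, ?_, ?_⟩ ?_
      · refine p'nat_of_not_dvd ?_
        rwa [card_map_of_injective M.subtype_injective]
      · rw [compl_compl, relIndex, subgroupOf, comap_map_eq_self_of_injective M.subtype_injective, h2]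
        exact piNat_self_pow hp k
      · rw [le_nrm_iff]
        rintro g hg _ ⟨x, hx, rfl⟩
        exact ⟨_, hK.conj_mem x hx ⟨g, hg⟩, rfl⟩
    · right; rwa [relIndex_top_right]
  have hC : piGen {p}ᶜ (⊤ : Subgroup G) ⊴ ⊤ := piGen_nml _ _
  have hB : piGen {p} (piGen {p}ᶜ (⊤ : Subgroup G)) ⊴ ⊤ := ⟨le_top, norms_piGen _ hC.2⟩
  refine ⟨_, _, _, nml_top_iff.1 (hB.pcore {p}ᶜ), nml_top_iff.1 hB, nml_top_iff.1 hC, pcore_le _ _,
    piGen_le _ _, (p'nat_iff hp).1 (pcore_pi _ _), h.relIndex.exists_pow (relIndex_pos _ _).ne',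
    (p'nat_iff hp).1 (piGen_relIndex _ _), ?_⟩
  have := piGen_relIndex {p}ᶜ (⊤ : Subgroup G)
  rw [compl_compl] at this
  rw [← relIndex_top_right]
  exact this.exists_pow (relIndex_pos _ _).ne'

end Cfsg.Agent.H27
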