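import Mathlib
import Cfsg.Agent.H18.MaxUnif
import Cfsg.Agent.H3.Two
import Cfsg.Agent.H1.PLow

/-! Fusion of uniform elements of a Sylow subgroup of maximal class. -/

set_option autoImplicit false
set_option linter.unusedSectionVars false

namespace Cfsg.Agent.H27

open Cfsg Subgroup Cfsg.Agent.FT Cfsg.Agent.H3 Cfsg.Agent.H18
open scoped commutatorElement

universe u

variable {G : Type u} [Group G] [Finite G] {p n : ℕ} [hp : Fact p.Prime] {S D M : Subgroup G} {x : G}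

theorem unif_not_mem (h : MaxCl p n S) (hn : 3 ≤ n) (hD : D < S) : ∃ x ∈ S, x ∉ D ∧ #(S ⊓ C[x]) ≤ p ^ 2 := by
  have p2 := hp.out.two_le
  by_cases h2 : p = 2
  · subst h2
    obtain ⟨m, rfl⟩ : ∃ m, n = m + 1 := ⟨n - 1, by omega⟩
    obtain ⟨a, b, hm⟩ := h.mc (by omega)
    obtain ⟨x, hx, hI⟩ := exists_not_mem_of_card_le h.pGrp {0, 1} (fun i => if i = 0 then D else ⟪a⟫) (by simp) (by
      intro i _
      by_cases e : i = 0
      · simpa [e] using hD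
      · simpa [e] using lt_of_le_of_ne hm.le fun e => hm.not_cyc (e ▸ cyc_zpowers a))
    exact ⟨x, hx, by simpa using hI 0 (by simp), (hm.out hx (by simpa using hI 1 (by simp))).card_cen1_b.le⟩
  by_cases h3 : n = 3
  · subst h3
    have hZ : Z(S) ≤ Phi S := by rw [h.Phi_eq le_rfl, h.center_eq le_rfl]; exact (lcs_succ 0 S).le
    have h1 : ¬ S ≤ Z(S) ⊔ D := fun e => hD.ne (Phi_nongen hD.le (e.trans (sup_le_sup_right hZ D)))
    obtain ⟨x, hx, hx'⟩ := SetLike.not_le_iff_exists.1 h1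
    refine ⟨x, hx, fun e => hx' (mem_sup_right e), ?_⟩
    have h4 : S ⊓ C[x] < S := lt_of_le_of_ne inf_le_left fun e =>
      hx' (mem_sup_left ⟨hx, le_cen1.1 (inf_eq_left.1 e)⟩)
    have h5 := card_lt h4
    obtain ⟨k, hk⟩ := PiNat.exists_pow (h.pGrp.mono h4.le) (card_ne_zero _)
    rw [hk, h.card, Nat.pow_lt_pow_iff_right hp.out.one_lt] at h5
    rw [hk]
    exact Nat.pow_le_pow_right hp.out.pos (by omega)
  obtain ⟨u, hu, c⟩ := exists_unif h2 n h
  obtain ⟨x, hx, hI⟩ := exists_not_mem_of_card_le h.pGrp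
    (insert 0 ((Finset.Icc 1 (p - 1)).filter (· + 3 ≤ n))) (fun i => if i = 0 then D else tsc i S)
    ((Finset.card_insert_le _ _).trans (by
      have := Finset.card_filter_le (Finset.Icc 1 (p - 1)) (· + 3 ≤ n)
      rw [Nat.card_Icc] at this; omega)) fun i hi => by
      by_cases e : i = 0
      · simpa [e] using hD
      · simp only [Finset.mem_insert, Finset.mem_filter] at hi
        simpa [e] using tsc_lt h (by omega)
  simp only [Finset.mem_insert, Finset.mem_filter, Finset.mem_Icc] at hI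
  refine ⟨x, hx, by simpa using hI 0 (Or.inl rfl), card_cen_le h (by omega) hx fun k => ?_⟩
  induction k using Nat.strong_induction_on with
  | _ k ih' =>
    intro h1 hk m
    by_cases e : k ≤ p - 1
    · exact hI k (by omega) (by rwa [if_neg (by omega)])
    obtain ⟨j, rfl⟩ : ∃ j, k = j + (p - 1) := ⟨k - (p - 1), by omega⟩
    exact ih' j (by omega) (by omega) (by omega) (tsc_eq_shift h h2 hu c (by omega) hk ▸ m)

theorem unif_cen (h : MaxCl p n S) (hn : 3 ≤ n) (hx : x ∈ S) (c : #(S ⊓ C[x]) ≤ p ^ 2) :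
    x ∉ Z(S) ∧ S ⊓ C[x] = Z(S) ⊔ ⟪x⟫ ∧ #(S ⊓ C[x]) = p ^ 2 := by
  have h1 : x ∉ Z(S) := by
    intro e
    rw [inf_eq_left.2 (le_cen1.2 e.2), h.card, Nat.pow_le_pow_iff_right hp.out.one_lt] at c
    omega
  have h2 : Z(S) ⊔ ⟪x⟫ ≤ S ⊓ C[x] :=
    sup_le (le_inf inf_le_left (inf_le_right.trans (cen_le_cen1 hx))) (zpowers_le.2 ⟨hx, self_mem_cen1 x⟩)
  have h3 : Z(S) < Z(S) ⊔ ⟪x⟫ := lt_of_le_of_ne le_sup_left fun e => h1 (e ▸ mem_sup_right (mem_zpowers x))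
  have h4 := card_lt h3
  obtain ⟨k, hk⟩ := PiNat.exists_pow (h.pGrp.mono (h2.trans inf_le_left)) (card_ne_zero _)
  rw [hk, h.card_center hn] at h4
  have h5 : p ^ 2 ≤ #(Z(S) ⊔ ⟪x⟫) := by
    rw [hk]
    exact Nat.pow_le_pow_right hp.out.pos ((Nat.pow_lt_pow_iff_right hp.out.one_lt).1 (by rwa [pow_one]))
  exact ⟨h1, (eq_of_card_le h2 (c.trans h5)).symm, le_antisymm c (h5.trans (card_le h2))⟩

theorem unif_fuse (n : ℕ) : ∀ {G : Type u} [Group G] [Finite G] {S M : Subgroup G} {x : G}, Syl p S M → MaxCl p n S →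
    x ∈ S → #(S ⊓ C[x]) ≤ p ^ 2 → p ^ 3 ∣ #(M ⊓ C[x]) → ∃ g ∈ M, g * x * g⁻¹ ∈ ⁅S, S⁆ := by
  have pp := hp.out
  induction n with
  | zero => exact fun _ h => absurd h.two_le (by omega)
  | succ n ih =>
  intro G _ _ S M x hS h hx c h3
  have hn : 3 ≤ n + 1 := by
    have h1 : p ^ 3 ∣ #S := by
      rw [hS.card]
      exact (piNat_self_pow pp 3).dvd_partn (card_ne_zero _) (h3.trans (card_dvd inf_le_left))
    rwa [h.card, Nat.pow_dvd_pow_iff_le_right pp.one_lt] at h1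
  obtain ⟨hxZ, hE, hc⟩ := unif_cen h hn hx c
  have hZc := h.card_center hn
  have hZd : Z(S) ≤ ⁅S, S⁆ := by rw [h.center_eq hn]; exact lcs_anti S (j := 1) (by omega)
  set E := S ⊓ C[x] with hE0
  have hxE : x ∈ E := ⟨hx, self_mem_cen1 x⟩
  have hCE : C(E) = C(Z(S)) ⊓ C[x] := by rw [hE, cen_sup, cen_zpowers]
  have hES : E < S := lt_of_card_lt inf_le_left (by
    rw [hc, h.card]; exact Nat.pow_lt_pow_right pp.one_lt (by omega))
  have hQ := h.pGrp.lt_subnorm hES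
  have hab : Ab E := hE ▸ (ab_center S).sup (ab_zpowers x) ((zpowers_le.2 hx).trans (le_cen_center le_rfl))
  by_cases hb : p ^ 3 ∣ #(M ⊓ C(E))
  · obtain ⟨y, hy, hyE⟩ := SetLike.exists_of_lt hQ
    set H := M ⊓ C(Z(S))
    have hSH : S ≤ H := le_inf hS.le (le_cen_center le_rfl)
    have hZH : Z(S) ⊴ H := ⟨inf_le_left.trans hSH, inf_le_right.trans (cen_le_nrm _)⟩
    have q := h.quo (j := 1) (center_nml S) (hZc.trans (pow_one p).symm) (by omega)
    have hyC : ⟪y⟫ ≤ N(M ⊓ C(E)) :=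
      normsI (norms_of_le (zpowers_le.2 (hS.le hy.1))) (norms_cent (zpowers_le.2 hy.2))
    have hL : M ⊓ C(E) ⊔ ⟪y⟫ ≤ H := sup_le (inf_le_inf_left _ (hCE ▸ inf_le_left)) (zpowers_le.2 (hSH hy.1))
    have hZL : Z(S) ≤ M ⊓ C(E) := le_inf (inf_le_left.trans hS.le) (center_le_cen inf_le_left)
    have h4 : p ^ 4 ∣ #(M ⊓ C(E) ⊔ ⟪y⟫) := by
      rw [card_sup_eq_mul_relIndex hyC, pow_succ]
      refine Nat.mul_dvd_mul hb (PiNat.dvd_of_ne_one
        (PiNat.of_dvd (h.pGrp.mono (zpowers_le.2 hy.1)) (relIndex_dvd _ _)) (one_lt_relIndex fun e => hyE ?_).ne')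
      exact ⟨hy.1, cen_le_cen1 hxE (e (mem_zpowers y)).2⟩
    have h5 : (M ⊓ C(E) ⊔ ⟪y⟫) /ₛ Z(S) ≤ (H /ₛ Z(S)) ⊓ C[coset(Z(S), x)] := by
      refine le_inf (quo_mono _ hL) ?_
      rw [← cen_zpowers, ← quo_zpowers (hZH.nrm (hSH hx))]
      refine quo_cents_of_comm_le (comm_sup_le (hL.trans hZH.nrm) ?_ ?_)
      · rw [comm_eq_bot.2 (inf_le_right.trans (cen_anti (zpowers_le.2 hxE)))]; exact bot_le
      · have h6 : ⁅⟪y⟫, E⁆ ≤ Z(S) := by
          have n1 : Z(S) ⊴ S ⊓ N(E) := (center_nml S).mono (le_inf inf_le_left ((hE ▸ le_sup_left).trans (le_nrm E))) inf_le_left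
          have n2 : E ⊴ S ⊓ N(E) := nml_subnorm inf_le_left
          have h7 := ((h.pGrp.mono inf_le_left).quo (K := Z(S))).nil.meet_center (n2.quo Z(S))
            (quo_ne_bot (n2.le.trans n1.nrm) fun e => hxZ (e hxE))
          have h8 : (#(E /ₛ Z(S))).Prime := by
            have := card_quo_mul (n1.mono (hE ▸ le_sup_left) n2.le)
            rw [hZc, hc, sq] at this
            rwa [Nat.eq_of_mul_eq_mul_left pp.pos this]
          have h9 := (prime_le_of_inf_ne h8 h7).trans inf_le_right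
          have := (quo_cents_iff (n2.le.trans n1.nrm) n1.nrm).1 h9
          exact (commC _ _).le.trans ((commSS le_rfl (zpowers_le.2 hy)).trans this)
        exact (commSS le_rfl (zpowers_le.2 hxE)).trans h6
    have h6 : p ^ 3 ∣ #((H /ₛ Z(S)) ⊓ C[coset(Z(S), x)]) := by
      refine Dvd.dvd.trans ?_ (card_dvd h5)
      rw [← card_quo_mul (hZH.mono (hZL.trans le_sup_left) hL), hZc, pow_succ'] at h4
      exact Nat.dvd_of_mul_dvd_mul_left pp.pos h4
    obtain ⟨g', hg0, e⟩ := ih ((hS.subl hSH inf_le_left).quo hZH.nrm) q (mem_quo_of_mem (hZH.nrm (hSH hx)) hx)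
      ((card_cen1_quo_le le_rfl hx).trans c) h6
    obtain ⟨g, hg, hg', rfl⟩ := mem_quo.1 hg0
    rw [← coset_conj hg' (hZH.nrm (hSH hx)), ← quo_der (hSH.trans hZH.nrm)] at e
    exact ⟨g, hg.1, mem_of_coset_mem (conj_mem (le_nrm _ hg') (hZH.nrm (hSH hx))) hZd e⟩
  have hEp : PGrp p E := h.pGrp.mono inf_le_left
  obtain ⟨T, hT, hET⟩ := hEp.exists_syl (M := M ⊓ C[x]) (inf_le_inf_right _ hS.le)
  have hlt : E < T := lt_of_card_lt hET (by
    have h1 : p ^ 3 ∣ #T := by rw [hT.card]; exact (piNat_self_pow pp 3).dvd_partn (card_ne_zero _) h3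
    exact lt_of_lt_of_le (hc ▸ Nat.pow_lt_pow_right pp.one_lt (by omega)) (Nat.le_of_dvd (card_pos _) h1))
  have hT' := hT.pi.lt_subnorm hlt
  obtain ⟨R, hR, hTR⟩ := (hT.pi.mono (inf_le_left : T ⊓ N(E) ≤ T)).exists_syl (M := M ⊓ N(E))
    (inf_le_inf_right _ (hT.le.trans inf_le_left))
  obtain ⟨g, hg, hQR⟩ := hR.syl_Jsub (h.pGrp.mono (inf_le_left : S ⊓ N(E) ≤ S)) (inf_le_inf_right _ hS.le)
  have hER : E ⊴ R := ⟨hT'.le.trans hTR, hR.le.trans inf_le_right⟩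
  have hE1 : E ≠ ⊥ := ne_bot_of_one_lt_card (hc ▸ Nat.one_lt_pow two_ne_zero pp.one_lt)
  have hW := hR.pi.nil.meet_center hER hE1
  have key : ∀ X, E < X → X ≤ R → #(E ⊓ C(X)) = p ∧ E ⊓ C(X) = E ⊓ Z(R) := by
    intro X h1 h2
    have h4 : E ⊓ C(X) < E := lt_of_le_of_ne inf_le_left fun e => hb <| by
      have h5 : X ≤ M ⊓ C(E) := le_inf (h2.trans (hR.le.trans inf_le_left)) (centsC (inf_eq_left.1 e))
      obtain ⟨k, hk⟩ := PiNat.exists_pow (hR.pi.mono h2) (card_ne_zero _)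
      have h6 := card_lt h1
      rw [hc, hk, Nat.pow_lt_pow_iff_right pp.one_lt] at h6
      exact (hk ▸ pow_dvd_pow p h6).trans (card_dvd h5)
    have h5 : E ⊓ Z(R) ≤ E ⊓ C(X) := inf_le_inf_left _ (center_le_cen h2)
    obtain ⟨k, hk⟩ := PiNat.exists_pow (hEp.mono h4.le) (card_ne_zero _)
    have h6 := card_lt h4
    have h7 := one_lt_card (ne_bot_of_le h5 hW)
    rw [hc, hk, Nat.pow_lt_pow_iff_right pp.one_lt] at h6
    have h9 : k ≠ 0 := by rintro rfl; rw [hk] at h7; simp at h7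
    have h8 : #(E ⊓ C(X)) = p := by rw [hk, show k = 1 by omega, pow_one]
    exact ⟨h8, (eq_of_le_prime (h8 ▸ pp) h5 hW).symm⟩
  have k1 := key _ hT' hTR
  have hgE : FT.cj g E = E := cj_of_mem_nrm hg.2
  have k2 := key _ (lt_of_eq_of_lt hgE.symm (FT.cj_lt_cj.2 hQ)) hQR
  have h4 : FT.cj g Z(S) ≤ E ⊓ C(FT.cj g (S ⊓ N(E))) :=
    le_inf ((FT.cj_mono g (hE ▸ le_sup_left)).trans_eq hgE) (FT.cj_cents.2 (center_le_cen inf_le_left))
  have h5 := eq_of_card_le h4 (by rw [k2.1, FT.card_cj, hZc])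
  have h6 : x ∈ FT.cj g Z(S) := by
    rw [h5, k2.2, ← k1.2]
    exact ⟨hxE, le_cen1.1 (inf_le_left.trans (hT.le.trans inf_le_right))⟩
  exact ⟨g⁻¹, inv_mem hg.1, by rw [inv_inv]; exact hZd (FT.mem_cj.1 h6)⟩

end Cfsg.Agent.H27
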