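import Mathlib
import Cfsg.Agent.FT.BG01

/-! Overgroups of Sylow 3-subgroups in alternating groups. -/

set_option autoImplicit false
set_option linter.unusedSectionVars false
set_option linter.unusedVariables false

namespace Cfsg.Agent.H27.M3

open Subgroup Equiv Equiv.Perm Cfsg.Agent.FT
open scoped Nat

/-- two proper overgroups of a subgroup of `3'`-index never generate -/
def PM (G : Type*) [Group G] : Prop :=
  ∀ L H K : Subgroup G, ¬ 3 ∣ L.index → L ≤ H → L ≤ K → H ≠ ⊤ → K ≠ ⊤ → H ⊔ K ≠ ⊤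

theorem pm_of {G : Type*} [Group G] [Finite G] (h : IsPMinimal 3 G) : PM G := fun L H K h1 h2 h3 h4 h5 => by
  haveI : Fact (Nat.Prime 3) := ⟨by norm_num⟩
  obtain ⟨P, hP⟩ := exists_syl 3 L
  have hS : Syl 3 P ⊤ := syl_of_not_dvd le_top hP.pi fun hd => by
    rw [relIndex_top_right, ← relIndex_mul_index hP.le] at hd
    exact ((Nat.Prime.dvd_mul Fact.out).1 hd).elim (hP.not_dvd Fact.out) h1
  obtain ⟨S, rfl⟩ := (syl_top_iff Fact.out).1 hS
  obtain ⟨M, -, hM⟩ := (h S).2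
  obtain ⟨M1, a1, b1⟩ := (eq_top_or_exists_le_coatom H).resolve_left h4
  obtain ⟨M2, a2, b2⟩ := (eq_top_or_exists_le_coatom K).resolve_left h5
  rw [hM M1 ⟨a1, hP.le.trans (h2.trans b1)⟩, ← hM M2 ⟨a2, hP.le.trans (h3.trans b2)⟩] at b1
  exact fun e => a2.1 (top_le_iff.1 (e.ge.trans (sup_le b1 b2)))

theorem PM.equiv {G G' : Type*} [Group G] [Group G'] (h : PM G) (e : G ≃* G') : PM G' := fun L H K h1 h2 h3 h4 h5 h6 => by
  have hs : Function.Surjective e.toMonoidHom := e.surjective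
  have k : ∀ H : Subgroup G', H ≠ ⊤ → H.comap e.toMonoidHom ≠ ⊤ := fun H h e' =>
    h (comap_injective hs (e'.trans (comap_top _).symm))
  refine h (L.comap e.toMonoidHom) _ _ (by rwa [index_comap_of_surjective _ hs]) (comap_mono h2) (comap_mono h3)
    (k H h4) (k K h5) ?_
  rw [comap_sup_eq _ _ _ hs, h6, comap_top]

variable {Ω ι κ : Type} [Fintype Ω] [DecidableEq Ω] [Fintype ι] [DecidableEq ι] {M L H K : Subgroup (Perm Ω)}
  {a b c d e : Ω}

abbrev v (n : ℕ) : ℕ := padicValNat 3 n !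

def G3 (L : Subgroup (Perm Ω)) : Prop := v (Fintype.card Ω) ≤ padicValNat 3 (Nat.card L)

theorem PM.exists (h : PM (alternatingGroup Ω)) (hL : G3 L) (h2 : L ≤ H) (h3 : L ≤ K)
    (h4 : ¬ alternatingGroup Ω ≤ H) (h5 : ¬ alternatingGroup Ω ≤ K) :
    ∃ M, ¬ alternatingGroup Ω ≤ M ∧ alternatingGroup Ω ⊓ H ≤ M ∧ alternatingGroup Ω ⊓ K ≤ M := by
  haveI : Fact (Nat.Prime 3) := ⟨by norm_num⟩
  set A := alternatingGroup Ω
  have h1 : ¬ 3 ∣ L.index := fun hd => by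
    have e := L.card_mul_index
    rw [Nat.card_perm, Nat.card_eq_fintype_card (α := Ω)] at e
    have := one_le_padicValNat_of_dvd L.index_ne_zero_of_finite hd
    rw [G3, v, ← e, padicValNat.mul Nat.card_pos.ne' L.index_ne_zero_of_finite] at hL
    omega
  have h6 := h (L.subgroupOf A) (H.subgroupOf A) (K.subgroupOf A) (fun hd => ?_) (comap_mono h2) (comap_mono h3)
    (fun e => h4 (subgroupOf_eq_top.1 e)) (fun e => h5 (subgroupOf_eq_top.1 e))
  · refine ⟨(H.subgroupOf A ⊔ K.subgroupOf A).map A.subtype, fun e => h6 (top_le_iff.1 ?_), ?_, ?_⟩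
    · rwa [← map_le_map_iff_of_injective A.subtype_injective, map_subtype_top]
    · rw [inf_comm, ← subgroupOf_map_subtype]; exact map_mono le_sup_left
    · rw [inf_comm, ← subgroupOf_map_subtype]; exact map_mono le_sup_right
  · have e1 := relIndex_mul_index (inf_le_right : L ⊓ A ≤ A)
    have e2 := relIndex_mul_index (inf_le_left : L ⊓ A ≤ L)
    rw [inf_relIndex_right] at e1
    rw [inf_relIndex_left] at e2
    have h7 : 3 ∣ A.relIndex L * L.index := by rw [e2, ← e1]; exact hd.mul_right _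
    have h8 : A.relIndex L ∣ 2 := by
      refine (relIndex_dvd_index_of_normal A L).trans ?_
      rw [show A = sign.ker from rfl, index_ker]
      exact (card_subgroup_dvd_card _).trans (by simp)
    exact ((Nat.Prime.dvd_mul Fact.out).1 h7).elim (fun h => by have := h.trans h8; omega) h1

def T (M : Subgroup (Perm Ω)) (a b c : Ω) : Prop := a ≠ b ∧ a ≠ c ∧ b ≠ c ∧ swap a b * swap a c ∈ M

theorem T.s1 (h : T M a b c) : T M a c b := ⟨h.2.1, h.1, h.2.2.1.symm, by simpa using inv_mem h.2.2.2⟩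

theorem T.s2 (h : T M a b c) : T M b c a := by
  obtain ⟨h1, h2, h3, h4⟩ := h
  refine ⟨h3, h1.symm, h2.symm, ?_⟩
  convert h4 using 1
  ext x; simp only [coe_mul, Function.comp_apply, swap_apply_def]; grind

theorem T.cj (h : T M a b c) {g : Perm Ω} (hg : g ∈ M) : T M (g a) (g b) (g c) := by
  refine ⟨g.injective.ne h.1, g.injective.ne h.2.1, g.injective.ne h.2.2.1, ?_⟩
  rw [swap_apply_apply, swap_apply_apply, show g * swap a b * g⁻¹ * (g * swap a c * g⁻¹) =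
    g * (swap a b * swap a c) * g⁻¹ by group]
  exact mul_mem (mul_mem hg h.2.2.2) (inv_mem hg)

theorem T.x0 (h : T M a b c) (h' : T M a d c) (hd : d ≠ b) : T M a b d :=
  ⟨h.1, h'.1, hd.symm, by
    have := mul_mem h.2.2.2 h'.s1.2.2.2
    rwa [mul_assoc, swap_mul_self_mul] at this⟩

theorem T.x (h : T M a b c) (h' : T M a d e) (hd : d ≠ b) : T M a b d := by
  by_cases h1 : e = b
  · exact (h1 ▸ h').s1
  by_cases h2 : d = c
  · exact h2 ▸ h
  by_cases h3 : e = c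
  · exact h.x0 (h3 ▸ h') hd
  have k := h.cj h'.s1.2.2.2
  obtain ⟨a1, a2, a3, -⟩ := id h
  obtain ⟨b1, b2, b3, -⟩ := id h'
  have e1 : (swap a e * swap a d) a = d := by simp only [coe_mul, Function.comp_apply, swap_apply_def]; grind
  have e2 : (swap a e * swap a d) b = b := by simp only [coe_mul, Function.comp_apply, swap_apply_def]; grind
  have e3 : (swap a e * swap a d) c = c := by simp only [coe_mul, Function.comp_apply, swap_apply_def]; grind
  rw [e1, e2, e3] at k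
  exact (h.s2.s1.x0 k.s2.s1 b1.symm).s1.s2.s2

theorem all (a : Ω) (h : ∀ u, u ≠ a → ∃ c, T M a u c) : alternatingGroup Ω ≤ M := by
  have k : ∀ u w, u ≠ a → w ≠ a → u ≠ w → T M a u w := fun u w h1 h2 h3 => by
    obtain ⟨_, hu⟩ := h u h1
    obtain ⟨_, hw⟩ := h w h2
    exact hu.x hw h3.symm
  have k2 : ∀ x y z, x ≠ y → x ≠ z → y ≠ z → T M x y z := fun x y z h1 h2 h3 => by
    by_cases e1 : x = a
    · subst e1; exact k _ _ h1.symm h2.symm h3
    by_cases e2 : y = a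
    · subst e2; exact (k _ _ h3.symm h1 h2.symm).s2.s2
    by_cases e3 : z = a
    · subst e3; exact (k _ _ h2 h3 h1).s2
    exact (k _ _ e1 e2 h1).s2.x (k _ _ e1 e3 h2).s2 h3.symm
  rw [← closure_three_cycles_eq_alternating, closure_le]
  intro g (hg : g.IsThreeCycle)
  obtain ⟨x, hx⟩ : g.support.Nonempty := by rw [← Finset.card_pos, hg.card_support]; norm_num
  have h1 := hg.nodup_iff_mem_support.2 hx
  rw [SetLike.mem_coe, hg.eq_swap_mul_swap_iff_mem_support.2 hx, swap_comm]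
  exact (k2 _ _ _ (by grind) (by grind) (by grind)).2.2.2

def St (f : Ω → κ) : Subgroup (Perm Ω) where
  carrier := {g | f ∘ g = f}
  one_mem' := rfl
  mul_mem' := fun {g h} hg hh => by
    show f ∘ (g ∘ h) = f
    rw [← Function.comp_assoc, hg, hh]
  inv_mem' := fun {g} hg => funext fun x => by simpa using (congrFun hg (g⁻¹ x)).symm

def Pt (f : Ω → κ) : Subgroup (Perm Ω) where
  carrier := {g | ∀ x y, f (g x) = f (g y) ↔ f x = f y}
  one_mem' := fun _ _ => Iff.rfl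
  mul_mem' := fun {g h} hg hh x y => (hg _ _).trans (hh x y)
  inv_mem' := fun {g} hg x y => by simpa using (hg (g⁻¹ x) (g⁻¹ y)).symm

theorem St_le {κ' : Type} (f : Ω → κ) (t : κ → κ') : St f ≤ Pt (t ∘ f) := fun g hg x y => by
  have h : ∀ x, f (g x) = f x := congrFun hg
  simp only [Function.comp_apply, h]

theorem card_St (f : Ω → ι) : Nat.card (St f) = ∏ i, (Fintype.card {a // f a = i})! := by
  rw [← DomMulAct.stabilizer_card, ← Nat.card_eq_fintype_card]; rfl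

theorem alt_mem (h1 : a ≠ b) (h2 : a ≠ c) : swap a b * swap a c ∈ alternatingGroup Ω := by
  simp [mem_alternatingGroup, h1, h2]

theorem swap_mem {f : Ω → κ} (h : f a = f b) : swap a b ∈ Pt f := St_le f id (funext fun x => apply_swap_eq_self h x)

theorem T_of {f : Ω → κ} (hM : alternatingGroup Ω ⊓ Pt f ≤ M) (h1 : a ≠ b) (h2 : a ≠ c) (h3 : b ≠ c)
    (h4 : f a = f b) (h5 : f a = f c) : T M a b c :=
  ⟨h1, h2, h3, hM ⟨alt_mem h1 h2, mul_mem (swap_mem h4) (swap_mem h5)⟩⟩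

theorem not_le_Pt {f : Ω → κ} (h1 : a ≠ b) (h2 : d ≠ a) (h3 : d ≠ b) (h4 : f a = f d) (h5 : f b = f d)
    (h6 : f c ≠ f d) : ¬ alternatingGroup Ω ≤ Pt f := fun h => by
  have a1 : a ≠ c := fun e => h6 (e ▸ h4)
  have a2 : c ≠ b := fun e => h6 (e ▸ h5)
  have a3 : d ≠ c := fun e => h6 (e ▸ rfl)
  have := (h (alt_mem h1 a1) a d).2 h4
  rw [mul_apply, mul_apply, swap_apply_left, swap_apply_of_ne_of_ne a1.symm a2, swap_apply_of_ne_of_ne h2 a3,
    swap_apply_of_ne_of_ne h2 h3] at this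
  exact h6 this

theorem G3_sigma (m : ι → ℕ) (h : v (∑ i, m i) ≤ ∑ i, v (m i)) : G3 (St (Sigma.fst : (Σ i, Fin (m i)) → ι)) := by
  haveI : Fact (Nat.Prime 3) := ⟨by norm_num⟩
  rw [G3, card_St, Fintype.card_sigma]
  simp only [Fintype.card_fin, Fintype.card_congr (sigmaSubtype _)]
  refine h.trans (le_of_eq ?_)
  induction (Finset.univ : Finset ι) using Finset.induction_on with
  | empty => simp
  | insert i s hi ih =>
    rw [Finset.sum_insert hi, Finset.prod_insert hi, ih, padicValNat.mul (Nat.factorial_ne_zero _)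
      (Finset.prod_ne_zero_iff.2 fun _ _ => Nat.factorial_ne_zero _)]

def ph (ι : Type) : Perm ι →* Perm (ι × Fin 3) :=
  MonoidHom.mk' (fun τ => Equiv.prodCongr τ (Equiv.refl _)) fun _ _ => rfl

def Wr (K : Subgroup (Perm ι)) : Subgroup (Perm (ι × Fin 3)) := St Prod.fst ⊔ K.map (ph ι)

theorem Wr_le {K : Subgroup (Perm ι)} {f : ι → κ} (h : K ≤ Pt f) : Wr K ≤ Pt (f ∘ Prod.fst) :=
  sup_le (St_le _ f) (map_le_iff_le_comap.2 fun g hg x y => h hg x.1 y.1)

theorem Wr_le' (K : Subgroup (Perm ι)) : Wr K ≤ Pt Prod.fst :=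
  Wr_le (f := id) fun g _ x y => g.injective.eq_iff

theorem v_mul (m : ℕ) : v (3 * m) = v m + m :=
  haveI : Fact (Nat.Prime 3) := ⟨by norm_num⟩
  padicValNat_factorial_mul m

theorem v_add (m : ℕ) {e : ℕ} (h : e < 3) : v (3 * m + e) = v m + m :=
  haveI : Fact (Nat.Prime 3) := ⟨by norm_num⟩
  (padicValNat_factorial_mul_add m h).trans (v_mul m)

theorem G3_Wr {K : Subgroup (Perm ι)} (h : G3 K) : G3 (Wr K) := by
  haveI : Fact (Nat.Prime 3) := ⟨by norm_num⟩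
  have h1 : K.map (ph ι) ≤ N(St (Prod.fst : ι × Fin 3 → ι)) := by
    rintro _ ⟨τ, -, rfl⟩
    refine mem_nrm.2 fun g hg => funext fun x => ?_
    rw [← map_inv]
    show τ (g (ph ι τ⁻¹ x)).1 = x.1
    rw [show (g (ph ι τ⁻¹ x)).1 = (ph ι τ⁻¹ x).1 from congrFun hg _]
    exact τ.apply_symm_apply _
  have hi : Function.Injective (ph ι) := fun σ τ e => Equiv.ext fun x => congrArg Prod.fst (congrArg (· (x, 0)) e)
  have h2 : St Prod.fst ⊓ K.map (ph ι) = ⊥ := by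
    rw [eq_bot_iff]
    rintro _ ⟨hg, τ, -, rfl⟩
    rw [show τ = 1 from Equiv.ext fun x => congrFun hg (x, 0), map_one]; exact one_mem _
  have h3 := card_sup_mul_card_inf h1
  rw [h2, card_bot, mul_one, card_map_of_injective hi, card_St] at h3
  have h4 : ∀ i : ι, Fintype.card {a : ι × Fin 3 // a.1 = i} = 3 := fun i => by
    rw [Fintype.card_congr (prodSubtypeFstEquivSubtypeProd (p := (· = i)))]; simp
  simp only [h4, Finset.prod_const, Finset.card_univ] at h3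
  rw [G3, Wr, h3, Fintype.card_prod, Fintype.card_fin, mul_comm, v_mul,
    padicValNat.mul (by positivity) Nat.card_pos.ne', padicValNat.pow,
    show padicValNat 3 3! = 1 by simpa [v] using v_mul 1]
  have : v (Fintype.card ι) ≤ _ := h
  omega

theorem not_pm_Wr {K : Subgroup (Perm ι)} {f : ι → κ} (h : G3 K) (hK : K ≤ Pt f) {i₀ i₁ j₀ : ι} (h1 : i₀ ≠ i₁)
    (h2 : f i₀ = f i₁) (h3 : f j₀ ≠ f i₀) : ¬ PM (alternatingGroup (ι × Fin 3)) := fun hp => by
  obtain ⟨M, a1, a2, a3⟩ := hp.exists (G3_Wr h) (Wr_le hK) (Wr_le' K)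
    (not_le_Pt (a := (i₀, 0)) (b := (i₀, 1)) (c := (j₀, 0)) (d := (i₀, 2)) (by simp) (by simp) (by simp) rfl rfl h3)
    (not_le_Pt (a := (i₀, 0)) (b := (i₀, 1)) (c := (j₀, 0)) (d := (i₀, 2)) (by simp) (by simp) (by simp) rfl rfl
      fun e => h3 (congrArg f e))
  refine a1 (all (i₀, 0) fun ⟨j, t⟩ hu => ?_)
  by_cases e : f j = f i₀
  · by_cases e' : (j, t) = (i₀, 1)
    · exact ⟨(i₀, 2), T_of a2 hu.symm (by simp) (by rw [e']; simp) e.symm rfl⟩
    · exact ⟨(i₀, 1), T_of a2 hu.symm (by simp) e' e.symm rfl⟩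
  have b1 : i₀ ≠ j := fun e' => e (e' ▸ rfl)
  have k := T_of a2 (a := (i₀, 0)) (b := (i₁, t)) (c := (i₀, 1)) (by simp [h1]) (by simp) (by simp [h1.symm]) h2 rfl
  have hg : ph ι (swap i₁ j) ∈ Pt (Prod.fst : ι × Fin 3 → ι) := Wr_le' ⊤ (mem_sup_right ⟨_, trivial, rfl⟩)
  have e0 : ∀ s, ph ι (swap i₁ j) (i₀, s) = (i₀, s) := fun s => Prod.ext (swap_apply_of_ne_of_ne h1 b1) rfl
  have e1 : ph ι (swap i₁ j) (i₁, t) = (j, t) := Prod.ext (swap_apply_left _ _) rfl
  rcases Int.units_eq_one_or (sign (ph ι (swap i₁ j))) with s | s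
  · have := k.cj (a3 ⟨s, hg⟩)
    rw [e0, e0, e1] at this
    exact ⟨_, this⟩
  · have t1 : t ≠ t + 1 ∧ t ≠ t + 2 ∧ t + 1 ≠ t + 2 := by clear hu k e1; revert t; decide
    have := k.cj (a3 (x := ph ι (swap i₁ j) * swap (i₁, t + 1) (i₁, t + 2))
      ⟨by simp [mem_alternatingGroup, s, t1.2.2], mul_mem hg (swap_mem rfl)⟩)
    rw [mul_apply, mul_apply, mul_apply, swap_apply_of_ne_of_ne (by simp [h1]) (by simp [h1]),
      swap_apply_of_ne_of_ne (by simp [t1.1]) (by simp [t1.2.1]),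
      swap_apply_of_ne_of_ne (by simp [h1]) (by simp [h1]), e0, e0, e1] at this
    exact ⟨_, this⟩

theorem not_pm_three (m : Fin 3 → ℕ) (h : v (∑ i, m i) ≤ ∑ i, v (m i)) (h0 : 0 < m 0) (h1 : 0 < m 1) (h2 : 2 < m 2) :
    ¬ PM (alternatingGroup (Σ i, Fin (m i))) := fun hp => by
  let p : Fin 3 → Σ i, Fin (m i) := fun t => ⟨2, t.castLE h2⟩
  have hp' : ∀ s t, s ≠ t → p s ≠ p t := fun s t e e' => e (Fin.castLE_injective h2 (by simpa [p] using e'))
  obtain ⟨M, a1, a2, a3⟩ := hp.exists (G3_sigma m h) (St_le _ (· = 0)) (St_le _ (· = 1))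
    (not_le_Pt (a := p 0) (b := p 1) (c := ⟨0, ⟨0, h0⟩⟩) (d := p 2) (hp' _ _ (by simp)) (hp' _ _ (by simp))
      (hp' _ _ (by simp)) rfl rfl (by simp [p]))
    (not_le_Pt (a := p 0) (b := p 1) (c := ⟨1, ⟨0, h1⟩⟩) (d := p 2) (hp' _ _ (by simp)) (hp' _ _ (by simp))
      (hp' _ _ (by simp)) rfl rfl (by simp [p]))
  refine a1 (all (p 0) fun u hu => ?_)
  obtain ⟨t, t1, t2⟩ : ∃ t, p 0 ≠ p t ∧ u ≠ p t := by
    by_cases e : u = p 1
    · exact ⟨2, hp' _ _ (by simp), e ▸ hp' _ _ (by simp)⟩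
    · exact ⟨1, hp' _ _ (by simp), e⟩
  by_cases e : u.1 = 0
  · exact ⟨_, T_of a3 hu.symm t1 t2 (by simp [p, e]) rfl⟩
  · exact ⟨_, T_of a2 hu.symm t1 t2 (by simp [p, e]) rfl⟩

theorem nc2 (b : ℕ) : ∀ a, b ≤ a → v (3 ^ a + 3 ^ b) = v (3 ^ a) + v (3 ^ b) := by
  induction b with
  | zero =>
    rintro (_ | a) -
    · simp [v]
    · rw [pow_succ', pow_zero, v_add _ (by norm_num), v_mul]; simp
  | succ b ih =>
    rintro (_ | a) h
    · omega
    · rw [pow_succ', pow_succ', ← mul_add, v_mul, v_mul, v_mul, ih a (by omega)]; ring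

theorem cls (n : ℕ) : n = 0 ∨ (∃ a, n = 3 ^ a) ∨ (∃ a b, b ≤ a ∧ n = 3 ^ a + 3 ^ b) ∨
    ∃ x y z, 0 < x ∧ 0 < y ∧ 2 < z ∧ n = x + y + z ∧ v n = v x + v y + v z := by
  induction n using Nat.strong_induction_on with
  | _ n ih =>
  rcases Nat.eq_zero_or_pos n with h0 | h0
  · exact Or.inl h0
  right
  obtain ⟨m, e, he, rfl⟩ : ∃ m e, e < 3 ∧ n = 3 * m + e := ⟨n / 3, n % 3, by omega, by omega⟩
  have v0 : v e = 0 := by interval_cases e <;> simp [v]
  have v1 : v 1 = 0 := by simp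
  rcases ih m (by omega) with rfl | ⟨a, rfl⟩ | ⟨a, b, h, rfl⟩ | ⟨x, y, z, h1, h2, h3, rfl, h4⟩
  · rcases (by omega : e = 1 ∨ e = 2) with rfl | rfl
    · exact Or.inl ⟨0, rfl⟩
    · exact Or.inr (Or.inl ⟨0, 0, le_rfl, rfl⟩)
  · have : 0 < 3 ^ a := by positivity
    rcases (by omega : e = 0 ∨ e = 1 ∨ e = 2) with rfl | rfl | rfl
    · exact Or.inl ⟨a + 1, by ring⟩
    · exact Or.inr (Or.inl ⟨a + 1, 0, by omega, by ring⟩)
    · exact Or.inr (Or.inr ⟨1, 1, 3 * 3 ^ a, by omega, by omega, by omega, by omega, by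
        rw [v_add _ he, v_mul, v1]; omega⟩)
  · have : 0 < 3 ^ a := by positivity
    have : 0 < 3 ^ b := by positivity
    rcases Nat.eq_zero_or_pos e with rfl | h'
    · exact Or.inr (Or.inl ⟨a + 1, b + 1, by omega, by ring⟩)
    · exact Or.inr (Or.inr ⟨e, 3 * 3 ^ b, 3 * 3 ^ a, h', by omega, by omega, by omega, by
        rw [v_add _ he, v_mul, v_mul, v0, nc2 b a h]; omega⟩)
  · exact Or.inr (Or.inr ⟨3 * x, 3 * y, 3 * z + e, by omega, by omega, by omega, by omega, by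
      rw [v_add _ he, v_mul, v_mul, v_add _ he, h4]; omega⟩)

theorem main {n : ℕ} (hn : 5 ≤ n) (h : PM (alternatingGroup (Fin n))) : n = 6 ∨ n = 9 ∨ ∃ a, 2 ≤ a ∧ n = 3 ^ a + 1 := by
  have k : ∀ (Ω : Type) [Fintype Ω] [DecidableEq Ω], Fintype.card Ω = n → PM (alternatingGroup Ω) :=
    fun Ω _ _ e => h.equiv (Fintype.equivFinOfCardEq e).symm.altCongrHom
  rcases cls n with rfl | ⟨a, rfl⟩ | ⟨a, b, h1, rfl⟩ | ⟨x, y, z, h1, h2, h3, rfl, h4⟩
  · omega
  · obtain _ | _ | _ | a := a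
    · omega
    · omega
    · simp
    have h3 : 1 < 3 ^ (a + 1) := Nat.one_lt_pow (by omega) (by norm_num)
    exact (not_pm_Wr (K := Wr (⊤ : Subgroup (Perm (Fin (3 ^ (a + 1)))))) (G3_Wr (by simp [G3, Fintype.card_perm]))
      (Wr_le' _) (i₀ := (⟨0, by omega⟩, 0)) (i₁ := (⟨0, by omega⟩, 1)) (j₀ := (⟨1, h3⟩, 0)) (by simp) rfl (by simp)
      (k _ (by simp; ring))).elim
  · obtain _ | b := b
    · refine Or.inr (Or.inr ⟨a, ?_, rfl⟩)
      obtain _ | _ | a := a <;> omega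
    obtain _ | _ | a := a
    · omega
    · obtain rfl : b = 0 := by omega
      simp
    have h3 : 1 < 3 ^ (a + 1) := Nat.one_lt_pow (by omega) (by norm_num)
    exact (not_pm_Wr (G3_sigma ![3 ^ (a + 1), 3 ^ b] (by simp [nc2 b (a + 1) (by omega)])) (St_le _ id)
      (i₀ := ⟨0, ⟨0, by simp⟩⟩) (i₁ := ⟨0, ⟨1, h3⟩⟩) (j₀ := ⟨1, ⟨0, by simp⟩⟩)
      (fun e => by simpa using congrArg (fun x : Σ i, Fin (![3 ^ (a + 1), 3 ^ b] i) => x.2.1) e) rfl (by simp)
      (k _ (by simp; ring))).elim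
  · exact (not_pm_three ![x, y, z] (by simp [Fin.sum_univ_three, h4]) h1 h2 h3
      (k _ (by simp [Fin.sum_univ_three]))).elim

end Cfsg.Agent.H27.M3
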