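import Mathlib
import Cfsg.Agent.H27.Mt0
import Cfsg.Agent.H1.Mte2
import Cfsg.Agent.H1.Mthw
import Cfsg.Agent.H10.Mtda
import Cfsg.Agent.H10.Mtdb
import Cfsg.Agent.H21.Mte1m
import Cfsg.Agent.H21.Mte1s
import Cfsg.Agent.H24.Mtcore
import Cfsg.Agent.H28.Mtemb
import Cfsg.Agent.H28.Mttau
import Cfsg.Agent.H9.Mtbil

/-! Martineau's theorem: assembly. -/

set_option autoImplicit false
namespace Cfsg.Agent.H27.Mt
open Matrix Cfsg.Agent.H13

universe u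
variable {G : Type*} [Group G] {F : Type} [Field F] (S : SzData G F)

theorem c1_all : C1.{u} S := by
  intro E _ _ _ _ π h
  obtain ⟨v, f, χ, H⟩ := hw S h
  obtain ⟨τ, hτ⟩ := tau S h H
  obtain ⟨φ, h1, h2⟩ := emb S H τ hτ
  exact ⟨τ, φ, h1, h2⟩

theorem ext_all : Ext.{u} S := by
  intro E _ _ π τ₁ τ₂ j pr T
  by_cases h : τ₁ = τ₂
  · subst h
    exact ⟨e1s S T, e2s S T (e1s S T)⟩
  · exact ⟨e1m S T h, e2m S T h (e1m S T h)⟩

theorem martineau_of (m : Main.{u} S) (i : Irr.{u} S) (d : Det.{u} S) {X : Type u} [Group X] [Finite X]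
    (N : Subgroup X) [N.Normal] (hN : IsPGroup 2 N) (e : X ⧸ N ≃* G) (hf : Fp N) : ∀ x ∈ N, x * x = 1 := by
  refine grp (G := G) ?_ N hN e hf
  intro X _ _ N M _ _ hN ⟨e⟩ hf hMN hmin hsq
  exact coreB N M hN e hf hMN hmin hsq (coreA N M hN e hf hMN hmin hsq (da S m (bil S))) (db S m i d)

end Cfsg.Agent.H27.Mt
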