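import Cfsg.Agent.GW.Dh
import Cfsg.Agent.H10.SmallId

/-! `p`-by-cyclic subgroups. -/

set_option autoImplicit false

namespace Cfsg.Agent.H27

open Subgroup Cfsg.Agent.FT

variable {G : Type*} [Group G] [Finite G] {H R S : Subgroup G} {p : ℕ}

/-- normal Sylow `p`-subgroup with cyclic quotient -/
def PBC (p : ℕ) (H : Subgroup G) : Prop := ∃ S, Syl p S H ∧ H ≤ N(S) ∧ Cyc (H /ₛ S)

theorem pbc_of [hp : Fact p.Prime] (h1 : ∀ S : Sylow p H, (S : Subgroup H).Normal)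
    (h2 : ∀ (S : Sylow p H) [(S : Subgroup H).Normal], IsCyclic (H ⧸ (S : Subgroup H))) : PBC p H := by
  obtain ⟨T⟩ : Nonempty (Sylow p H) := inferInstance
  haveI := h1 T
  haveI := h2 T
  refine ⟨_, syl_map_subtype hp.out T, ?_, isCyclic_of_surjective _ (quotEquiv' (T : Subgroup H)).surjective⟩
  rw [le_nrm_iff]
  rintro g hg _ ⟨x, hx, rfl⟩
  exact ⟨_, (h1 T).conj_mem x hx ⟨g, hg⟩, rfl⟩

theorem PBC.out [hp : Fact p.Prime] (h : PBC p H) : (∀ S : Sylow p H, (S : Subgroup H).Normal) ∧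
    ∀ (S : Sylow p H) [(S : Subgroup H).Normal], IsCyclic (H ⧸ (S : Subgroup H)) := by
  obtain ⟨S, h1, h2, h3⟩ := h
  have e : ∀ T : Sylow p H, (T : Subgroup H).map H.subtype = S := fun T => by
    obtain ⟨g, hg, e⟩ := h1.syl_trans (syl_map_subtype hp.out T)
    rw [e, cj_of_mem_nrm (h2 hg)]
  refine ⟨fun T => ?_, fun T _ => ?_⟩
  · rw [← comap_map_eq_self_of_injective H.subtype_injective (T : Subgroup H), e]
    exact (normal_subgroupOf_iff_le_normalizer h1.le).2 h2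
  · rw [← e T] at h3
    haveI : IsCyclic _ := h3
    exact isCyclic_of_surjective _ (quotEquiv' (T : Subgroup H)).symm.surjective

theorem pbc_sup (hR : PGrp p R) {x : G} (hx : x ∈ N(R)) : PBC p (R ⊔ ⟪x⟫) := by
  obtain ⟨S, hS, h1⟩ := hR.exists_syl (le_sup_left : R ≤ R ⊔ ⟪x⟫)
  have hn : R ⊔ ⟪x⟫ ≤ N(R) := sup_le (le_nrm _) (zpowers_le.2 hx)
  have hc : Cyc ((R ⊔ ⟪x⟫) /ₛ R) := (cyc_quo_iff hn).2 ⟨x, mem_sup_right (mem_zpowers x), le_rfl⟩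
  have hS' : R ⊔ ⟪x⟫ ≤ N(S) :=
    norms_of_comm_le ((commSS hS.le le_rfl).trans ((der_le_of_ab_quo hn hc.ab).trans h1))
  exact ⟨S, hS, hS', hc.quo_mono hn hS' (inf_le_right.trans h1)⟩

theorem cyc_of_pbc (hS : Syl p S H) (h1 : Cyc S) (h2 : H ≤ C(S)) (h3 : Cyc (H /ₛ S)) : Cyc H := by
  obtain ⟨K, hK, hsd⟩ := hS.exists_compl (cents_norm h2)
  exact (hsd.dp (hK.le.trans h2)).cyc h1 (hsd.cyc_quo.1 h3) (hS.pi.cop hK.pi)

omit [Finite G] in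
theorem dih_fact {m : ℕ} (e : H ≃* DihedralGroup m) {x y : G} (hx : x ∈ H) (hy : y ∈ H)
    (ho : Odd (orderOf y)) (h : x * y ≠ y * x) :
    orderOf x = 2 ∧ ∀ z ∈ H, Odd (orderOf z) → x * z * x⁻¹ = z⁻¹ := by
  have rot : ∀ z (hz : z ∈ H), Odd (orderOf z) → ∃ i, e ⟨z, hz⟩ = .r i := fun z hz h1 => by
    rcases h2 : e ⟨z, hz⟩ with i | i
    · exact ⟨i, rfl⟩
    · rw [← orderOf_mk (ha := hz), ← e.orderOf_eq, h2, DihedralGroup.orderOf_sr] at h1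
      exact absurd h1 (by decide)
  obtain ⟨j, hj⟩ := rot y hy ho
  rcases h2 : e ⟨x, hx⟩ with i | i
  · refine absurd (congrArg Subtype.val (e.injective (a₁ := ⟨x, hx⟩ * ⟨y, hy⟩) (a₂ := ⟨y, hy⟩ * ⟨x, hx⟩) ?_)) h
    rw [map_mul, map_mul, hj, h2]; simp [add_comm]
  · refine ⟨by rw [← orderOf_mk (ha := hx), ← e.orderOf_eq, h2, DihedralGroup.orderOf_sr], fun z hz h3 => ?_⟩
    obtain ⟨k, hk⟩ := rot z hz h3
    refine congrArg Subtype.val (e.injective (a₁ := ⟨x, hx⟩ * ⟨z, hz⟩ * ⟨x, hx⟩⁻¹) (a₂ := ⟨z, hz⟩⁻¹) ?_)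
    rw [map_mul, map_mul, map_inv, map_inv, hk, h2]; simp

end Cfsg.Agent.H27
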