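import Cfsg.Agent.L1.Se0

/-! Piece (pA4) of the `3`-local characterization of `S₈`. -/

set_option autoImplicit false
set_option linter.unusedVariables false
set_option linter.unusedSectionVars false

namespace Cfsg.Agent.L1Se

open Subgroup Equiv

universe u

variable {G : Type u} [Group G] [Finite G] {f : Perm (Fin 8) →* G}

theorem pA4_inv {X : Type*} [Group X] [Finite X] (O : Subgroup X) [hO : O.Normal] {a : X} (aa : a * a = 1)
    (hc : ∀ o ∈ O, o * a = a * o → o = 1) {x : X} (hx : x ∈ O) : a * x * a⁻¹ = x⁻¹ := by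
  let φ : O → O := fun o => ⟨o.1⁻¹ * (a * o.1 * a⁻¹), mul_mem (inv_mem o.2) (hO.conj_mem _ o.2 a)⟩
  have inj : Function.Injective φ := fun o p e => by
    have e1 : o.1⁻¹ * (a * o.1 * a⁻¹) = p.1⁻¹ * (a * p.1 * a⁻¹) := congrArg Subtype.val e
    have e2 := hc (p.1 * o.1⁻¹) (mul_mem p.2 (inv_mem o.2)) (by
      calc p.1 * o.1⁻¹ * a = p.1 * (o.1⁻¹ * (a * o.1 * a⁻¹)) * (a * o.1⁻¹) := by group
        _ = _ := by rw [e1]; group)
    exact Subtype.ext (mul_inv_eq_one.1 e2).symm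
  obtain ⟨o, e⟩ := Finite.injective_iff_surjective.1 inj ⟨x, hx⟩
  have e1 : o.1⁻¹ * (a * o.1 * a⁻¹) = x := congrArg Subtype.val e
  have ai : a⁻¹ = a := inv_eq_of_mul_eq_one_right aa
  rw [← e1]
  calc a * (o.1⁻¹ * (a * o.1 * a⁻¹)) * a⁻¹ = a * o.1⁻¹ * a * o.1 * (a * a)⁻¹ := by group
    _ = _ := by rw [aa, mul_inv_rev (o.1⁻¹), mul_inv_rev, mul_inv_rev, inv_inv, inv_inv, ai]; group

theorem pA4_cT (h : SH f) {k : Perm (Fin 8)} (hk : k.IsSwap) {g : G} (e : Commute g (f k)) : g ∈ f.range := by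
  obtain ⟨x, y, xy, rfl⟩ := hk
  obtain ⟨r, hr⟩ := isConj_iff.1 (Perm.isConj_swap (show (6 : Fin 8) ≠ 7 by decide) xy)
  have : (f r)⁻¹ * g * f r ∈ f.range := h.cT _ (by
    have e1 : g * (f r * f (swap 6 7) * (f r)⁻¹) = f r * f (swap 6 7) * (f r)⁻¹ * g := by
      rw [← map_inv, ← map_mul, ← map_mul, hr]; exact e.eq
    change _ * _ = _ * _
    calc (f r)⁻¹ * g * f r * f (swap 6 7) = (f r)⁻¹ * (g * (f r * f (swap 6 7) * (f r)⁻¹)) * f r := by group
      _ = _ := by rw [e1]; group)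
  have e2 : g = f r * ((f r)⁻¹ * g * f r) * (f r)⁻¹ := by group
  rw [e2]
  exact mul_mem (mul_mem ⟨r, rfl⟩ this) (inv_mem ⟨r, rfl⟩)

theorem pA4_FU (hf : FU f) {k l : Perm (Fin 8)} (hk : k.IsSwap) {g : G} (e : g * f k * g⁻¹ = f l) : l.IsSwap := by
  obtain ⟨x, y, xy, rfl⟩ := hk
  obtain ⟨r, hr⟩ := isConj_iff.1 (Perm.isConj_swap (show (6 : Fin 8) ≠ 7 by decide) xy)
  refine hf (g * f r) l ?_
  rw [← e, ← hr, map_mul, map_mul, map_inv]; group

theorem pA4_sw : ∀ a b c d : Fin 8, (∀ i, swap a b (swap c d i) = swap c d (swap a b i)) →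
    (∀ i, swap a b i = swap c d i) ∨ a = b ∨ (swap c d a = a ∧ swap c d b = b) := by
  decide +kernel

theorem pA4_67 : ∀ a b : Fin 8, a ≠ b → (swap 0 1 * swap 2 3 * swap 4 5 : Perm (Fin 8)) a = a →
    (swap 0 1 * swap 2 3 * swap 4 5 : Perm (Fin 8)) b = b → swap a b = swap 6 7 := by
  decide +kernel

theorem pA4_cm : ∀ p x : Fin 8, Commute (swap p ((swap 0 1 * swap 2 3 * swap 4 5 : Perm (Fin 8)) p))
    (swap x ((swap 0 1 * swap 2 3 * swap 4 5 : Perm (Fin 8)) x)) := by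
  unfold Commute SemiconjBy
  decide +kernel

theorem pA4_pt : ∀ x p q : Fin 8, (swap 0 1 p = p ↔ swap 0 1 x = x) → (swap 2 3 p = p ↔ swap 2 3 x = x) →
    (swap 4 5 p = p ↔ swap 4 5 x = x) → (swap 0 1 q = q ↔ swap 0 1 p = p) → (swap 2 3 q = q ↔ swap 2 3 p = p) →
    (swap 4 5 q = q ↔ swap 4 5 p = p) → p = x ∨ q = p ∨ q = x := by
  decide +kernel

theorem pA4 (zs : ZS.{u}) (h : SH f) (hf : FU f) (hd : CD f) : CN f := by
  set n : Perm (Fin 8) := swap 0 1 * swap 2 3 * swap 4 5 with hn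
  let X := centralizer ({f n} : Set G)
  have mX : ∀ c : Perm (Fin 8), c * n = n * c → f c ∈ X := fun c e =>
    mem_centralizer_singleton_iff.2 (by rw [← map_mul, e, map_mul])
  have cX : ∀ g : X, g.1 * f n = f n * g.1 := fun g => mem_centralizer_singleton_iff.1 g.2
  let t : X := ⟨f (swap 6 7), mX _ (by decide)⟩
  have s01 : (swap 0 1 : Perm (Fin 8)).IsSwap := ⟨0, 1, by decide, rfl⟩
  have s23 : (swap 2 3 : Perm (Fin 8)).IsSwap := ⟨2, 3, by decide, rfl⟩
  have s45 : (swap 4 5 : Perm (Fin 8)).IsSwap := ⟨4, 5, by decide, rfl⟩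
  have t2 : orderOf t = 2 := by
    rw [← orderOf_coe, orderOf_injective f h.inj]
    exact orderOf_eq_prime (by decide) (by decide)
  obtain ⟨O, hO, od, hz⟩ := zs X t t2 fun g e => by
    have e0 : Commute (g.1 * f (swap 6 7) * g.1⁻¹) (f (swap 6 7)) := congrArg Subtype.val e.eq
    obtain ⟨k, hk⟩ := h.cT _ e0
    have ks := hf _ _ hk.symm
    have key : ∀ s : Perm (Fin 8), s.IsSwap → s * swap 6 7 = swap 6 7 * s → s ≠ swap 6 7 →
        ∃ l, f l = g.1 * f s * g.1⁻¹ ∧ ∀ a b, a ≠ b → k = swap a b → l a = a ∧ l b = b := by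
      intro s ss c ne
      have c1 : Commute (g.1 * f s * g.1⁻¹) (f k) := by
        rw [hk]
        change _ * _ = _ * _
        calc g.1 * f s * g.1⁻¹ * (g.1 * f (swap 6 7) * g.1⁻¹) = g.1 * f (s * swap 6 7) * g.1⁻¹ := by
              rw [map_mul]; group
          _ = _ := by rw [c, map_mul]; group
      obtain ⟨l, hl⟩ := pA4_cT h ks c1
      refine ⟨l, hl, ?_⟩
      rintro a b ab rfl
      obtain ⟨c', d', -, rfl⟩ := pA4_FU hf ss hl.symm
      have c2 : swap a b * swap c' d' = swap c' d' * swap a b := h.inj (by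
        rw [map_mul, map_mul, hl]; exact c1.eq.symm)
      rcases pA4_sw a b c' d' (fun i => by simpa using congrArg (fun p : Perm (Fin 8) => p i) c2) with
        e1 | e1 | e1
      · have e2 : swap a b = swap c' d' := Equiv.ext e1
        rw [← e2, hk] at hl
        exact (ne (h.inj (by simpa using hl.symm))).elim
      · exact (ab e1).elim
      · exact e1
    obtain ⟨l1, a1, b1⟩ := key _ s01 (by decide) (by decide)
    obtain ⟨l2, a2, b2⟩ := key _ s23 (by decide) (by decide)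
    obtain ⟨l3, a3, b3⟩ := key _ s45 (by decide) (by decide)
    have e3 : l1 * l2 * l3 = n := h.inj (by
      rw [map_mul, map_mul, a1, a2, a3]
      calc _ = g.1 * f n * g.1⁻¹ := by rw [hn, map_mul, map_mul]; group
        _ = _ := by rw [cX g]; group)
    obtain ⟨a, b, ab, rfl⟩ := ks
    obtain ⟨p1, q1⟩ := b1 a b ab rfl
    obtain ⟨p2, q2⟩ := b2 a b ab rfl
    obtain ⟨p3, q3⟩ := b3 a b ab rfl
    have e4 := pA4_67 a b ab (by rw [← hn, ← e3]; simp [p1, p2, p3]) (by rw [← hn, ← e3]; simp [q1, q2, q3])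
    exact Subtype.ext (by change g.1 * f (swap 6 7) * g.1⁻¹ = f (swap 6 7); rw [← hk, e4])
  have o2 : ∀ o ∈ O, o * o = 1 → o = 1 := fun o ho e => by
    have e1 : orderOf o ∣ 2 := orderOf_dvd_of_pow_eq_one (by rw [pow_two, e])
    have e2 := (Nat.coprime_two_right.2 od).coprime_dvd_left (orderOf_dvd_natCard O ho)
    exact orderOf_eq_one_iff.1 (Nat.Coprime.eq_one_of_dvd e2 e1)
  have R : ∀ o ∈ O, o.1 ∈ f.range → o = 1 := by
    rintro o ho ⟨c, hc⟩
    have cn : c * n = n * c := h.inj (by rw [map_mul f c n, map_mul f n c, hc]; exact cX o)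
    have k : ∀ x : Fin 8, c * swap x (n x) = swap x (n x) * c := fun x => by
      have m : swap x (n x) * n = n * swap x (n x) := by revert x; decide
      let s : X := ⟨f (swap x (n x)), mX _ m⟩
      have m1 : o * (s * o⁻¹ * s⁻¹) ∈ O := mul_mem ho (hO.conj_mem _ (inv_mem ho) s)
      have m2 : c * swap x (n x) * c⁻¹ = swap (c x) (n (c x)) := by
        rw [← swap_apply_apply, ← Perm.mul_apply, cn, Perm.mul_apply]
      have m3 : (o * (s * o⁻¹ * s⁻¹)).1 = f (swap (c x) (n (c x)) * swap x (n x)) := by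
        rw [← m2, map_mul, map_mul, map_mul, map_inv, hc]
        change o.1 * (f _ * o.1⁻¹ * (f _)⁻¹) = _
        rw [← map_inv, swap_inv]; group
      have m4 := o2 _ m1 (Subtype.ext (by
        rw [coe_mul, m3, ← map_mul, (pA4_cm (c x) x).eq, mul_assoc, ← (pA4_cm (c x) x).eq,
          swap_mul_self_mul, swap_mul_self, map_one]; rfl))
      rw [m4] at m3
      have m5 : swap (c x) (n (c x)) * swap x (n x) = 1 := h.inj (by rw [← m3, map_one]; rfl)
      rw [← m2] at m5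
      calc c * swap x (n x) = c * swap x (n x) * c⁻¹ * swap x (n x) * (swap x (n x) * c) := by
            rw [mul_assoc _ (swap x (n x)) (_ * c), swap_mul_self_mul]; group
        _ = _ := by rw [m5, one_mul]
    have fx : ∀ s : Perm (Fin 8), c * s = s * c → ∀ x, (s (c x) = c x ↔ s x = x) := fun s e x => by
      rw [← Perm.mul_apply, ← e, Perm.mul_apply, c.injective.eq_iff]
    have k0 := fx (swap 0 1) (k 0)
    have k2 := fx (swap 2 3) (k 2)
    have k4 := fx (swap 4 5) (k 4)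
    have cc : c * c = 1 := Equiv.ext fun x => by
      change c (c x) = x
      rcases pA4_pt x (c x) (c (c x)) (k0 _) (k2 _) (k4 _) (k0 _) (k2 _) (k4 _) with e | e | e
      · rw [e, e]
      · rw [e, c.injective e]
      · exact e
    exact o2 o ho (Subtype.ext (by rw [coe_mul, ← hc, ← map_mul, cc, map_one]; rfl))
  let a : X := ⟨f (swap 0 1), mX _ (by decide)⟩
  let b : X := ⟨f (swap 2 3), mX _ (by decide)⟩
  have ia : ∀ x ∈ O, a * x * a⁻¹ = x⁻¹ := fun x hx =>
    pA4_inv O (a := a) (Subtype.ext (by change f _ * f _ = 1; rw [← map_mul, swap_mul_self, map_one]))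
      (fun o ho e => R o ho (pA4_cT h s01 (congrArg Subtype.val e))) hx
  have ib : ∀ x ∈ O, b * x * b⁻¹ = x⁻¹ := fun x hx =>
    pA4_inv O (a := b) (Subtype.ext (by change f _ * f _ = 1; rw [← map_mul, swap_mul_self, map_one]))
      (fun o ho e => R o ho (pA4_cT h s23 (congrArg Subtype.val e))) hx
  have O1 : ∀ x ∈ O, x = 1 := fun x hx => R x hx (hd _ (by
    have e : x * (a * b) = a * b * x := by
      calc x * (a * b) = (a * x⁻¹ * a⁻¹) * (a * b) := by rw [ia _ (inv_mem hx), inv_inv]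
        _ = _ := by rw [← ib x hx]; group
    rw [map_mul]
    exact congrArg Subtype.val e))
  intro g e
  have e1 := O1 _ (hz ⟨g, mem_centralizer_singleton_iff.2 e.eq⟩)
  have e2 : g * f (swap 6 7) * g⁻¹ * (f (swap 6 7))⁻¹ = 1 := congrArg Subtype.val e1
  exact h.cT g (commutatorElement_eq_one_iff_commute.1 e2)

end Cfsg.Agent.L1Se
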