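import Cfsg.Agent.FT.PLen

/-! Glauberman's form of Sims' lemma. -/

set_option autoImplicit false

namespace Cfsg.Agent.H27

open Subgroup Cfsg.Agent.FT
open scoped commutatorElement

variable {G : Type*} [Group G] [Finite G] {P : Subgroup G} {h : G} {p : ℕ}

/-- intersection of the conjugates `P ^ (h ^ l)`, `j ≤ l ≤ k` -/
def SD' (P : Subgroup G) (h : G) (j k : ℤ) : Subgroup G := ⨅ l, ⨅ (_ : j ≤ l ∧ l ≤ k), cj (h ^ l) P

omit [Finite G] in
theorem mem_SD' {j k : ℤ} {x : G} : x ∈ SD' P h j k ↔ ∀ l, j ≤ l → l ≤ k → x ∈ cj (h ^ l) P := by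
  simp [SD', mem_iInf]

omit [Finite G] in
theorem SD'_anti {j k j' k' : ℤ} (h1 : j ≤ j') (h2 : k' ≤ k) : SD' P h j k ≤ SD' P h j' k' :=
  fun _ hx => mem_SD'.2 fun l a b => mem_SD'.1 hx l (h1.trans a) (b.trans h2)

omit [Finite G] in
theorem SD'_self (j : ℤ) : SD' P h j j = cj (h ^ j) P := by
  ext x; rw [mem_SD']
  exact ⟨fun e => e j le_rfl le_rfl, fun e l a b => le_antisymm a b ▸ e⟩

omit [Finite G] in
theorem cj_SD' (i j k : ℤ) : cj (h ^ i) (SD' P h j k) = SD' P h (j + i) (k + i) := by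
  ext x
  rw [mem_cj, mem_SD', mem_SD']
  have : ∀ l, (h ^ i)⁻¹ * x * h ^ i ∈ cj (h ^ l) P ↔ x ∈ cj (h ^ (l + i)) P := fun l => by
    rw [← mem_cj, cj_cj, ← zpow_add, add_comm]
  refine ⟨fun e l a b => ?_, fun e l a b => (this l).2 (e _ (by omega) (by omega))⟩
  have := (this (l - i)).1 (e _ (by omega) (by omega))
  rwa [sub_add_cancel] at this

omit [Finite G] in
theorem inf_SD' {j k j' k' : ℤ} (h1 : j' ≤ k + 1) : SD' P h j k ⊓ SD' P h j' k' ≤ SD' P h j k' :=
  fun _ hx => mem_SD'.2 fun l a b => by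
    by_cases e : l ≤ k
    · exact mem_SD'.1 hx.1 l a e
    · exact mem_SD'.1 hx.2 l (by omega) b

theorem le_of_prime_idx {A B X : Subgroup G} (hp : (A.relIndex B).Prime) (hAB : A ≤ B) {y : G}
    (hy : y ∈ B) (hy' : y ∉ A) (hA : A ≤ X) (hX : y ∈ X) : B ≤ X := by
  rcases eq_or_eq_of_prime_relIndex hp (K := B ⊓ X) (le_inf hAB hA) inf_le_left with e | e
  · exact absurd (e ▸ ⟨hy, hX⟩) hy'
  · exact inf_eq_left.1 e

theorem int_switch {Q : ℤ → Prop} {a b : ℤ} (hab : a ≤ b) (ha : Q a) (hb : ¬ Q b) :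
    ∃ c, a ≤ c ∧ c < b ∧ Q c ∧ ¬ Q (c + 1) := by
  by_contra hc
  push Not at hc
  have : ∀ c, a ≤ c → c ≤ b → Q c := fun c h => by
    induction c, h using Int.leInduction with
    | base => exact fun _ => ha
    | succ c h ih => exact fun e => hc c h (by omega) (ih (by omega))
  exact hb (this b hab le_rfl)

theorem sims_card (hp : p.Prime) (hP : PGrp p P) (hi : (P ⊓ cj h P).relIndex (cj h P) = p)
    (h1 : ∀ Q, Q ⊴ P → h ∈ N(Q) → Q = ⊥) :
    ∃ t : ℕ, 1 ≤ t ∧ ∀ k : ℕ, k ≤ t → #(SD' P h 0 k) = p ^ (t - k) := by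
  have hi' : (P ⊓ cj h P).relIndex P = p := by
    have a := card_mul_relIndex (inf_le_left : P ⊓ cj h P ≤ P)
    have b := card_mul_relIndex (inf_le_right : P ⊓ cj h P ≤ cj h P)
    rw [card_cj, hi, ← a] at b
    exact (Nat.eq_of_mul_eq_mul_left (card_pos _) b).symm
  have hle : ∀ k : ℕ, SD' P h 0 k ≤ P := fun k => by
    have := SD'_anti (P := P) (h := h) (j := 0) (k := k) (k' := 0) le_rfl (by omega)
    rwa [SD'_self, zpow_zero, cj_one] at this
  have hstep : ∀ k : ℕ, (SD' P h 0 (k + 1 : ℕ)).relIndex (SD' P h 0 k) ∣ p := fun k => by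
    have e : SD' P h 0 (k + 1 : ℕ) = cj (h ^ (k : ℤ)) (P ⊓ cj h P) ⊓ SD' P h 0 k := by
      apply le_antisymm
      · refine le_inf ?_ (SD'_anti le_rfl (by omega))
        rw [cj_inf, cj_cj, ← zpow_add_one]
        exact le_inf (fun x hx => mem_SD'.1 hx _ (by omega) (by omega))
          fun x hx => mem_SD'.1 hx _ (by omega) (by omega)
      · rw [cj_inf, cj_cj, ← zpow_add_one, ← SD'_self (P := P) (h := h) (k + 1)]
        exact fun x hx => inf_SD' (k := k) le_rfl ⟨hx.2, hx.1.2⟩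
    rw [e, inf_relIndex_right, ← hi', ← relIndex_cj (h ^ (k : ℤ)) (P ⊓ cj h P) P]
    refine relIndex_dvd_of_norm ?_ ((cj_norms (A := P) (B := P ⊓ cj h P)).2 ?_)
    · rw [← SD'_self]; exact SD'_anti (by omega) le_rfl
    · exact (hP.nil.maxIn_nml (maxIn_of_prime_relIndex (hi'.symm ▸ hp) inf_le_left)).2
  have hex : ∃ s : ℕ, SD' P h 0 s ≤ SD' P h 0 (s + 1 : ℕ) := by
    by_contra hc
    push Not at hc
    have : ∀ k : ℕ, #(SD' P h 0 k) + k ≤ #P := fun k => by
      induction k with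
      | zero => exact card_le (hle 0)
      | succ k ih =>
        have := card_lt (lt_of_le_not_ge (SD'_anti (P := P) (h := h) (j := 0) (k := (k + 1 : ℕ))
          (k' := k) le_rfl (by omega)) (hc k))
        omega
    have := this #P
    have := card_pos (SD' P h 0 (#P : ℕ))
    omega
  classical
  set s := Nat.find hex with hs
  have hidx : ∀ k : ℕ, k < s → (SD' P h 0 (k + 1 : ℕ)).relIndex (SD' P h 0 k) = p := fun k hk =>
    ((Nat.dvd_prime hp).1 (hstep k)).resolve_left (one_lt_relIndex (Nat.find_min hex hk)).ne'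
  have hinv : ∀ k : ℕ, SD' P h 0 k ≤ SD' P h 0 (k + 1 : ℕ) ↔ h ∈ N(SD' P h 0 k) := fun k => by
    have e := cj_SD' (P := P) (h := h) 1 0 k
    rw [zpow_one] at e
    constructor
    · intro e'
      rw [← cj_eq_self]
      exact (eq_of_card_eq (e ▸ e'.trans (SD'_anti (by omega) (by omega))) (card_cj _ _).symm).symm
    · intro e'
      rw [cj_of_mem_nrm e'] at e
      exact (le_inf le_rfl e.le).trans (inf_SD' (by omega))
  have hQ := (hinv s).1 (Nat.find_spec hex)
  have hs1 : 1 ≤ s := by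
    by_contra hc
    rw [show s = 0 by omega, Nat.cast_zero, SD'_self, zpow_zero, cj_one] at hQ
    rw [cj_of_mem_nrm hQ, inf_idem, relIndex_self] at hi
    exact hp.one_lt.ne hi
  have hn : ∀ m k : ℕ, k + m + 1 = s → SD' P h 0 k ≤ N(SD' P h 0 s) := by
    intro m
    induction m with
    | zero =>
      rintro k e
      rw [← e]
      exact ((hP.mono (hle k)).nil.maxIn_nml (maxIn_of_prime_relIndex (by rw [hidx k (by omega)]; exact hp)
        (SD'_anti le_rfl (by omega)))).2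
    | succ m ih =>
      intro k e
      have a := ih (k + 1) (by omega)
      have b : cj h⁻¹ (SD' P h 0 (k + 1 : ℕ)) ≤ N(SD' P h 0 s) := by
        have := cj_norms (g := h⁻¹).2 a
        rwa [cj_of_mem_nrm (inv_mem hQ)] at this
      have c : ¬ cj h⁻¹ (SD' P h 0 (k + 1 : ℕ)) ≤ SD' P h 0 (k + 1 : ℕ) := fun e' =>
        Nat.find_min hex (m := k + 1) (by omega) ((hinv _).2 (inv_mem_iff.1 (mem_nrm_of_cj_le e')))
      obtain ⟨y, hy, hy'⟩ := SetLike.not_le_iff_exists.1 c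
      refine le_of_prime_idx (by rw [hidx k (by omega)]; exact hp) (SD'_anti le_rfl (by omega)) ?_ hy' a (b hy)
      rw [← zpow_neg_one, cj_SD'] at hy
      exact SD'_anti (by omega) (by omega) hy
  have hbot : SD' P h 0 s = ⊥ := h1 _ ⟨hle s, by
    have := hn (s - 1) 0 (by omega)
    rwa [Nat.cast_zero, SD'_self, zpow_zero, cj_one] at this⟩ hQ
  have hc : ∀ m k : ℕ, k + m = s → #(SD' P h 0 k) = p ^ m := by
    intro m
    induction m with
    | zero => intro k e; rw [show k = s by omega, hbot, card_bot', pow_zero]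
    | succ m ih =>
      intro k e
      rw [← card_mul_relIndex (SD'_anti (j := 0) (k := (k + 1 : ℕ)) le_rfl (by omega)),
        hidx k (by omega), ih (k + 1) (by omega), pow_succ]
  exact ⟨s, hs1, fun k hk => hc _ k (by omega)⟩

theorem sims_pGrp (hp : p.Prime) (hN : cj h P ≤ N(P ⊓ cj h P)) (hi : (P ⊓ cj h P).relIndex (cj h P) = p)
    (h1 : ∀ Q, Q ⊴ P → h ∈ N(Q) → Q = ⊥) : PGrp p P := by
  have a : piGen {p}ᶜ (cj h P) ≤ P :=
    (piGen_min hN (by rw [compl_compl, hi]; exact (piNat_prime hp).2 rfl)).trans inf_le_left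
  have b := piGen_mono {p}ᶜ a
  rw [piGen_idem, ← cj_piGen] at b
  have := piGen_eq_bot_iff.1 (h1 _ (piGen_nml _ _) (mem_nrm_of_cj_le b))
  rwa [compl_compl] at this

theorem sims_main (hp : p.Prime) (hN : cj h P ≤ N(P ⊓ cj h P)) (hi : (P ⊓ cj h P).relIndex (cj h P) = p)
    (h1 : ∀ Q, Q ⊴ P → h ∈ N(Q) → Q = ⊥) : ∃ (t u : ℕ) (x : ℤ → G), #P = p ^ t ∧ 1 ≤ u ∧ u ≤ t ∧
      2 * t ≤ 3 * u ∧ x (u - 1) ∈ P ∧ x (u - 1) ≠ 1 ∧
      ∀ l : ℤ, 0 ≤ l → l + t < 2 * u → cj (h ^ l) P ≤ C[x (u - 1)] := by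
  have hP := sims_pGrp hp hN hi h1
  obtain ⟨t, ht, hc⟩ := sims_card hp hP hi h1
  set E : ℤ → ℤ → Subgroup G := fun a b => SD' P h (b - t) a with hE
  have cE : ∀ (a : ℤ) (k : ℕ), k ≤ t → #(E a (a + k)) = p ^ k := fun a k hk => by
    have := hc (t - k) (by omega)
    rw [← card_cj (h ^ (a + k - t)), cj_SD', show t - (t - k) = k by omega] at this
    rw [← this, zero_add, show ((t - k : ℕ) : ℤ) + (a + k - t) = a by omega]
  have mE : ∀ {a b a' b' : ℤ}, a' ≤ a → b ≤ b' → E a b ≤ E a' b' := fun h1 h2 => SD'_anti (by omega) h1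
  have iE : ∀ {a b a' b' : ℤ}, b' ≤ a + t + 1 → E a b ⊓ E a' b' ≤ E a' b := fun h1 => inf_SD' (by omega)
  have bE : ∀ {a b : ℤ}, b ≤ a → E a b = ⊥ := fun {a b} h1 => by
    have := cE a 0 (by omega)
    rw [pow_zero, Nat.cast_zero, add_zero, ← eq_bot_iff_card'] at this
    exact eq_bot_iff.2 (this ▸ mE le_rfl h1)
  have pE : ∀ a : ℤ, E a (a + t) = cj (h ^ a) P := fun a => by
    rw [hE]; simp only [add_sub_cancel_right]; exact SD'_self a
  have gE : ∀ {a b : ℤ}, b ≤ a + t → PGrp p (E a b) := fun {a b} h1 =>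
    (hP.cj (h ^ a)).mono (pE a ▸ mE le_rfl h1)
  have xE : ∀ {a b a' b' : ℤ}, a' ≤ a → b ≤ b' → a ≤ b → b' - a' = b - a + 1 → b' ≤ a' + t →
      ((E a b).relIndex (E a' b')).Prime := fun {a b a' b'} h1 h2 h3 h4 h5 => by
    obtain ⟨k, rfl⟩ : ∃ k : ℕ, b = a + k := ⟨(b - a).toNat, by omega⟩
    have e := card_mul_relIndex (mE h1 h2)
    rw [show b' = a' + (k + 1 : ℕ) by omega, cE _ _ (by omega), cE _ _ (by omega), pow_succ] at e
    rw [show b' = a' + (k + 1 : ℕ) by omega, Nat.eq_of_mul_eq_mul_left (pow_pos hp.pos k) e]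
    exact hp
  obtain ⟨x₀, hx₀, hx₁⟩ := FT.exists_ne_one (H := E 0 (0 + (1 : ℕ)))
    (ne_bot_of_prime_card (by rw [cE 0 1 ht, pow_one]; exact hp))
  set x : ℤ → G := fun i => h ^ i * x₀ * (h ^ i)⁻¹ with hx
  have x1 : ∀ i, x i ∈ E i (i + 1) := fun i => by
    have := (conj_mem_cj (g := h ^ i)).2 hx₀
    rw [hE, cj_SD'] at this
    exact SD'_anti (by omega) (by omega) this
  have x2 : ∀ i, x i ≠ 1 := fun i => conj_ne_one.2 hx₁
  have x3 : ∀ {i a b : ℤ}, a ≤ i → i < b → x i ∈ E a b := fun h1 h2 => mE h1 (by omega) (x1 _)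
  have x4 : ∀ {i b : ℤ}, b ≤ i + t → x i ∉ E (i + 1) b := fun {i b} h1 h2 =>
    x2 i (mem_bot.1 (bE le_rfl ▸ iE (by omega) ⟨x1 i, h2⟩))
  have x5 : ∀ {i a : ℤ}, i < a + t → x i ∉ E a i := fun {i a} h1 h2 =>
    x2 i (mem_bot.1 (bE le_rfl ▸ iE (by omega) ⟨h2, x1 i⟩))
  have gen : ∀ {a b : ℤ} {X : Subgroup G}, b ≤ a + t → (∀ j, a ≤ j → j < b → x j ∈ X) → E a b ≤ X := by
    intro a b X h1 h2
    rcases le_or_gt b a with h3 | h3
    · rw [bE h3]; exact bot_le
    by_contra hc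
    obtain ⟨c, c1, c2, c3, c4⟩ := int_switch (Q := fun c => E a c ≤ X) h3.le (bE le_rfl ▸ bot_le) hc
    exact c4 (le_of_prime_idx (xE le_rfl (by omega) c1 (by omega) (by omega))
      (mE le_rfl (by omega)) (x3 c1 (by omega)) (x5 (by omega)) c3 (h2 c c1 c2))
  have cm : ∀ {i j : ℤ}, i < j → j < i + t → ⁅x i, x j⁆ ∈ E (i + 1) j ∧ ⁅x j, x i⁆ ∈ E (i + 1) j := by
    intro i j h1 h2
    have e : ⁅E i (j + 1), E i (j + 1)⁆ ≤ E (i + 1) j :=
      (le_inf ((gE (by omega)).der_le_Phi.trans (maxIn_of_prime_relIndex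
        (xE le_rfl (by omega) (by omega) (by omega) (by omega)) (mE le_rfl (by omega))).Phi_le)
        ((gE (by omega)).der_le_Phi.trans (maxIn_of_prime_relIndex
        (xE (by omega) le_rfl (by omega) (by omega) (by omega)) (mE (by omega) le_rfl)).Phi_le)).trans
        (iE (by omega))
    exact ⟨e (commutator_mem_commutator (x3 le_rfl (by omega)) (x3 h1.le (by omega))),
      e (commutator_mem_commutator (x3 h1.le (by omega)) (x3 le_rfl (by omega)))⟩
  have sh : ∀ i j : ℤ, Commute (x 0) (x j) ↔ Commute (x i) (x (i + j)) := fun i j => by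
    have e : ∀ k, x (i + k) = MulAut.conj (h ^ i) (x k) := fun k => by
      simp only [hx, zpow_add, MulAut.conj_apply]; group
    conv_rhs => rw [← add_zero i, e, add_zero, e]
    exact (commute_map_iff (MulAut.conj (h ^ i)).injective).symm
  classical
  have hex : ∃ u : ℕ, u = t ∨ ¬ Commute (x 0) (x u) := ⟨t, Or.inl rfl⟩
  set u := Nat.find hex with hu
  have hut : u ≤ t := Nat.find_min' hex (Or.inl rfl)
  have hu1 : 1 ≤ u := by
    by_contra hc
    rcases Nat.find_spec hex with e | e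
    · omega
    · rw [← hu, show u = 0 by omega] at e; exact e (Commute.refl _)
  have co : ∀ i j : ℤ, i < j + u → j < i + u → Commute (x i) (x j) := by
    have : ∀ i j : ℤ, i ≤ j → j < i + u → Commute (x i) (x j) := fun i j h1 h2 => by
      obtain ⟨k, rfl⟩ : ∃ k : ℕ, j = i + k := ⟨(j - i).toNat, by omega⟩
      exact (sh i k).1 (not_not.1 (not_or.1 (Nat.find_min hex (m := k) (by omega))).2)
    intro i j h1 h2
    rcases le_total i j with e | e
    · exact this i j e h2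
    · exact (this j i e h1).symm
  have cx : ∀ {a b j : ℤ}, b ≤ a + t → j < a + u → b ≤ j + u → E a b ≤ C[x j] := fun h1 h2 h3 =>
    gen h1 fun i h4 h5 => mem_cen1.2 (co _ _ (by omega) (by omega))
  have cc : ∀ {a b c d : ℤ} {w}, b ≤ a + t → d ≤ c + t → d ≤ a + u → b ≤ c + u → w ∈ E c d → E a b ≤ C[w] :=
    fun h1 h2 h3 h4 hw => gen h1 fun i h5 h6 => cen1_comm.1 (cx h2 (by omega) (by omega) hw)
  refine ⟨t, u, x, ?_, hu1, hut, ?_, ?_, x2 _, fun l h1 h2 => pE l ▸ cx le_rfl (by omega) (by omega)⟩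
  · have := cE 0 t le_rfl
    rwa [pE, card_cj] at this
  · by_contra hlt
    have hnc : ¬ Commute (x 0) (x u) := (Nat.find_spec hex).resolve_left (by omega)
    have hw := (cm (i := 0) (j := u) (by omega) (by omega)).1
    have hw1 : ∀ {a b : ℤ}, b ≤ a → ⁅x 0, x u⁆ ∉ E a b := fun e e' =>
      hnc (commutatorElement_eq_one_iff_commute.1 (mem_bot.1 (bE e ▸ e')))
    obtain ⟨c, c1, c2, c3, c4⟩ := int_switch (Q := fun c => ⁅x 0, x u⁆ ∈ E c u) (a := 0 + 1) (b := u)
      (by omega) hw (hw1 le_rfl)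
    obtain ⟨d, d1, d2, d3, d4⟩ := int_switch (Q := fun d => ⁅x 0, x u⁆ ∉ E (0 + 1) d) (a := 0 + 1) (b := u)
      (by omega) (hw1 le_rfl) (not_not.2 hw)
    rw [not_not] at d4
    have hcd : c ≤ d := by
      by_contra e
      exact hw1 (by omega) (iE (by omega) ⟨d4, c3⟩)
    have k1 : t ≤ c + u := by
      by_contra e
      have hv := (cm (i := 0) (j := c + u) (by omega) (by omega)).2
      have e1 : Commute _ _ := mem_cen1.1 (cx (j := u) (by omega) (by omega) (by omega) hv)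
      have e2 : Commute _ _ := mem_cen1.1 (cc (by omega) (by omega) (by omega) (by omega) c3 hv)
      have e3 := co (c + u) u (by omega) (by omega)
      have e4 : ⁅x 0, x u⁆ ∈ C[x (c + u)] := by
        rw [cen1_comm, mem_cen1, ← mul_inv_eq_iff_eq_mul]
        refine Eq.trans ?_ e2.mul_inv_cancel
        calc x (c + u) * ⁅x 0, x u⁆ * (x (c + u))⁻¹ = ⁅x (c + u), x 0⁆ * x 0 * (x (c + u) * x u * (x (c + u))⁻¹) *
            (x 0)⁻¹ * ⁅x (c + u), x 0⁆⁻¹ * (x (c + u) * x u * (x (c + u))⁻¹)⁻¹ := by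
              simp only [commutatorElement_def]; group
          _ = ⁅x (c + u), x 0⁆ * x 0 * x u * (x 0)⁻¹ * (⁅x (c + u), x 0⁆⁻¹ * (x u)⁻¹) := by
              rw [e3.mul_inv_cancel, mul_assoc _ _ (x u)⁻¹]
          _ = _ := by rw [e1.inv_inv.eq, commutatorElement_def (x 0)]; group
      refine hnc ((sh c u).2 (mem_cen1.1 (le_of_prime_idx (xE (a := c + 1) (by omega) le_rfl (by omega)
        (by omega) (by omega)) (mE (by omega) le_rfl) c3 c4 (cx (by omega) (by omega) (by omega)) e4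
        (x3 le_rfl c2))))
    have k2 : t + d ≤ 2 * u := by
      by_contra e
      have hv := (cm (i := d - u) (j := u) (by omega) (by omega)).1
      have e1 : Commute _ _ := mem_cen1.1 (cx (j := 0) (by omega) (by omega) (by omega) hv)
      have e2 : Commute _ _ := mem_cen1.1 (cc (by omega) (by omega) (by omega) (by omega) d4 hv)
      have e3 := co (d - u) 0 (by omega) (by omega)
      have e4 : ⁅x 0, x u⁆ ∈ C[x (d - u)] := by
        rw [cen1_comm, mem_cen1, ← mul_inv_eq_iff_eq_mul]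
        refine Eq.trans ?_ e2.mul_inv_cancel
        calc x (d - u) * ⁅x 0, x u⁆ * (x (d - u))⁻¹ = (x (d - u) * x 0 * (x (d - u))⁻¹) * ⁅x (d - u), x u⁆ *
            x u * (x (d - u) * x 0 * (x (d - u))⁻¹)⁻¹ * (x u)⁻¹ * ⁅x (d - u), x u⁆⁻¹ := by
              simp only [commutatorElement_def]; group
          _ = _ := by rw [e3.mul_inv_cancel, ← e1.eq, commutatorElement_def (x 0)]; group
      refine hnc ((sh (d - u) u).2 ?_)
      rw [sub_add_cancel]
      exact Commute.symm (mem_cen1.1 (le_of_prime_idx (xE (b := d) le_rfl (by omega) (by omega)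
        (by omega) (by omega)) (mE le_rfl (by omega)) d4 d3 (cx (by omega) (by omega) (by omega)) e4
        (x3 d1 (by omega))))
    omega
  · have := x3 (i := u - 1) (a := 0) (b := 0 + t) (by omega) (by omega)
    rwa [pE, zpow_zero, cj_one] at this

end Cfsg.Agent.H27
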